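import Mathlib
import Cfsg.Agent.H20.FixedPoints

set_option autoImplicit false

/-! Elementary facts about commutators with an element of order three. -/

open scoped commutatorElement

namespace Cfsg.Agent.H84.CubicBlock

variable {S : Type*} [Group S]

theorem conj_mem_norm {H : Subgroup S} {g h : S} (hg : g ∈ Subgroup.normalizer (H : Set S)) (hh : h ∈ H) :
    g * h * g⁻¹ ∈ H := (Subgroup.mem_normalizer_iff.mp hg h).mp hh

theorem comm_mem_norm {H : Subgroup S} {g h : S} (hg : g ∈ Subgroup.normalizer (H : Set S)) (hh : h ∈ H) :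
    ⁅h, g⁆ ∈ H := by
  rw [commutatorElement_def, show h * g * h⁻¹ * g⁻¹ = h * (g * h⁻¹ * g⁻¹) by group]
  exact H.mul_mem hh (conj_mem_norm hg (H.inv_mem hh))

/-- In an abelian `A` normalized by `b`, every element of `[A, ⟨b⟩]` is a single commutator. -/
theorem exists_comm_eq [Finite S] {A : Subgroup S} (hA : IsMulCommutative A) {b : S}
    (hb : b ∈ Subgroup.normalizer (A : Set S)) {c : S} (hc : c ∈ ⁅A, Subgroup.zpowers b⁆) :
    ∃ a ∈ A, ⁅a, b⁆ = c := by
  have cA : ∀ x ∈ A, ∀ y ∈ A, x * y = y * x := fun x hx y hy =>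
    congrArg Subtype.val (hA.is_comm.comm ⟨x, hx⟩ ⟨y, hy⟩)
  have hmul : ∀ x ∈ A, ∀ y ∈ A, ⁅x * y, b⁆ = ⁅x, b⁆ * ⁅y, b⁆ := by
    intro x hx y hy
    rw [show ⁅x * y, b⁆ = x * ⁅y, b⁆ * x⁻¹ * ⁅x, b⁆ by simp only [commutatorElement_def]; group,
      cA x hx _ (comm_mem_norm hb hy), mul_inv_cancel_right, cA _ (comm_mem_norm hb hy) _
        (comm_mem_norm hb hx)]
  let I : Subgroup S :=
    { carrier := {y | ∃ a ∈ A, ⁅a, b⁆ = y}
      one_mem' := ⟨1, A.one_mem, by simp⟩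
      mul_mem' := by
        rintro _ _ ⟨x, hx, rfl⟩ ⟨y, hy, rfl⟩
        exact ⟨x * y, A.mul_mem hx hy, hmul x hx y hy⟩
      inv_mem' := by
        rintro _ ⟨x, hx, rfl⟩
        refine ⟨x⁻¹, A.inv_mem hx, eq_inv_of_mul_eq_one_left ?_⟩
        rw [← hmul x⁻¹ (A.inv_mem hx) x hx, inv_mul_cancel, commutatorElement_one_left] }
  have hpow : ∀ n : ℕ, ∀ a ∈ A, ⁅a, b ^ n⁆ ∈ I := by
    intro n
    induction n with
    | zero => intro a _; simp [I.one_mem]
    | succ n ih =>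
      intro a ha
      obtain ⟨a', ha', he⟩ := ih a ha
      rw [show ⁅a, b ^ (n + 1)⁆ = ⁅a, b⁆ * (b * ⁅a, b ^ n⁆ * b⁻¹) by
        rw [pow_succ']; simp only [commutatorElement_def]; group]
      refine I.mul_mem ⟨a, ha, rfl⟩ ⟨b * a' * b⁻¹, conj_mem_norm hb ha', ?_⟩
      rw [← he]; simp only [commutatorElement_def]; group
  have : ⁅A, Subgroup.zpowers b⁆ ≤ I := by
    rw [Subgroup.commutator_le]
    intro a ha x hx
    rw [← mem_powers_iff_mem_zpowers] at hx
    obtain ⟨n, rfl⟩ := hx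
    exact hpow n a ha
  exact this hc

/-- A commutator `[a, b]` fixed by `b` has cube one, for `a` in an abelian subgroup and `b^3 = 1`. -/
theorem comm_cube_of_fixed {A : Subgroup S} (hA : IsMulCommutative A) {b : S}
    (hb : b ∈ Subgroup.normalizer (A : Set S)) (hb3 : b ^ 3 = 1) {a : S} (ha : a ∈ A)
    (hfix : b * ⁅a, b⁆ = ⁅a, b⁆ * b) : ⁅a, b⁆ ^ 3 = 1 := by
  have e : b * ⁅a, b⁆ * b⁻¹ = ⁅a, b⁆ := by rw [hfix, mul_inv_cancel_right]
  have e2 : b * (b * ⁅a, b⁆ * b⁻¹) * b⁻¹ = ⁅a, b⁆ := by rw [e, e]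
  calc ⁅a, b⁆ ^ 3 = ⁅a, b⁆ * (b * ⁅a, b⁆ * b⁻¹) * (b * (b * ⁅a, b⁆ * b⁻¹) * b⁻¹) := by
        rw [e2, e, pow_three, mul_assoc]
    _ = a * b ^ 3 * a⁻¹ * (b ^ 3)⁻¹ := by simp only [commutatorElement_def, pow_three]; group
    _ = 1 := by rw [hb3]; group

/-- If `b` centralizes a normal subgroup, so does every `[x, y]` with `y ∈ ⟨b⟩`. -/
theorem comm_commute_of_centralizes {N : Subgroup S} [N.Normal] {b : S} (hb : ∀ n ∈ N, b * n = n * b)
    (X : Subgroup S) : ⁅X, Subgroup.zpowers b⁆ ≤ Subgroup.centralizer (N : Set S) := by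
  have hB : Subgroup.zpowers b ≤ Subgroup.centralizer (N : Set S) := by
    rw [Subgroup.zpowers_le, Subgroup.mem_centralizer_iff]
    exact fun n hn => (hb n hn).symm
  rw [Subgroup.commutator_le]
  intro x _ y hy
  have hn : x * y * x⁻¹ ∈ Subgroup.centralizer (N : Set S) :=
    (Subgroup.normal_centralizer).conj_mem _ (hB hy) x
  rw [commutatorElement_def]
  exact Subgroup.mul_mem _ hn (Subgroup.inv_mem _ (hB hy))

/-- `b` normalizes `[X, ⟨b⟩]` when it normalizes `X`. -/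
theorem mem_normalizer_commutator [Finite S] {X : Subgroup S} {b : S}
    (hb : b ∈ Subgroup.normalizer (X : Set S)) :
    b ∈ Subgroup.normalizer ((⁅X, Subgroup.zpowers b⁆ : Subgroup S) : Set S) := by
  have key : ⁅X, Subgroup.zpowers b⁆.map (MulAut.conj b).toMonoidHom = ⁅X, Subgroup.zpowers b⁆ := by
    rw [Subgroup.map_commutator]
    congr 1
    · exact Subgroup.mem_normalizer_iff_map_conj_eq.mp hb
    · rw [MonoidHom.map_zpowers]; simp
  exact Subgroup.mem_normalizer_iff_map_conj_eq.mpr key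

end Cfsg.Agent.H84.CubicBlock
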