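import Mathlib

set_option autoImplicit false

/-! Representations over the field with three elements of a group with an element `b` of order 3
acting with `rank (b - 1) ≤ 2` and `(b - 1)^2 ≠ 0`: splitting facts and fixed / moved subspaces. -/

open Module
open scoped commutatorElement

namespace Cfsg.Agent.H84.CubicBlock

variable {S : Type*} [Group S] {E : Type*} [AddCommGroup E] [Module (ZMod 3) E]
  (ρ : Representation (ZMod 3) S E)

/-- `ρ g - 1` -/
def disp (g : S) : E →ₗ[ZMod 3] E := ρ g - LinearMap.id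

theorem disp_apply (g : S) (v : E) : disp ρ g v = ρ g v - v := rfl

/-- The rank of `ρ g - 1`. -/
noncomputable def rk (g : S) : ℕ := finrank (ZMod 3) (LinearMap.range (disp ρ g))

theorem mul_apply (g h : S) (v : E) : ρ (g * h) v = ρ g (ρ h v) := by
  rw [map_mul]; rfl

theorem inv_apply_self (g : S) (v : E) : ρ g⁻¹ (ρ g v) = v := by
  rw [← mul_apply, inv_mul_cancel, map_one]; rfl

theorem self_inv_apply (g : S) (v : E) : ρ g (ρ g⁻¹ v) = v := by
  rw [← mul_apply, mul_inv_cancel, map_one]; rfl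

theorem apply_injective (g : S) : Function.Injective (ρ g) :=
  Function.LeftInverse.injective (inv_apply_self ρ g)

theorem rk_mul_le [Finite E] (g h : S) : rk ρ (g * h) ≤ rk ρ g + rk ρ h := by
  have hle : LinearMap.range (disp ρ (g * h)) ≤
      LinearMap.range (disp ρ g) ⊔ (LinearMap.range (disp ρ h)).map (ρ g) := by
    rintro _ ⟨v, rfl⟩
    have : disp ρ (g * h) v = disp ρ g v + ρ g (disp ρ h v) := by
      simp only [disp_apply, mul_apply, map_sub]; abel
    rw [this]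
    exact Submodule.add_mem_sup ⟨v, rfl⟩ (Submodule.mem_map_of_mem ⟨v, rfl⟩)
  unfold rk
  refine (Submodule.finrank_mono hle).trans ((Submodule.finrank_add_le_finrank_add_finrank _ _).trans ?_)
  exact Nat.add_le_add_left (Submodule.finrank_map_le _ _) _

theorem rk_inv [Finite E] (g : S) : rk ρ g⁻¹ = rk ρ g := by
  have key : ∀ x : S, LinearMap.range (disp ρ x⁻¹) ≤ LinearMap.range (disp ρ x) := by
    intro x
    rintro _ ⟨v, rfl⟩
    refine ⟨-(ρ x⁻¹ v), ?_⟩
    rw [map_neg, disp_apply, disp_apply, self_inv_apply]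
    abel
  have h1 := key g
  have h2 := key g⁻¹
  rw [inv_inv] at h2
  unfold rk
  rw [le_antisymm h1 h2]

theorem rk_conj [Finite E] (x g : S) : rk ρ (x * g * x⁻¹) ≤ rk ρ g := by
  have hle : LinearMap.range (disp ρ (x * g * x⁻¹)) ≤ (LinearMap.range (disp ρ g)).map (ρ x) := by
    rintro _ ⟨v, rfl⟩
    refine ⟨disp ρ g (ρ x⁻¹ v), ⟨_, rfl⟩, ?_⟩
    rw [disp_apply, disp_apply, map_sub, self_inv_apply, mul_apply, mul_apply]
  unfold rk
  exact (Submodule.finrank_mono hle).trans (Submodule.finrank_map_le _ _)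

theorem rk_comm_le [Finite E] (x g : S) : rk ρ ⁅x, g⁆ ≤ rk ρ g + rk ρ g := by
  rw [commutatorElement_def]
  refine (rk_mul_le ρ _ _).trans (Nat.add_le_add (rk_conj ρ x g) ?_)
  rw [rk_inv]

/-- The vectors fixed by `H`. -/
def fixSub (H : Subgroup S) : Submodule (ZMod 3) E :=
  ⨅ h : H, LinearMap.ker (disp ρ (h : S))

theorem mem_fixSub {H : Subgroup S} {v : E} : v ∈ fixSub ρ H ↔ ∀ h ∈ H, ρ h v = v := by
  simp [fixSub, Submodule.mem_iInf, LinearMap.mem_ker, disp_apply, sub_eq_zero]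

/-- The subspace generated by the `ρ h v - v`, `h ∈ H`. -/
def moveSub (H : Subgroup S) : Submodule (ZMod 3) E :=
  ⨆ h : H, LinearMap.range (disp ρ (h : S))

theorem disp_mem_moveSub {H : Subgroup S} {h : S} (hh : h ∈ H) (v : E) :
    ρ h v - v ∈ moveSub ρ H :=
  Submodule.mem_iSup_of_mem (⟨h, hh⟩ : H) ⟨v, rfl⟩

theorem mem_moveSub_apply {H : Subgroup S} {h : S} (hh : h ∈ H) {v : E} (hv : v ∈ moveSub ρ H) :
    ρ h v ∈ moveSub ρ H := by
  have := Submodule.add_mem _ (disp_mem_moveSub ρ hh v) hv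
  simpa using this

theorem fixSub_conj {H : Subgroup S} {g : S} (hg : g ∈ Subgroup.normalizer (H : Set S)) {v : E}
    (hv : v ∈ fixSub ρ H) : ρ g v ∈ fixSub ρ H := by
  rw [mem_fixSub] at hv ⊢
  intro h hh
  have hh' : g⁻¹ * h * g ∈ H := (Subgroup.mem_normalizer_iff''.mp hg h).mp hh
  have := congrArg (ρ g) (hv _ hh')
  rwa [mul_apply, mul_apply, self_inv_apply] at this

theorem moveSub_conj {H : Subgroup S} {g : S} (hg : g ∈ Subgroup.normalizer (H : Set S)) {v : E}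
    (hv : v ∈ moveSub ρ H) : ρ g v ∈ moveSub ρ H := by
  have hle : moveSub ρ H ≤ (moveSub ρ H).comap (ρ g) := by
    refine iSup_le fun h => ?_
    rintro _ ⟨w, rfl⟩
    have hh : g * (h : S) * g⁻¹ ∈ H := (Subgroup.mem_normalizer_iff.mp hg _).mp h.2
    have e : ρ g (disp ρ (h : S) w) = ρ (g * (h : S) * g⁻¹) (ρ g w) - ρ g w := by
      rw [disp_apply, map_sub, mul_apply, mul_apply, inv_apply_self]
    rw [Submodule.mem_comap, e]
    exact disp_mem_moveSub ρ hh _
  exact hle hv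

theorem isCompl_fix_move [Finite E] {H : Subgroup S} [Finite H] (h3 : ¬ 3 ∣ Nat.card H) :
    IsCompl (fixSub ρ H) (moveSub ρ H) := by
  classical
  have : Fintype H := Fintype.ofFinite H
  have hn : (Nat.card H : ZMod 3) ≠ 0 := by
    rwa [Ne, ZMod.natCast_eq_zero_iff]
  set e : E →ₗ[ZMod 3] E := (Nat.card H : ZMod 3)⁻¹ • ∑ h : H, ρ (h : S) with he
  have heap : ∀ v, e v = (Nat.card H : ZMod 3)⁻¹ • ∑ h : H, ρ (h : S) v := by
    intro v; simp [he, LinearMap.sum_apply]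
  have efix : ∀ v, e v ∈ fixSub ρ H := by
    intro v
    rw [mem_fixSub]
    intro g hg
    rw [heap, map_smul, map_sum]
    congr 1
    refine Fintype.sum_equiv (Equiv.mulLeft (⟨g, hg⟩ : H)) _ _ fun h => ?_
    rw [← mul_apply]; rfl
  have eid : ∀ v ∈ fixSub ρ H, e v = v := by
    intro v hv
    rw [mem_fixSub] at hv
    rw [heap]
    have : ∑ h : H, ρ (h : S) v = (Nat.card H : ZMod 3) • v := by
      rw [Finset.sum_congr rfl (fun h _ => hv _ h.2), Finset.sum_const, Finset.card_univ,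
        Nat.card_eq_fintype_card, Nat.cast_smul_eq_nsmul]
    rw [this, smul_smul, inv_mul_cancel₀ hn, one_smul]
  have ekill : moveSub ρ H ≤ LinearMap.ker e := by
    refine iSup_le fun g => ?_
    rintro _ ⟨w, rfl⟩
    rw [LinearMap.mem_ker, disp_apply, map_sub, sub_eq_zero, heap, heap]
    congr 1
    refine Fintype.sum_equiv (Equiv.mulRight g) _ _ fun h => ?_
    rw [← mul_apply]; rfl
  refine ⟨?_, ?_⟩
  · rw [disjoint_iff, eq_bot_iff]
    rintro v ⟨hv1, hv2⟩
    have := ekill hv2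
    rw [LinearMap.mem_ker, eid v hv1] at this
    exact this
  · rw [codisjoint_iff, eq_top_iff]
    intro v _
    refine Submodule.mem_sup.mpr ⟨e v, efix v, v - e v, ?_, by abel⟩
    have : v - e v = -((Nat.card H : ZMod 3)⁻¹ • ∑ h : H, (ρ (h : S) v - v)) := by
      rw [Finset.sum_sub_distrib, Finset.sum_const, Finset.card_univ, ← Nat.card_eq_fintype_card,
        ← Nat.cast_smul_eq_nsmul (ZMod 3), smul_sub, smul_smul, inv_mul_cancel₀ hn, one_smul,
        heap]
      abel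
    rw [this]
    exact Submodule.neg_mem _ (Submodule.smul_mem _ _
      (Submodule.sum_mem _ fun h _ => disp_mem_moveSub ρ h.2 v))

/-- The hypothesis on `b`: order dividing 3, `rank (b - 1) ≤ 2`, `(b - 1)^2 ≠ 0`. -/
structure IsCubic (b : S) : Prop where
  inj : Function.Injective ρ
  pow_three : b ^ 3 = 1
  rank_le : rk ρ b ≤ 2
  sq_ne : ∃ v, disp ρ b (disp ρ b v) ≠ 0

variable {ρ} {b : S}

theorem disp_cube (hb3 : b ^ 3 = 1) (v : E) : disp ρ b (disp ρ b (disp ρ b v)) = 0 := by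
  have h3 : ρ b (ρ b (ρ b v)) = v := by
    rw [← mul_apply, ← mul_apply, show b * b * b = b ^ 3 by rw [pow_three, mul_assoc], hb3, map_one]
    rfl
  have key : (3 : ℕ) • (ρ b v - ρ b (ρ b v)) = 0 :=
    ZModModule.char_nsmul_eq_zero 3 _
  simp only [disp_apply, map_sub, h3]
  rw [← key]
  abel

theorem line_killed (hb3 : b ^ 3 = 1) {R : Submodule (ZMod 3) E} (h1 : finrank (ZMod 3) R = 1)
    (hinv : ∀ w ∈ R, disp ρ b w ∈ R) : ∀ w ∈ R, disp ρ b w = 0 := by
  obtain ⟨w₀, hw₀, hspan⟩ := finrank_eq_one_iff'.mp h1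
  obtain ⟨c, hc⟩ := hspan ⟨disp ρ b w₀, hinv _ w₀.2⟩
  have hc' : c • (w₀ : E) = disp ρ b w₀ := congrArg Subtype.val hc
  have hne : (w₀ : E) ≠ 0 := fun h => hw₀ (Subtype.ext h)
  have h0 := disp_cube (ρ := ρ) hb3 (w₀ : E)
  rw [← hc', map_smul, ← hc', map_smul, map_smul, ← hc', smul_smul, smul_smul] at h0
  have hc0 : c = 0 := by
    rcases smul_eq_zero.mp h0 with h | h
    · simpa using h
    · exact absurd h hne
  intro w hw
  obtain ⟨d, hd⟩ := hspan ⟨w, hw⟩
  have hd' : d • (w₀ : E) = w := congrArg Subtype.val hd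
  rw [← hd', map_smul, ← hc', hc0, zero_smul, smul_zero]

theorem IsCubic.split [Finite E] (h : IsCubic ρ b) {V₁ V₂ : Submodule (ZMod 3) E}
    (hc : IsCompl V₁ V₂) (h₁ : ∀ v ∈ V₁, ρ b v ∈ V₁) (h₂ : ∀ v ∈ V₂, ρ b v ∈ V₂) :
    (∀ v ∈ V₁, ρ b v = v) ∨ ∀ v ∈ V₂, ρ b v = v := by
  by_contra hcon
  push Not at hcon
  obtain ⟨⟨u₁, hu₁, hu₁'⟩, ⟨u₂, hu₂, hu₂'⟩⟩ := hcon
  have n₁ : ∀ v ∈ V₁, disp ρ b v ∈ V₁ := fun v hv => Submodule.sub_mem _ (h₁ v hv) hv
  have n₂ : ∀ v ∈ V₂, disp ρ b v ∈ V₂ := fun v hv => Submodule.sub_mem _ (h₂ v hv) hv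
  set R₁ := V₁.map (disp ρ b)
  set R₂ := V₂.map (disp ρ b)
  have pos : ∀ {V : Submodule (ZMod 3) E} {u : E}, u ∈ V → ρ b u ≠ u →
      0 < finrank (ZMod 3) (V.map (disp ρ b)) := by
    intro V u hu hu'
    rw [Nat.pos_iff_ne_zero, Ne, Submodule.finrank_eq_zero]
    intro hbot
    have : disp ρ b u ∈ V.map (disp ρ b) := Submodule.mem_map_of_mem hu
    rw [hbot, Submodule.mem_bot, disp_apply, sub_eq_zero] at this
    exact hu' this
  have hdisj : R₁ ⊓ R₂ = ⊥ := by
    rw [eq_bot_iff]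
    rintro w ⟨⟨a, ha, rfl⟩, ⟨a', ha', he⟩⟩
    exact (Submodule.disjoint_def.mp hc.disjoint) _ (n₁ a ha) (he ▸ n₂ a' ha')
  have hsum := Submodule.finrank_sup_add_finrank_inf_eq R₁ R₂
  rw [hdisj, finrank_bot, add_zero] at hsum
  have hle : R₁ ⊔ R₂ ≤ LinearMap.range (disp ρ b) :=
    sup_le (LinearMap.map_le_range) (LinearMap.map_le_range)
  have h2 : finrank (ZMod 3) R₁ + finrank (ZMod 3) R₂ ≤ 2 :=
    hsum ▸ (Submodule.finrank_mono hle).trans h.rank_le
  have p1 : 0 < finrank (ZMod 3) R₁ := pos hu₁ hu₁'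
  have p2 : 0 < finrank (ZMod 3) R₂ := pos hu₂ hu₂'
  have k₁ := line_killed (ρ := ρ) h.pow_three (R := R₁) (by omega)
    (by rintro _ ⟨a, ha, rfl⟩; exact Submodule.mem_map_of_mem (n₁ a ha))
  have k₂ := line_killed (ρ := ρ) h.pow_three (R := R₂) (by omega)
    (by rintro _ ⟨a, ha, rfl⟩; exact Submodule.mem_map_of_mem (n₂ a ha))
  obtain ⟨v, hv⟩ := h.sq_ne
  apply hv
  obtain ⟨v₁, hv₁, v₂, hv₂, rfl⟩ := Submodule.mem_sup.mp
    (hc.sup_eq_top ▸ (Submodule.mem_top : v ∈ (⊤ : Submodule (ZMod 3) E)))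
  rw [map_add, map_add, k₁ _ (Submodule.mem_map_of_mem hv₁), k₂ _ (Submodule.mem_map_of_mem hv₂),
    add_zero]

/-- If `b` is trivial on a subspace invariant under `Y = [Y, b]`, so is `Y`. -/
theorem fixed_of_commutator_eq {Y : Subgroup S} (hY : ⁅Y, Subgroup.zpowers b⁆ = Y)
    {M : Submodule (ZMod 3) E} (hM : ∀ y ∈ Y, ∀ v ∈ M, ρ y v ∈ M) (hb : ∀ v ∈ M, ρ b v = v)
    {y : S} (hy : y ∈ Y) {v : E} (hv : v ∈ M) : ρ y v = v := by
  let K : Subgroup S :=
    { carrier := {g | ∀ v ∈ M, ρ g v = v}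
      one_mem' := fun v _ => by rw [map_one]; rfl
      mul_mem' := fun {g h} hg hh v hv => by rw [mul_apply, hh v hv, hg v hv]
      inv_mem' := fun {g} hg v hv => by
        conv_lhs => rw [← hg v hv]
        rw [inv_apply_self] }
  have hbK : Subgroup.zpowers b ≤ K := by
    rw [Subgroup.zpowers_le]; exact hb
  have : Y ≤ K := by
    refine hY.ge.trans ?_
    rw [Subgroup.commutator_le]
    intro a ha x hx w hw
    have hx' : ∀ u ∈ M, ρ x u = u := hbK hx
    have hxi : ∀ u ∈ M, ρ x⁻¹ u = u := (K.inv_mem (hbK hx))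
    rw [commutatorElement_def, mul_apply, mul_apply, mul_apply, hxi w hw,
      hx' _ (hM _ (Y.inv_mem ha) w hw), self_inv_apply]
  exact this hy v hv

/-- The `±1` eigenspaces of an element squaring to one. -/
theorem isCompl_eigen {z : S} (hz : z * z = 1) :
    IsCompl (LinearMap.ker (disp ρ z)) (LinearMap.ker (ρ z + LinearMap.id)) := by
  have hzz : ∀ v, ρ z (ρ z v) = v := fun v => by rw [← mul_apply, hz, map_one]; rfl
  refine ⟨?_, ?_⟩
  · rw [disjoint_iff, eq_bot_iff]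
    rintro v ⟨h1, h2⟩
    rw [SetLike.mem_coe, LinearMap.mem_ker] at h1 h2
    rw [disp_apply, sub_eq_zero] at h1
    rw [LinearMap.add_apply, h1, LinearMap.id_apply] at h2
    rw [Submodule.mem_bot]
    have h3 : (3 : ℕ) • v = 0 := ZModModule.char_nsmul_eq_zero 3 _
    calc v = (3 : ℕ) • v - (v + v) := by abel
      _ = 0 := by rw [h2, h3, sub_zero]
  · rw [codisjoint_iff, eq_top_iff]
    intro v _
    refine Submodule.mem_sup.mpr ⟨-(v + ρ z v), ?_, -(v - ρ z v), ?_, ?_⟩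
    · rw [LinearMap.mem_ker, disp_apply, map_neg, map_add, hzz]; abel
    · rw [LinearMap.mem_ker, LinearMap.add_apply, LinearMap.id_apply, map_neg, map_sub, hzz]; abel
    · have h3 : (3 : ℕ) • v = 0 := ZModModule.char_nsmul_eq_zero 3 _
      calc -(v + ρ z v) + -(v - ρ z v) = v - (3 : ℕ) • v := by abel
        _ = v := by rw [h3, sub_zero]

theorem mem_ker_add {z : S} {v : E} : v ∈ LinearMap.ker (ρ z + LinearMap.id) ↔ ρ z v = -v := by
  rw [LinearMap.mem_ker, LinearMap.add_apply, LinearMap.id_apply, add_eq_zero_iff_eq_neg]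

theorem mem_ker_disp {z : S} {v : E} : v ∈ LinearMap.ker (disp ρ z) ↔ ρ z v = v := by
  rw [LinearMap.mem_ker, disp_apply, sub_eq_zero]

/-- An element commuting with `z` preserves both eigenspaces of `z`. -/
theorem eigen_invariant {z g : S} (hgz : g * z = z * g) :
    (∀ v, ρ z v = v → ρ z (ρ g v) = ρ g v) ∧ (∀ v, ρ z v = -v → ρ z (ρ g v) = -ρ g v) := by
  refine ⟨fun v hv => ?_, fun v hv => ?_⟩
  · rw [← mul_apply, ← hgz, mul_apply, hv]
  · rw [← mul_apply, ← hgz, mul_apply, hv, map_neg]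

end Cfsg.Agent.H84.CubicBlock
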