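import Mathlib
import Cfsg.Agent.H84.CubicBlock.Space
import Cfsg.Agent.H84.CubicBlock.Grp

set_option autoImplicit false

/-! Odd subgroups `X = [X, b]` normalized by a cubic `b` have order 1 or 13. -/

open Module
open scoped commutatorElement

namespace Cfsg.Agent.H84.CubicBlock

/-- The order of `GL_d(3)`. -/
def gl3 (d : ℕ) : ℕ := ∏ i : Fin d, (3 ^ d - 3 ^ (i : ℕ))

theorem gl3_arith :
    (∀ d ≤ 4, gl3 d ∣ 2 ^ 9 * 3 ^ 6 * 5 * 13) ∧
    (∀ d ≤ 2, ¬ 5 ∣ gl3 d ∧ ¬ 13 ∣ gl3 d) ∧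
    (∀ d ≤ 4, ¬ 5 ^ 2 ∣ gl3 d ∧ ¬ 13 ^ 2 ∣ gl3 d) ∧
    (∀ d ≤ 8, ¬ 5 ^ 3 ∣ gl3 d ∧ ¬ 13 ^ 3 ∣ gl3 d) := by
  refine ⟨?_, ?_, ?_, ?_⟩ <;> intro d hd <;> interval_cases d <;> decide

variable {S : Type*} [Group S] {E : Type*} [AddCommGroup E] [Module (ZMod 3) E] [Finite E]
  {ρ : Representation (ZMod 3) S E} {b : S}

theorem card_linearEquiv_eq (M : Submodule (ZMod 3) E) :
    Nat.card (M ≃ₗ[ZMod 3] M) = gl3 (finrank (ZMod 3) M) := by
  rw [← Nat.card_congr (LinearMap.GeneralLinearGroup.generalLinearEquiv (ZMod 3) M).toEquiv,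
    Nat.card_congr (Units.mapEquiv
      (LinearMap.toMatrixAlgEquiv (Module.finBasis (ZMod 3) M)).toMulEquiv).toEquiv,
    Matrix.card_GL_field, gl3]
  simp

/-- A `3'`-group moving vectors only inside `M` acts faithfully on `M`. -/
theorem card_dvd_gl3 (hinj : Function.Injective ρ) {H : Subgroup S} [Finite H]
    (h3 : ¬ 3 ∣ Nat.card H) {M : Submodule (ZMod 3) E} (hM : ∀ h ∈ H, ∀ v, ρ h v - v ∈ M) :
    Nat.card H ∣ gl3 (finrank (ZMod 3) M) := by
  have hinv : ∀ h ∈ H, ∀ v ∈ M, ρ h v ∈ M := fun h hh v hv => by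
    simpa using M.add_mem (hM h hh v) hv
  let φ : H →* (M →ₗ[ZMod 3] M) :=
    { toFun := fun h => (ρ (h : S)).restrict (hinv h h.2)
      map_one' := by ext v; simp
      map_mul' := fun g h => by ext v; simp [mul_apply] }
  let ψ : H →* (M ≃ₗ[ZMod 3] M) :=
    (LinearMap.GeneralLinearGroup.generalLinearEquiv (ZMod 3) M).toMonoidHom.comp φ.toHomUnits
  have hψ : Function.Injective ψ := by
    rw [← MonoidHom.ker_eq_bot_iff, eq_bot_iff]
    intro h hh
    have htriv : ∀ v ∈ M, ρ (h : S) v = v := by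
      intro v hv
      have := congrArg (fun e : M ≃ₗ[ZMod 3] M => ((e ⟨v, hv⟩ : M) : E)) (MonoidHom.mem_ker.mp hh)
      simpa [ψ, φ] using this
    have hpow : ∀ (n : ℕ) (v : E), ρ ((h : S) ^ n) v = v + n • (ρ (h : S) v - v) := by
      intro n
      induction n with
      | zero => intro v; simp
      | succ n ih =>
        intro v
        rw [pow_succ', mul_apply, ih, map_add, map_nsmul, htriv _ (hM _ h.2 v), succ_nsmul]
        abel
    have hh3 : (h : S) ^ 3 = 1 := by
      apply hinj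
      ext v
      rw [hpow, ZModModule.char_nsmul_eq_zero 3, add_zero, map_one]
      rfl
    have : orderOf h ∣ 3 := by
      apply orderOf_dvd_of_pow_eq_one
      exact Subtype.ext (by simpa using hh3)
    rcases (Nat.dvd_prime Nat.prime_three).mp this with h1 | h1
    · rw [Subgroup.mem_bot, ← orderOf_eq_one_iff]; exact h1
    · exact absurd (h1 ▸ orderOf_dvd_natCard h) h3
  rw [← card_linearEquiv_eq]
  exact Subgroup.card_dvd_of_injective ψ hψ

/-- Everything generated by elements moving only inside `M` moves only inside `M`. -/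
theorem closure_moves {s : Set S} {M : Submodule (ZMod 3) E} (hM : ∀ x ∈ s, ∀ v, ρ x v - v ∈ M) :
    ∀ h ∈ Subgroup.closure s, ∀ v, ρ h v - v ∈ M := by
  intro h hh
  induction hh using Subgroup.closure_induction with
  | mem x hx => exact hM x hx
  | one => intro v; simp
  | mul x y _ _ hx hy =>
    intro v
    rw [mul_apply, show ρ x (ρ y v) - v = (ρ x (ρ y v) - ρ y v) + (ρ y v - v) by abel]
    exact M.add_mem (hx _) (hy _)
  | inv x _ hx =>
    intro v
    have := M.neg_mem (hx (ρ x⁻¹ v))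
    simpa [self_inv_apply] using this

theorem zpowers_moves {x : S} :
    ∀ h ∈ Subgroup.zpowers x, ∀ v, ρ h v - v ∈ LinearMap.range (disp ρ x) := by
  rw [Subgroup.zpowers_eq_closure]
  exact closure_moves (fun y hy v => by rw [Set.mem_singleton_iff] at hy; exact ⟨v, by rw [hy]; rfl⟩)

variable [Finite S]

/-- An `r`-element (`r ≠ 3` odd) of rank at most 4 has order dividing `r`, and `r ∈ {5, 13}`,
and its rank is at least 3 unless it is trivial. -/
theorem small_rank_element (hinj : Function.Injective ρ) {r : ℕ} (hr : r.Prime) (hr2 : r ≠ 2)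
    (hr3 : r ≠ 3) {x : S} {k : ℕ} (hx : orderOf x = r ^ k) (hrk : rk ρ x ≤ 4) :
    x ^ r = 1 ∧ (x ≠ 1 → (r = 5 ∨ r = 13) ∧ 3 ≤ rk ρ x) := by
  have h3 : ¬ 3 ∣ Nat.card (Subgroup.zpowers x) := by
    rw [Nat.card_zpowers, hx]
    intro h
    exact hr3 ((Nat.prime_dvd_prime_iff_eq Nat.prime_three hr).mp
      (Nat.prime_three.dvd_of_dvd_pow h)).symm
  have hd := card_dvd_gl3 hinj h3 (zpowers_moves (ρ := ρ))
  rw [Nat.card_zpowers, hx] at hd
  rcases Nat.eq_zero_or_pos k with rfl | hk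
  · rw [pow_zero, orderOf_eq_one_iff] at hx
    exact ⟨by rw [hx, one_pow], fun h => absurd hx h⟩
  have hr1 : r ∣ gl3 (rk ρ x) := (dvd_pow_self r hk.ne').trans hd
  have hr' : r = 5 ∨ r = 13 := by
    have hd1 := hr1.trans (gl3_arith.1 _ hrk)
    rcases hr.dvd_mul.mp hd1 with h | h
    · rcases hr.dvd_mul.mp h with h | h
      · rcases hr.dvd_mul.mp h with h | h
        · exact absurd ((Nat.prime_dvd_prime_iff_eq hr Nat.prime_two).mp (hr.dvd_of_dvd_pow h)) hr2
        · exact absurd ((Nat.prime_dvd_prime_iff_eq hr Nat.prime_three).mp (hr.dvd_of_dvd_pow h)) hr3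
      · exact Or.inl ((Nat.prime_dvd_prime_iff_eq hr (by norm_num)).mp h)
    · exact Or.inr ((Nat.prime_dvd_prime_iff_eq hr (by norm_num)).mp h)
  have hk1 : k = 1 := by
    by_contra hne
    have : r ^ 2 ∣ gl3 (rk ρ x) := (pow_dvd_pow r (by omega)).trans hd
    rcases hr' with rfl | rfl
    · exact (gl3_arith.2.2.1 _ hrk).1 this
    · exact (gl3_arith.2.2.1 _ hrk).2 this
  rw [hk1, pow_one] at hx
  refine ⟨by rw [← hx]; exact pow_orderOf_eq_one x, fun _ => ⟨hr', ?_⟩⟩
  by_contra hlt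
  rcases hr' with rfl | rfl
  · exact (gl3_arith.2.1 _ (by omega)).1 hr1
  · exact (gl3_arith.2.1 _ (by omega)).2 hr1

/-- Two `r`-elements of rank at most 4 generating an `r`-group commute. -/
theorem small_rank_commute (hinj : Function.Injective ρ) {r : ℕ} [hr : Fact r.Prime]
    (hr' : r = 5 ∨ r = 13) {X : Subgroup S} (hX : IsPGroup r X) {x y : S} (hx : x ∈ X) (hy : y ∈ X)
    (hxk : rk ρ x ≤ 4) (hyk : rk ρ y ≤ 4) : x * y = y * x := by
  set H := Subgroup.closure ({x, y} : Set S) with hH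
  have hHX : H ≤ X := (Subgroup.closure_le _).mpr (by
    intro z hz
    rcases hz with rfl | rfl
    · exact hx
    · exact hy)
  obtain ⟨k, hk⟩ := (hX.to_le hHX).exists_card_eq
  have h3 : ¬ 3 ∣ Nat.card H := by
    rw [hk]
    intro h
    have := (Nat.prime_dvd_prime_iff_eq Nat.prime_three hr.out).mp (Nat.prime_three.dvd_of_dvd_pow h)
    omega
  have hd := card_dvd_gl3 hinj h3 (M := LinearMap.range (disp ρ x) ⊔ LinearMap.range (disp ρ y))
    (closure_moves (by
      intro z hz v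
      rcases hz with rfl | rfl
      · exact Submodule.mem_sup_left ⟨v, rfl⟩
      · exact Submodule.mem_sup_right ⟨v, rfl⟩))
  have hdim : finrank (ZMod 3) (LinearMap.range (disp ρ x) ⊔ LinearMap.range (disp ρ y) :
      Submodule (ZMod 3) E) ≤ 8 :=
    (Submodule.finrank_add_le_finrank_add_finrank _ _).trans (Nat.add_le_add hxk hyk)
  rw [hk] at hd
  have hk2 : k ≤ 2 := by
    by_contra hlt
    have h3d := (pow_dvd_pow r (by omega : 3 ≤ k)).trans hd
    rcases hr' with rfl | rfl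
    · exact (gl3_arith.2.2.2 _ hdim).1 h3d
    · exact (gl3_arith.2.2.2 _ hdim).2 h3d
  have hcomm : IsMulCommutative H := by
    interval_cases k
    · have : H = ⊥ := Subgroup.card_eq_one.mp (by simpa using hk)
      exact this ▸ inferInstance
    · have : IsCyclic H := isCyclic_of_prime_card (p := r) (by simpa using hk)
      exact inferInstance
    · exact ⟨⟨(IsPGroup.commGroupOfCardEqPrimeSq hk).mul_comm⟩⟩
  exact congrArg Subtype.val (hcomm.is_comm.comm
    ⟨x, Subgroup.subset_closure (Set.mem_insert _ _)⟩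
    ⟨y, Subgroup.subset_closure (Set.mem_insert_of_mem _ rfl)⟩)

/-- An abelian `r`-group all of whose elements have rank at most 4 has order dividing `r`. -/
theorem small_rank_abelian (hinj : Function.Injective ρ) {r : ℕ} [hr : Fact r.Prime] (hr2 : r ≠ 2)
    (hr3 : r ≠ 3) {A : Subgroup S} (hA : IsMulCommutative A) (hAp : IsPGroup r A)
    (hrk : ∀ a ∈ A, rk ρ a ≤ 4) : Nat.card A ∣ r := by
  have ord : ∀ a ∈ A, ∃ k, orderOf a = r ^ k := fun a ha => by
    obtain ⟨k, hk⟩ := IsPGroup.iff_orderOf.mp hAp ⟨a, ha⟩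
    exact ⟨k, by rw [← hk, Subgroup.orderOf_mk]⟩
  have cA : ∀ x ∈ A, ∀ y ∈ A, x * y = y * x := fun x hx y hy =>
    congrArg Subtype.val (hA.is_comm.comm ⟨x, hx⟩ ⟨y, hy⟩)
  have h3 : ∀ H : Subgroup S, H ≤ A → ¬ 3 ∣ Nat.card H := by
    intro H hH h
    obtain ⟨k, hk⟩ := (hAp.to_le hH).exists_card_eq
    rw [hk] at h
    exact hr3 ((Nat.prime_dvd_prime_iff_eq Nat.prime_three hr.out).mp
      (Nat.prime_three.dvd_of_dvd_pow h)).symm
  by_cases hbot : A = ⊥
  · rw [hbot, Subgroup.card_bot]; exact one_dvd r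
  obtain ⟨a, ha, ha1⟩ : ∃ a ∈ A, a ≠ 1 := by
    by_contra hno
    push Not at hno
    exact hbot ((Subgroup.eq_bot_iff_forall A).mpr hno)
  obtain ⟨ka, hka⟩ := ord a ha
  obtain ⟨hr', hra⟩ := (small_rank_element hinj hr.out hr2 hr3 hka (hrk a ha)).2 ha1
  set M := LinearMap.range (disp ρ a) with hMdef
  have hAM : ∀ g ∈ A, ∀ v ∈ M, ρ g v ∈ M := by
    rintro g hg _ ⟨w, rfl⟩
    exact ⟨ρ g w, by rw [disp_apply, disp_apply, map_sub, ← mul_apply, ← mul_apply, cA a ha g hg]⟩
  -- nothing else in `A` fixes `M` pointwise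
  have key : ∀ c ∈ A, (∀ v ∈ M, ρ c v = v) → c = 1 := by
    intro c hc hcM
    by_contra hc1
    obtain ⟨kc, hkc⟩ := ord c hc
    obtain ⟨-, hrc⟩ := (small_rank_element hinj hr.out hr2 hr3 hkc (hrk c hc)).2 hc1
    have hZ := isCompl_fix_move (ρ := ρ) (h3 (Subgroup.zpowers c) (by rwa [Subgroup.zpowers_le]))
    set Mc := LinearMap.range (disp ρ c) with hMc
    have hle : Mc ≤ moveSub ρ (Subgroup.zpowers c) := by
      rintro _ ⟨v, rfl⟩; exact disp_mem_moveSub ρ (Subgroup.mem_zpowers c) v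
    have hMfix : M ≤ fixSub ρ (Subgroup.zpowers c) := by
      intro v hv
      rw [mem_fixSub]
      intro g hg
      rw [← mem_powers_iff_mem_zpowers] at hg
      obtain ⟨n, rfl⟩ := hg
      show ρ (c ^ n) v = v
      induction n with
      | zero => simp
      | succ n ih => rw [pow_succ, mul_apply, hcM v hv, ih]
    have hdisj : M ⊓ Mc = ⊥ := by
      rw [eq_bot_iff]
      exact (inf_le_inf hMfix hle).trans hZ.disjoint.le_bot
    have hac : M ⊔ Mc ≤ LinearMap.range (disp ρ (a * c)) := by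
      have haMc : ∀ v ∈ Mc, ρ a v = v := by
        rintro _ ⟨w, rfl⟩
        have h1 : disp ρ a (disp ρ c w) ∈ M := ⟨_, rfl⟩
        have h2 : disp ρ a (disp ρ c w) ∈ Mc := by
          refine ⟨disp ρ a w, ?_⟩
          simp only [disp_apply, map_sub, ← mul_apply, cA a ha c hc]
          abel
        have := Submodule.mem_bot (ZMod 3) |>.mp (hdisj.le ⟨h1, h2⟩)
        rwa [disp_apply, sub_eq_zero] at this
      have hmv : moveSub ρ (Subgroup.zpowers c) ≤ Mc := by
        refine iSup_le fun g => ?_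
        rintro _ ⟨v, rfl⟩
        exact zpowers_moves (ρ := ρ) _ g.2 v
      have hdec : ∀ w : E, ∃ wf wm, ρ c wf = wf ∧ wm ∈ Mc ∧ w = wf + wm := by
        intro w
        obtain ⟨wf, hwf, wm, hwm, he⟩ := Submodule.mem_sup.mp
          (hZ.sup_eq_top ▸ (Submodule.mem_top : w ∈ (⊤ : Submodule (ZMod 3) E)))
        exact ⟨wf, wm, (mem_fixSub ρ).mp hwf c (Subgroup.mem_zpowers c), hmv hwm, he.symm⟩
      refine sup_le ?_ ?_
      · rintro _ ⟨w, rfl⟩
        obtain ⟨wf, wm, hf, hm, rfl⟩ := hdec w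
        refine ⟨wf, ?_⟩
        rw [disp_apply, disp_apply, mul_apply, hf, map_add, haMc wm hm]
        abel
      · rintro _ ⟨w, rfl⟩
        obtain ⟨wf, wm, hf, hm, rfl⟩ := hdec w
        refine ⟨wm, ?_⟩
        have hcm : ρ c wm ∈ Mc := by
          simpa [disp_apply] using Mc.add_mem (⟨wm, rfl⟩ : disp ρ c wm ∈ Mc) hm
        rw [disp_apply, disp_apply, mul_apply, haMc _ hcm, map_add, hf]
        abel
    have hsum := Submodule.finrank_sup_add_finrank_inf_eq M Mc
    rw [hdisj, finrank_bot, add_zero] at hsum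
    have h6 := Submodule.finrank_mono hac
    rw [hsum] at h6
    have := hrk _ (A.mul_mem ha hc)
    unfold rk at this hra hrc
    rw [← hMdef] at hra
    rw [← hMc] at hrc
    omega
  -- restriction to `M` is injective
  let φ : A →* (M →ₗ[ZMod 3] M) :=
    { toFun := fun g => (ρ (g : S)).restrict (hAM g g.2)
      map_one' := by ext v; simp
      map_mul' := fun g h => by ext v; simp [mul_apply] }
  let ψ : A →* (M ≃ₗ[ZMod 3] M) :=
    (LinearMap.GeneralLinearGroup.generalLinearEquiv (ZMod 3) M).toMonoidHom.comp φ.toHomUnits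
  have hψ : Function.Injective ψ := by
    rw [← MonoidHom.ker_eq_bot_iff, eq_bot_iff]
    intro g hg
    rw [Subgroup.mem_bot]
    refine Subtype.ext (key g g.2 fun v hv => ?_)
    have := congrArg (fun e : M ≃ₗ[ZMod 3] M => ((e ⟨v, hv⟩ : M) : E)) (MonoidHom.mem_ker.mp hg)
    simpa [ψ, φ] using this
  have hd := Subgroup.card_dvd_of_injective ψ hψ
  rw [card_linearEquiv_eq] at hd
  obtain ⟨k, hk⟩ := hAp.exists_card_eq
  rw [hk] at hd ⊢
  have : k ≤ 1 := by
    by_contra hlt
    have h2 := (pow_dvd_pow r (by omega : 2 ≤ k)).trans hd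
    rcases hr' with rfl | rfl
    · exact (gl3_arith.2.2.1 _ (hrk a ha)).1 h2
    · exact (gl3_arith.2.2.1 _ (hrk a ha)).2 h2
  calc r ^ k ∣ r ^ 1 := pow_dvd_pow r this
    _ = r := pow_one r

/-- The main odd lemma. -/
theorem card_commutator_odd (hc : IsCubic ρ b) {r : ℕ} [hr : Fact r.Prime] (hr2 : r ≠ 2)
    (hr3 : r ≠ 3) {X : Subgroup S} (hX : IsPGroup r X) (hbX : b ∈ Subgroup.normalizer (X : Set S))
    (hne : ⁅X, Subgroup.zpowers b⁆ ≠ ⊥) :
    r = 13 ∧ Nat.card ↥⁅X, Subgroup.zpowers b⁆ = 13 ∧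
      ∀ x ∈ ⁅X, Subgroup.zpowers b⁆, b * x = x * b → x = 1 := by
  set B := Subgroup.zpowers b with hB
  set Y := ⁅X, B⁆ with hY
  have hBX : B ≤ Subgroup.normalizer (X : Set S) := by rwa [hB, Subgroup.zpowers_le]
  have hYX : Y ≤ X := H20.commutator_le_of_le_normalizer hBX
  have hYp : IsPGroup r Y := hX.to_le hYX
  have hbY : b ∈ Subgroup.normalizer (Y : Set S) := mem_normalizer_commutator hbX
  have hgen : ∀ x : S, ∀ y ∈ B, rk ρ ⁅x, y⁆ ≤ 4 := by
    intro x y hy
    rw [hB, ← mem_powers_iff_mem_zpowers] at hy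
    obtain ⟨n, rfl⟩ := hy
    refine (rk_comm_le ρ x (b ^ n)).trans ?_
    have : rk ρ (b ^ n) ≤ 2 := by
      rw [← Nat.mod_add_div n 3, pow_add, pow_mul, hc.pow_three, one_pow, mul_one]
      have : n % 3 < 3 := Nat.mod_lt _ (by norm_num)
      interval_cases n % 3
      · have h0 : disp ρ (b ^ 0) = 0 := by ext v; simp [disp_apply]
        unfold rk; rw [h0, LinearMap.range_zero, finrank_bot]; exact Nat.zero_le _
      · rw [pow_one]; exact hc.rank_le
      · rw [show b ^ 2 = b⁻¹ by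
          apply eq_inv_of_mul_eq_one_left
          rw [← pow_succ]; exact hc.pow_three, rk_inv]
        exact hc.rank_le
    omega
  obtain ⟨g, hg, hg1⟩ : ∃ g ∈ Y, g ≠ 1 ∧ rk ρ g ≤ 4 := by
    by_contra hno
    push Not at hno
    apply hne
    rw [eq_bot_iff, hY, Subgroup.commutator_le]
    intro x hx y hy
    rw [Subgroup.mem_bot]
    by_contra h1
    exact absurd (hgen x y hy) (not_le.mpr (hno _ (Subgroup.commutator_mem_commutator hx hy) h1))
  obtain ⟨k, hk⟩ := IsPGroup.iff_orderOf.mp hYp ⟨g, hg⟩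
  rw [Subgroup.orderOf_mk] at hk
  have hr' := ((small_rank_element hc.inj hr.out hr2 hr3 hk hg1.2).2 hg1.1).1
  have hYab : IsMulCommutative Y := by
    rw [hY, Subgroup.commutator_def]
    apply Subgroup.isMulCommutative_closure
    rintro _ ⟨x, hx, y, hy, rfl⟩ _ ⟨x', hx', y', hy', rfl⟩
    exact small_rank_commute hc.inj hr' hX
      (hYX (Subgroup.commutator_mem_commutator hx hy))
      (hYX (Subgroup.commutator_mem_commutator hx' hy')) (hgen _ _ hy) (hgen _ _ hy')
  have hBcard : Nat.card B ∣ 3 := by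
    rw [hB, Nat.card_zpowers]; exact orderOf_dvd_of_pow_eq_one hc.pow_three
  have hcop : (Nat.card B).Coprime (Nat.card X) := by
    obtain ⟨k, hk⟩ := hX.exists_card_eq
    rw [hk]
    exact Nat.Coprime.pow_right k (Nat.Coprime.coprime_dvd_left hBcard
      ((Nat.coprime_primes Nat.prime_three hr.out).mpr (fun h => hr3 h.symm)))
  have hYY : ⁅Y, B⁆ = Y := H20.commutator_commutator_eq hBX hcop
    (Or.inr (H20.isSolvable_of_isPGroup hX))
  have hall : ∀ y ∈ Y, rk ρ y ≤ 4 ∧ (b * y = y * b → y = 1) := by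
    intro y hy
    rw [← hYY] at hy
    obtain ⟨a, ha, rfl⟩ := exists_comm_eq hYab hbY hy
    refine ⟨hgen a b (Subgroup.mem_zpowers b), fun hfix => ?_⟩
    have h3 := comm_cube_of_fixed hYab hbY hc.pow_three ha hfix
    obtain ⟨k, hk⟩ := IsPGroup.iff_orderOf.mp hYp ⟨⁅a, b⁆, comm_mem_norm hbY ha⟩
    rw [Subgroup.orderOf_mk] at hk
    have hd := orderOf_dvd_of_pow_eq_one h3
    rw [hk] at hd
    rw [← orderOf_eq_one_iff, hk]
    rcases Nat.eq_zero_or_pos k with rfl | hkp
    · rw [pow_zero]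
    · exact absurd ((Nat.prime_dvd_prime_iff_eq hr.out Nat.prime_three).mp
        ((dvd_pow_self r hkp.ne').trans hd)) hr3
  have hcard : Nat.card Y = r := by
    rcases (Nat.dvd_prime hr.out).mp (small_rank_abelian hc.inj hr2 hr3 hYab hYp
      (fun y hy => (hall y hy).1)) with h | h
    · exact absurd (Subgroup.card_eq_one.mp h) hne
    · exact h
  -- `b` permutes the `r - 1` nontrivial elements without fixed points, so `r ≡ 1 (mod 3)`
  rcases hr' with rfl | rfl
  · exfalso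
    obtain ⟨g, hg, hg1⟩ : ∃ g ∈ Y, g ≠ 1 := by
      by_contra hno
      push Not at hno
      exact hne ((Subgroup.eq_bot_iff_forall Y).mpr hno)
    have hog : orderOf g = 5 := by
      have h5 : g ^ 5 = 1 := by
        have := pow_card_eq_one' (x := (⟨g, hg⟩ : Y))
        rw [hcard] at this
        exact congrArg Subtype.val this
      exact orderOf_eq_prime h5 hg1
    have hz : Subgroup.zpowers g = Y := Subgroup.eq_of_le_of_card_ge
      (by rwa [Subgroup.zpowers_le]) (by rw [Nat.card_zpowers, hog, hcard])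
    have hconj : b * g * b⁻¹ ∈ Subgroup.zpowers g := hz ▸ conj_mem_norm hbY hg
    rw [← mem_powers_iff_mem_zpowers] at hconj
    obtain ⟨i, hi⟩ := hconj
    change g ^ i = b * g * b⁻¹ at hi
    have hiter : g ^ (i * i * i) = b ^ 3 * g * (b ^ 3)⁻¹ := by
      rw [pow_mul, pow_mul, hi, conj_pow, conj_pow, hi, conj_pow, hi]
      simp only [pow_three]
      group
    rw [hc.pow_three, inv_one, mul_one, one_mul] at hiter
    nth_rewrite 2 [← pow_one g] at hiter
    rw [pow_eq_pow_iff_modEq, hog] at hiter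
    have hi1 : i % 5 = 1 := by
      have h5 : i % 5 < 5 := Nat.mod_lt _ (by norm_num)
      rw [Nat.ModEq, Nat.mul_mod, Nat.mul_mod i i] at hiter
      interval_cases h : i % 5 <;> simp_all
    rw [← pow_mod_orderOf, hog, hi1, pow_one] at hi
    exact hg1 ((hall g hg).2 (mul_inv_eq_iff_eq_mul.mp hi.symm))
  · exact ⟨rfl, hcard, fun y hy => (hall y hy).2⟩

end Cfsg.Agent.H84.CubicBlock
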