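import Mathlib
import Cfsg.Agent.H84.CubicBlock.Space
import Cfsg.Agent.H84.CubicBlock.Grp

set_option autoImplicit false

/-! `2`-groups `Y = [Y, b]` acting with a cubic `b`: the moved space, central involutions, and the
weights of a four group permuted by `b`. -/

open Module
open scoped commutatorElement

namespace Cfsg.Agent.H84.CubicBlock

variable {S : Type*} [Group S] {E : Type*} [AddCommGroup E] [Module (ZMod 3) E] [Finite E]
  (ρ : Representation (ZMod 3) S E) (b : S)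

/-- A nontrivial 2-group `Y` with `Y = [Y, b]` for a cubic `b`. -/
structure TwoSetting (Y : Subgroup S) : Prop where
  cubic : IsCubic ρ b
  isTwo : IsPGroup 2 Y
  norm : b ∈ Subgroup.normalizer (Y : Set S)
  gen : ⁅Y, Subgroup.zpowers b⁆ = Y
  ne_bot : Y ≠ ⊥

variable {ρ b} [Finite S] {Y : Subgroup S}

theorem TwoSetting.three_not_dvd (h : TwoSetting ρ b Y) : ¬ 3 ∣ Nat.card Y := by
  obtain ⟨k, hk⟩ := h.isTwo.exists_card_eq
  rw [hk]
  intro h3
  have := Nat.prime_three.dvd_of_dvd_pow h3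
  omega

theorem TwoSetting.fix_b (h : TwoSetting ρ b Y) {v : E} (hv : v ∈ fixSub ρ Y) : ρ b v = v := by
  have hc := isCompl_fix_move (ρ := ρ) h.three_not_dvd
  rcases h.cubic.split hc (fun v hv => fixSub_conj ρ h.norm hv) (fun v hv => moveSub_conj ρ h.norm hv)
    with h1 | h1
  · exact h1 v hv
  · exfalso
    apply h.ne_bot
    rw [Subgroup.eq_bot_iff_forall]
    intro y hy
    apply h.cubic.inj
    ext w
    obtain ⟨u, hu, m, hm, rfl⟩ := Submodule.mem_sup.mp
      (hc.sup_eq_top ▸ (Submodule.mem_top : w ∈ (⊤ : Submodule (ZMod 3) E)))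
    rw [map_add, (mem_fixSub ρ).mp hu y hy,
      fixed_of_commutator_eq h.gen (fun y hy v hv => mem_moveSub_apply ρ hy hv) h1 hy hm, map_one]
    rfl

/-- A nontrivial involution centralizing `Y` and `b` is `-1` exactly on the moved space. -/
theorem TwoSetting.central_involution (h : TwoSetting ρ b Y) {z : S} (hz : z ∈ Y) (hz1 : z ≠ 1)
    (hzz : z * z = 1) (hzY : ∀ y ∈ Y, y * z = z * y) (hzb : b * z = z * b) :
    fixSub ρ Y = LinearMap.ker (disp ρ z) ∧ moveSub ρ Y = LinearMap.ker (ρ z + LinearMap.id) := by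
  have hc := isCompl_eigen (ρ := ρ) hzz
  have p1 : ∀ y, y * z = z * y → ∀ v ∈ LinearMap.ker (disp ρ z), ρ y v ∈ LinearMap.ker (disp ρ z) := by
    intro y hy v hv
    rw [mem_ker_disp] at hv ⊢
    exact (eigen_invariant hy).1 v hv
  have m1 : ∀ y, y * z = z * y → ∀ v ∈ LinearMap.ker (ρ z + LinearMap.id),
      ρ y v ∈ LinearMap.ker (ρ z + LinearMap.id) := by
    intro y hy v hv
    rw [mem_ker_add] at hv ⊢
    exact (eigen_invariant hy).2 v hv
  rcases h.cubic.split hc (p1 b hzb) (m1 b hzb) with h1 | h1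
  · have hle : LinearMap.ker (disp ρ z) ≤ fixSub ρ Y := by
      intro v hv
      rw [mem_fixSub]
      intro y hy
      exact fixed_of_commutator_eq h.gen (fun y hy v hv => p1 y (hzY y hy) v hv) h1 hy hv
    have hfix : fixSub ρ Y = LinearMap.ker (disp ρ z) :=
      le_antisymm (fun v hv => by rw [mem_ker_disp]; exact (mem_fixSub ρ).mp hv z hz) hle
    refine ⟨hfix, ?_⟩
    apply le_antisymm
    · refine iSup_le fun y => ?_
      rintro _ ⟨v, rfl⟩
      obtain ⟨u, hu, m, hm, rfl⟩ := Submodule.mem_sup.mp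
        (hc.sup_eq_top ▸ (Submodule.mem_top : v ∈ (⊤ : Submodule (ZMod 3) E)))
      rw [map_add, show disp ρ (y : S) u = 0 by
        rw [disp_apply, (mem_fixSub ρ).mp (hle hu) y y.2, sub_self], zero_add, disp_apply]
      exact Submodule.sub_mem _ (m1 _ (hzY _ y.2) m hm) hm
    · intro v hv
      rw [mem_ker_add] at hv
      have h2 := disp_mem_moveSub ρ hz v
      rw [hv] at h2
      have : v = -v - v := by
        have h3 : (3 : ℕ) • v = 0 := ZModModule.char_nsmul_eq_zero 3 _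
        calc v = v - (3 : ℕ) • v := by rw [h3, sub_zero]
          _ = -v - v := by abel
      rw [this]; exact h2
  · exfalso
    apply hz1
    apply h.cubic.inj
    ext w
    obtain ⟨u, hu, m, hm, rfl⟩ := Submodule.mem_sup.mp
      (hc.sup_eq_top ▸ (Submodule.mem_top : w ∈ (⊤ : Submodule (ZMod 3) E)))
    rw [map_add, (mem_ker_disp).mp hu,
      fixed_of_commutator_eq h.gen (fun y hy v hv => m1 y (hzY y hy) v hv) h1 hz hm, map_one]
    rfl

theorem TwoSetting.central_involution_unique (h : TwoSetting ρ b Y) {z z' : S} (hz : z ∈ Y)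
    (hz1 : z ≠ 1) (hzz : z * z = 1) (hzY : ∀ y ∈ Y, y * z = z * y) (hzb : b * z = z * b)
    (hz' : z' ∈ Y) (hz1' : z' ≠ 1) (hzz' : z' * z' = 1) (hzY' : ∀ y ∈ Y, y * z' = z' * y)
    (hzb' : b * z' = z' * b) : z' = z := by
  obtain ⟨f, m⟩ := h.central_involution hz hz1 hzz hzY hzb
  obtain ⟨f', m'⟩ := h.central_involution hz' hz1' hzz' hzY' hzb'
  apply h.cubic.inj
  ext w
  obtain ⟨u, hu, m₀, hm, rfl⟩ := Submodule.mem_sup.mp
    ((isCompl_fix_move (ρ := ρ) h.three_not_dvd).sup_eq_top ▸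
      (Submodule.mem_top : w ∈ (⊤ : Submodule (ZMod 3) E)))
  rw [map_add, map_add, mem_ker_disp.mp (f'.le hu), mem_ker_disp.mp (f.le hu),
    mem_ker_add.mp (m'.le hm), mem_ker_add.mp (m.le hm)]

/-- A `b`-invariant abelian subgroup not centralized by `b` contains a moved involution. -/
theorem exists_moved_involution (hb3 : b ^ 3 = 1) {N : Subgroup S} (hN : IsMulCommutative N)
    (hN2 : IsPGroup 2 N) (hbN : b ∈ Subgroup.normalizer (N : Set S))
    (hne : ∃ n ∈ N, b * n ≠ n * b) :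
    ∃ a ∈ N, a * a = 1 ∧ b * a * b⁻¹ ≠ a ∧ b * (b * a * b⁻¹) * b⁻¹ = a * (b * a * b⁻¹) := by
  have cN : ∀ x ∈ N, ∀ y ∈ N, x * y = y * x := fun x hx y hy =>
    congrArg Subtype.val (hN.is_comm.comm ⟨x, hx⟩ ⟨y, hy⟩)
  obtain ⟨n, hn, hn'⟩ := hne
  have hc1 : ⁅n, b⁆ ≠ 1 := fun h1 => hn' (commutatorElement_eq_one_iff_mul_comm.mp h1).symm
  have hcN : ⁅n, b⁆ ∈ N := comm_mem_norm hbN hn
  obtain ⟨k, hk⟩ := IsPGroup.iff_orderOf.mp hN2 ⟨⁅n, b⁆, hcN⟩
  rw [Subgroup.orderOf_mk] at hk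
  obtain ⟨j, rfl⟩ : ∃ j, k = j + 1 := by
    refine Nat.exists_eq_succ_of_ne_zero fun h0 => hc1 ?_
    rw [← orderOf_eq_one_iff, hk, h0, pow_zero]
  set a := ⁅n, b⁆ ^ 2 ^ j with ha
  have haN : a ∈ N := N.pow_mem hcN _
  have ha2 : a * a = 1 := by
    rw [ha, ← pow_add, ← two_mul, ← pow_succ', ← hk, pow_orderOf_eq_one]
  have ha1 : a ≠ 1 := by
    intro h1
    have := orderOf_dvd_of_pow_eq_one h1
    rw [hk] at this
    have := Nat.le_of_dvd (by positivity) this
    have : 2 ^ j < 2 ^ (j + 1) := Nat.pow_lt_pow_right (by norm_num) (by omega)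
    omega
  obtain ⟨m, hm, hma⟩ : ∃ m ∈ N, ⁅m, b⁆ = a :=
    exists_comm_eq hN hbN (Subgroup.pow_mem _
      (Subgroup.commutator_mem_commutator hn (Subgroup.mem_zpowers b)) _)
  set a' := b * a * b⁻¹ with ha'
  have ha'N : a' ∈ N := conj_mem_norm hbN haN
  have hne' : a' ≠ a := by
    intro he
    have hfix : b * ⁅m, b⁆ = ⁅m, b⁆ * b := by
      rw [hma]; exact mul_inv_eq_iff_eq_mul.mp he
    have h3 := comm_cube_of_fixed hN hbN hb3 hm hfix
    rw [hma, pow_three, ha2, mul_one] at h3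
    exact ha1 h3
  refine ⟨a, haN, ha2, hne', ?_⟩
  have htel : a * a' * (b * a' * b⁻¹) = 1 := by
    rw [ha', ← hma]
    calc ⁅m, b⁆ * (b * ⁅m, b⁆ * b⁻¹) * (b * (b * ⁅m, b⁆ * b⁻¹) * b⁻¹)
        = m * b ^ 3 * m⁻¹ * (b ^ 3)⁻¹ := by simp only [commutatorElement_def, pow_three]; group
      _ = 1 := by rw [hb3]; group
  have : (a * a') * (a * a') = 1 := by
    rw [mul_assoc, ← mul_assoc a' a a', cN a' ha'N a haN, mul_assoc a a' a', ← mul_assoc a a,
      ha2, one_mul]
    rw [ha', show b * a * b⁻¹ * (b * a * b⁻¹) = b * (a * a) * b⁻¹ by group, ha2]; group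
  exact (eq_inv_of_mul_eq_one_right htel).trans (inv_eq_of_mul_eq_one_right this)

variable (ρ b) in
/-- A pair of commuting involutions `a`, `a'` permuted with their product by `b`. -/
structure FourPair (a a' : S) : Prop where
  sq : a * a = 1
  sq' : a' * a' = 1
  comm : a * a' = a' * a
  conj : b * a * b⁻¹ = a'
  conj' : b * a' * b⁻¹ = a * a'
  ne : a' ≠ a

/-- Weight space for `(a, a')`: signs given by `s`, `t`. -/
def wt (ρ : Representation (ZMod 3) S E) (a a' : S) (s t : ZMod 3) : Submodule (ZMod 3) E :=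
  LinearMap.ker (ρ a - s • LinearMap.id) ⊓ LinearMap.ker (ρ a' - t • LinearMap.id)

omit [Finite E] [Finite S] in
theorem mem_wt {a a' : S} {s t : ZMod 3} {v : E} :
    v ∈ wt ρ a a' s t ↔ ρ a v = s • v ∧ ρ a' v = t • v := by
  simp [wt, sub_eq_zero]

omit [Finite S] in
theorem wt_invariant {a a' g : S} (h1 : g * a = a * g) (h2 : g * a' = a' * g) {s t : ZMod 3} {v : E}
    (hv : v ∈ wt ρ a a' s t) : ρ g v ∈ wt ρ a a' s t := by
  rw [mem_wt] at hv ⊢
  constructor
  · rw [← mul_apply, ← h1, mul_apply, hv.1, map_smul]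
  · rw [← mul_apply, ← h2, mul_apply, hv.2, map_smul]

omit [Finite S] in
theorem FourPair.rotate {a a' : S} (h : FourPair b a a') {s t : ZMod 3} {v : E}
    (hv : v ∈ wt ρ a a' s t) : ρ b v ∈ wt ρ a a' (s * t) s := by
  rw [mem_wt] at hv ⊢
  have e1 : a' * b = b * a := by rw [← h.conj]; group
  have e2 : a * a' * b = b * a' := by rw [← h.conj']; group
  have e3 : a * b = b * (a * a') := by
    calc a * b = a * a' * (a' * b) := by
          rw [mul_assoc, ← mul_assoc a' a' b, h.sq', one_mul]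
      _ = a * a' * b * a := by rw [e1, ← mul_assoc]
      _ = b * (a * a') := by rw [e2, mul_assoc, h.comm]
  constructor
  · rw [← mul_apply, e3, mul_apply, mul_apply, hv.2, map_smul, hv.1, smul_smul, map_smul, mul_comm]
  · rw [← mul_apply, e1, mul_apply, hv.1, map_smul]

omit [Finite S] [Finite E] in
theorem FourPair.decompose {a a' : S} (h : FourPair b a a') (v : E) :
    ∃ v₀ ∈ wt ρ a a' 1 1, ∃ v₁ ∈ wt ρ a a' 1 (-1), ∃ v₂ ∈ wt ρ a a' (-1) 1,
      ∃ v₃ ∈ wt ρ a a' (-1) (-1), v = v₀ + v₁ + v₂ + v₃ ∧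
      v₁ = v + ρ a v - ρ a' v - ρ a (ρ a' v) ∧ v₂ = v - ρ a v + ρ a' v - ρ a (ρ a' v) ∧
      v₃ = v - ρ a v - ρ a' v + ρ a (ρ a' v) := by
  have aa : ∀ w, ρ a (ρ a w) = w := fun w => by rw [← mul_apply, h.sq, map_one]; rfl
  have bb : ∀ w, ρ a' (ρ a' w) = w := fun w => by rw [← mul_apply, h.sq', map_one]; rfl
  have ab : ∀ w, ρ a' (ρ a w) = ρ a (ρ a' w) := fun w => by rw [← mul_apply, ← mul_apply, h.comm]
  refine ⟨v + ρ a v + ρ a' v + ρ a (ρ a' v), ?_, _, ?_, _, ?_, _, ?_, ?_, rfl, rfl, rfl⟩ <;>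
    try simp only [mem_wt, map_add, map_sub, aa, bb, ab, one_smul, neg_smul]
  · exact ⟨by abel, by abel⟩
  · exact ⟨by abel, by abel⟩
  · exact ⟨by abel, by abel⟩
  · exact ⟨by abel, by abel⟩
  · have h3 : (3 : ℕ) • v = 0 := ZModModule.char_nsmul_eq_zero 3 _
    calc v = v + (3 : ℕ) • v := by rw [h3, add_zero]
      _ = _ := by abel

omit [Finite S] [Finite E] in
theorem eq_zero_of_neg_eq {v : E} (h : -v = v) : v = 0 := by
  have h3 : (3 : ℕ) • v = 0 := ZModModule.char_nsmul_eq_zero 3 _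
  calc v = (3 : ℕ) • v - (v + v) := by abel
    _ = 0 := by rw [h3]; nth_rewrite 1 [← h]; rw [neg_add_cancel, sub_zero]

omit [Finite S] in
/-- The three moved weight spaces are lines and `b` is trivial on the trivial weight space. -/
theorem FourPair.lines {a a' : S} (h : FourPair b a a') (hc : IsCubic ρ b) :
    finrank (ZMod 3) (wt ρ a a' 1 (-1)) = 1 ∧ finrank (ZMod 3) (wt ρ a a' (-1) 1) = 1 ∧
      finrank (ZMod 3) (wt ρ a a' (-1) (-1)) = 1 ∧
      finrank (ZMod 3) (LinearMap.ker (ρ a + LinearMap.id)) = 2 ∧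
      ∀ v ∈ wt ρ a a' 1 1, ρ b v = v := by
  have m1 : ((-1 : ZMod 3) * 1) = -1 := mul_one _
  have m2 : ((-1 : ZMod 3) * -1) = 1 := by decide
  have m3 : ((1 : ZMod 3) * -1) = -1 := by decide
  have binj : Function.Injective (ρ b) := apply_injective ρ b
  have mapb : ∀ s t, (wt ρ a a' s t).map (ρ b) ≤ wt ρ a a' (s * t) s := by
    intro s t
    rintro _ ⟨v, hv, rfl⟩
    exact h.rotate hv
  have fr : ∀ s t, finrank (ZMod 3) (wt ρ a a' s t) ≤ finrank (ZMod 3) (wt ρ a a' (s * t) s) := by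
    intro s t
    calc finrank (ZMod 3) (wt ρ a a' s t) = finrank (ZMod 3) ((wt ρ a a' s t).map (ρ b)) :=
          (Submodule.equivMapOfInjective _ binj _).finrank_eq
      _ ≤ _ := Submodule.finrank_mono (mapb s t)
  have f12 := fr 1 (-1)
  have f23 := fr (-1) 1
  have f31 := fr (-1) (-1)
  rw [m3] at f12
  rw [m1] at f23
  rw [m2] at f31
  set L₁ := wt ρ a a' 1 (-1) with hL₁
  set L₂ := wt ρ a a' (-1) 1 with hL₂
  set L₃ := wt ρ a a' (-1) (-1) with hL₃
  have pos : 0 < finrank (ZMod 3) L₁ := by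
    rw [Nat.pos_iff_ne_zero, Ne, Submodule.finrank_eq_zero]
    intro hbot
    have e2 : L₂ = ⊥ := Submodule.finrank_eq_zero.mp (by
      have : finrank (ZMod 3) L₁ = 0 := Submodule.finrank_eq_zero.mpr hbot
      omega)
    have e3 : L₃ = ⊥ := Submodule.finrank_eq_zero.mp (by
      have : finrank (ZMod 3) L₁ = 0 := Submodule.finrank_eq_zero.mpr hbot
      omega)
    have key : ∀ v, ρ a v = v ∧ ρ a' v = v := by
      intro v
      obtain ⟨v₀, h0, v₁, h1, v₂, h2, v₃, h3, he, -⟩ := h.decompose (ρ := ρ) v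
      rw [← hL₁, hbot, Submodule.mem_bot] at h1
      rw [← hL₂, e2, Submodule.mem_bot] at h2
      rw [← hL₃, e3, Submodule.mem_bot] at h3
      rw [h1, h2, h3, add_zero, add_zero, add_zero] at he
      subst he
      simpa using mem_wt.mp h0
    exact h.ne (hc.inj (LinearMap.ext fun v => by rw [(key v).2, (key v).1]))
  have hd12 : L₁ ⊓ L₂ = ⊥ := by
    rw [eq_bot_iff]
    rintro v ⟨h1, h2⟩
    have e1 := (mem_wt.mp h1).1
    have e2 := (mem_wt.mp h2).1
    rw [one_smul] at e1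
    rw [e1, neg_smul, one_smul] at e2
    exact eq_zero_of_neg_eq e2.symm
  have hinj : Function.Injective ((disp ρ b).domRestrict (L₁ ⊔ L₂ : Submodule (ZMod 3) E)) := by
    rw [← LinearMap.ker_eq_bot, eq_bot_iff]
    rintro ⟨v, hv⟩ hk
    obtain ⟨v₁, h1, v₂, h2, rfl⟩ := Submodule.mem_sup.mp hv
    rw [LinearMap.mem_ker, LinearMap.domRestrict_apply, disp_apply, sub_eq_zero] at hk
    change ρ b (v₁ + v₂) = v₁ + v₂ at hk
    rw [map_add] at hk
    have r1 := mem_wt.mp (h.rotate h1)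
    have r2 := mem_wt.mp (h.rotate h2)
    rw [m3] at r1
    rw [m1] at r2
    have w1 := (mem_wt.mp h1).1
    have w2 := (mem_wt.mp h2).1
    simp only [one_smul, neg_smul] at r1 r2 w1 w2
    have hA := congrArg (ρ a) hk
    rw [map_add, map_add, r1.1, r2.1, w1, w2] at hA
    have hv1 : v₁ = 0 := by
      apply eq_zero_of_neg_eq
      calc -v₁ = -(v₁ + v₂) + v₂ := by abel
        _ = (-(ρ b v₁) + -(ρ b v₂)) + v₂ := by rw [← hk]; abel
        _ = v₁ + -v₂ + v₂ := by rw [hA]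
        _ = v₁ := by abel
    rw [hv1, map_zero, zero_add, zero_add] at hk
    have hv2 : v₂ = 0 := by
      apply eq_zero_of_neg_eq
      have := r2.2
      rw [hk, (mem_wt.mp h2).2, one_smul] at this
      exact this.symm
    simp [hv1, hv2]
  have hle := hc.rank_le
  have hsum := Submodule.finrank_sup_add_finrank_inf_eq L₁ L₂
  rw [hd12, finrank_bot, add_zero] at hsum
  have h4 : finrank (ZMod 3) L₁ + finrank (ZMod 3) L₂ ≤ 2 := by
    rw [← hsum]
    calc finrank (ZMod 3) (L₁ ⊔ L₂ : Submodule (ZMod 3) E)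
        = finrank (ZMod 3) (LinearMap.range ((disp ρ b).domRestrict (L₁ ⊔ L₂ : Submodule (ZMod 3) E))) :=
          (LinearMap.finrank_range_of_inj hinj).symm
      _ ≤ finrank (ZMod 3) (LinearMap.range (disp ρ b)) := by
          refine Submodule.finrank_mono ?_
          rintro _ ⟨⟨v, hv⟩, rfl⟩
          exact ⟨v, rfl⟩
      _ ≤ 2 := hle
  refine ⟨by omega, by omega, by omega, ?_, ?_⟩
  · have heq : LinearMap.ker (ρ a + LinearMap.id) = L₂ ⊔ L₃ := by
      apply le_antisymm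
      · intro v hv
        rw [mem_ker_add] at hv
        obtain ⟨v₀, h0, v₁, h1, v₂, h2, v₃, h3, he, -⟩ := h.decompose (ρ := ρ) v
        have w0 := (mem_wt.mp h0).1
        have w1 := (mem_wt.mp h1).1
        have w2 := (mem_wt.mp h2).1
        have w3 := (mem_wt.mp h3).1
        simp only [one_smul, neg_smul] at w0 w1 w2 w3
        rw [he, map_add, map_add, map_add, w0, w1, w2, w3] at hv
        have : v₀ + v₁ = 0 := eq_zero_of_neg_eq (by
          calc -(v₀ + v₁) = -(v₀ + v₁ + v₂ + v₃) + (v₂ + v₃) := by abel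
            _ = v₀ + v₁ + -v₂ + -v₃ + (v₂ + v₃) := by rw [hv]
            _ = v₀ + v₁ := by abel)
        rw [he, this, zero_add]
        exact Submodule.add_mem_sup h2 h3
      · refine sup_le ?_ ?_ <;>
        · intro v hv
          rw [mem_ker_add, (mem_wt.mp hv).1, neg_smul, one_smul]
    have hd23 : L₂ ⊓ L₃ = ⊥ := by
      rw [eq_bot_iff]
      rintro v ⟨h2, h3⟩
      have e1 := (mem_wt.mp h2).2
      have e2 := (mem_wt.mp h3).2
      rw [one_smul] at e1
      rw [e1, neg_smul, one_smul] at e2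
      exact eq_zero_of_neg_eq e2.symm
    have := Submodule.finrank_sup_add_finrank_inf_eq L₂ L₃
    rw [hd23, finrank_bot, add_zero] at this
    rw [heq]; omega
  · have hcompl : IsCompl (wt ρ a a' 1 1) (L₁ ⊔ L₂ ⊔ L₃) := by
      refine ⟨?_, ?_⟩
      · rw [disjoint_iff, eq_bot_iff]
        rintro v ⟨h0, hv⟩
        obtain ⟨u, hu, v₃, h3, rfl⟩ := Submodule.mem_sup.mp hv
        obtain ⟨v₁, h1, v₂, h2, rfl⟩ := Submodule.mem_sup.mp hu
        have A0 := (mem_wt.mp h0)
        have w1 := mem_wt.mp h1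
        have w2 := mem_wt.mp h2
        have w3 := mem_wt.mp h3
        simp only [one_smul, neg_smul, map_add] at A0 w1 w2 w3
        rw [w1.1, w2.1, w3.1, w1.2, w2.2, w3.2] at A0
        have e23 : v₂ + v₃ = 0 := eq_zero_of_neg_eq (by
          calc -(v₂ + v₃) = v₁ + -v₂ + -v₃ - v₁ := by abel
            _ = v₁ + v₂ + v₃ - v₁ := by rw [A0.1]
            _ = v₂ + v₃ := by abel)
        have e13 : v₁ + v₃ = 0 := eq_zero_of_neg_eq (by
          calc -(v₁ + v₃) = -v₁ + v₂ + -v₃ - v₂ := by abel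
            _ = v₁ + v₂ + v₃ - v₂ := by rw [A0.2]
            _ = v₁ + v₃ := by abel)
        have e3 : v₃ = 0 := by
          have h3' := w3.1
          rw [eq_neg_of_add_eq_zero_right e13, map_neg, w1.1, neg_neg] at h3'
          rw [eq_neg_of_add_eq_zero_right e13, eq_zero_of_neg_eq h3', neg_zero]
        rw [Submodule.mem_bot, eq_neg_of_add_eq_zero_left e13, eq_neg_of_add_eq_zero_left e23, e3]
        simp
      · rw [codisjoint_iff, eq_top_iff]
        intro v _
        obtain ⟨v₀, h0, v₁, h1, v₂, h2, v₃, h3, he, -⟩ := h.decompose (ρ := ρ) v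
        refine Submodule.mem_sup.mpr ⟨v₀, h0, v₁ + v₂ + v₃, ?_, by rw [he]; abel⟩
        exact Submodule.add_mem_sup (Submodule.add_mem_sup h1 h2) h3
    have inv0 : ∀ v ∈ wt ρ a a' 1 1, ρ b v ∈ wt ρ a a' 1 1 := fun v hv => by
      simpa using h.rotate hv
    have invU : ∀ v ∈ L₁ ⊔ L₂ ⊔ L₃, ρ b v ∈ L₁ ⊔ L₂ ⊔ L₃ := by
      intro v hv
      obtain ⟨u, hu, v₃, h3, rfl⟩ := Submodule.mem_sup.mp hv
      obtain ⟨v₁, h1, v₂, h2, rfl⟩ := Submodule.mem_sup.mp hu
      have r1 := h.rotate h1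
      have r2 := h.rotate h2
      have r3 := h.rotate h3
      rw [m3] at r1
      rw [m1] at r2
      rw [m2] at r3
      rw [map_add, map_add, show ρ b v₁ + ρ b v₂ + ρ b v₃ = ρ b v₃ + ρ b v₁ + ρ b v₂ by abel]
      exact Submodule.add_mem_sup (Submodule.add_mem_sup r3 r1) r2
    rcases hc.split hcompl inv0 invU with h0 | h0
    · exact h0
    · exfalso
      obtain ⟨v, hv, hv0⟩ := (Submodule.ne_bot_iff L₁).mp (fun e => by
        rw [e, finrank_bot] at pos; omega)
      have hbv := h0 v (Submodule.mem_sup_left (Submodule.mem_sup_left hv))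
      have r := (mem_wt.mp (h.rotate hv)).1
      rw [hbv, (mem_wt.mp hv).1, m3] at r
      simp only [one_smul, neg_smul] at r
      exact hv0 (eq_zero_of_neg_eq r.symm)

end Cfsg.Agent.H84.CubicBlock
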