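import Mathlib
import Cfsg.Agent.H84.CubicBlock.TwoBasic
import Cfsg.Agent.H84.CubicBlock.Odd

set_option autoImplicit false

/-! The class two case: `Y` is extraspecial of order 8 or 32 acting on a four dimensional space. -/

open Module
open scoped commutatorElement

namespace Cfsg.Agent.H84.CubicBlock

variable {S : Type*} [Group S] {E : Type*} [AddCommGroup E] [Module (ZMod 3) E] [Finite E]
  [Finite S] {ρ : Representation (ZMod 3) S E} {b : S} {Y : Subgroup S}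

variable (ρ b) in
/-- The structure found in the class two case. -/
structure Core (Y : Subgroup S) (z : S) : Prop where
  setting : TwoSetting ρ b Y
  mem : z ∈ Y
  ne_one : z ≠ 1
  sq_one : z * z = 1
  central : ∀ y ∈ Y, y * z = z * y
  fixed : b * z = z * b
  comm : ∀ x ∈ Y, ∀ y ∈ Y, ⁅x, y⁆ = 1 ∨ ⁅x, y⁆ = z
  gen : ∀ y ∈ Y, ∃ n ∈ Y, y = ⁅n, b⁆ ∨ y = ⁅n, b⁆ * z
  sq : ∀ y ∈ Y, y * y = 1 ∨ y * y = z
  nonab : ∃ x ∈ Y, ∃ y ∈ Y, ⁅x, y⁆ = z
  center_fixed : ∀ w ∈ Y, (∀ y ∈ Y, y * w = w * y) → b * w = w * b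

theorem core_of_class_two (h : TwoSetting ρ b Y)
    (hZb : ∀ w ∈ Y, (∀ y ∈ Y, y * w = w * y) → b * w = w * b)
    (hcl : ∀ x ∈ Y, ∀ y ∈ Y, ∀ w ∈ Y, w * ⁅x, y⁆ = ⁅x, y⁆ * w)
    (hexp : ∀ x ∈ Y, ∀ y ∈ Y, ⁅x, y⁆ * ⁅x, y⁆ = 1) : ∃ z, Core ρ b Y z := by
  have cm : ∀ x ∈ Y, ∀ y ∈ Y, ⁅x, y⁆ ∈ Y := fun x hx y hy => by
    rw [commutatorElement_def]
    exact Y.mul_mem (Y.mul_mem (Y.mul_mem hx hy) (Y.inv_mem hx)) (Y.inv_mem hy)
  obtain ⟨x₀, hx₀, y₀, hy₀, hne⟩ : ∃ x ∈ Y, ∃ y ∈ Y, ⁅x, y⁆ ≠ 1 := by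
    by_contra hab
    push Not at hab
    apply h.ne_bot
    rw [← h.gen, eq_bot_iff, Subgroup.commutator_le]
    intro a ha x hx
    rw [Subgroup.mem_bot, commutatorElement_eq_one_iff_mul_comm]
    have hb' : b * a = a * b :=
      hZb a ha fun y hy => commutatorElement_eq_one_iff_mul_comm.mp (hab y hy a ha)
    rw [← mem_powers_iff_mem_zpowers] at hx
    obtain ⟨n, rfl⟩ := hx
    exact ((Commute.symm hb').pow_right n).eq
  set z := ⁅x₀, y₀⁆ with hzdef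
  have hz : z ∈ Y := cm _ hx₀ _ hy₀
  have hzY : ∀ y ∈ Y, y * z = z * y := hcl _ hx₀ _ hy₀
  have hzz : z * z = 1 := hexp _ hx₀ _ hy₀
  have hzb := hZb z hz hzY
  have hcomm : ∀ x ∈ Y, ∀ y ∈ Y, ⁅x, y⁆ = 1 ∨ ⁅x, y⁆ = z := by
    intro x hx y hy
    by_cases h1 : ⁅x, y⁆ = 1
    · exact Or.inl h1
    · exact Or.inr (h.central_involution_unique hz hne hzz hzY hzb (cm _ hx _ hy) h1
        (hexp _ hx _ hy) (hcl _ hx _ hy) (hZb _ (cm _ hx _ hy) (hcl _ hx _ hy)))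
  have hcomm' : ∀ x ∈ Y, ∀ y ∈ Y, x * y = y * x ∨ x * y = y * x * z := by
    intro x hx y hy
    rcases hcomm x hx y hy with h1 | h1
    · exact Or.inl (commutatorElement_eq_one_iff_mul_comm.mp h1)
    · refine Or.inr ?_
      calc x * y = ⁅x, y⁆ * (y * x) := by simp only [commutatorElement_def]; group
        _ = y * x * z := by rw [h1, ← hzY _ (Y.mul_mem hy hx)]
  have cb : ∀ n ∈ Y, ⁅n, b⁆ ∈ Y := fun n hn => comm_mem_norm h.norm hn
  have hgen : ∀ y ∈ Y, ∃ n ∈ Y, y = ⁅n, b⁆ ∨ y = ⁅n, b⁆ * z := by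
    let P : S → Prop := fun y => ∃ n ∈ Y, y = ⁅n, b⁆ ∨ y = ⁅n, b⁆ * z
    have pz : ∀ y, P y → P (y * z) := by
      rintro y ⟨n, hn, rfl | rfl⟩
      · exact ⟨n, hn, Or.inr rfl⟩
      · exact ⟨n, hn, Or.inl (by rw [mul_assoc, hzz, mul_one])⟩
    have pmul : ∀ x y, P x → P y → P (x * y) := by
      have base : ∀ n ∈ Y, ∀ m ∈ Y, P (⁅n, b⁆ * ⁅m, b⁆) := by
        intro n hn m hm
        have e : ⁅m * n, b⁆ = (m * ⁅n, b⁆ * m⁻¹) * ⁅m, b⁆ := by
          simp only [commutatorElement_def]; group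
        rcases hcomm' m hm _ (cb n hn) with h1 | h1
        · exact ⟨m * n, Y.mul_mem hm hn, Or.inl (by rw [e, h1, mul_inv_cancel_right])⟩
        · refine ⟨m * n, Y.mul_mem hm hn, Or.inr ?_⟩
          rw [e, h1, mul_assoc (⁅n, b⁆ * m) z, ← hzY _ (Y.inv_mem hm), ← mul_assoc, mul_inv_cancel_right,
            mul_assoc ⁅n, b⁆ z, ← hzY _ (cb m hm), ← mul_assoc, mul_assoc _ z z, hzz, mul_one]
      rintro x y ⟨n, hn, hx⟩ ⟨m, hm, hy⟩
      have h0 := base n hn m hm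
      rcases hx with rfl | rfl <;> rcases hy with rfl | rfl
      · exact h0
      · rw [← mul_assoc]; exact pz _ h0
      · rw [mul_assoc, ← hzY _ (cb m hm), ← mul_assoc]; exact pz _ h0
      · rw [mul_assoc, ← mul_assoc z, ← hzY _ (cb m hm), mul_assoc _ z z, hzz, mul_one]; exact h0
    have pconj : ∀ y, P y → P (b * y * b⁻¹) := by
      have e : ∀ n : S, b * ⁅n, b⁆ * b⁻¹ = ⁅b * n * b⁻¹, b⁆ := fun n => by
        simp only [commutatorElement_def]; group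
      have ez : b * z * b⁻¹ = z := by rw [hzb, mul_inv_cancel_right]
      rintro y ⟨n, hn, rfl | rfl⟩
      · exact ⟨_, conj_mem_norm h.norm hn, Or.inl (e n)⟩
      · refine ⟨_, conj_mem_norm h.norm hn, Or.inr ?_⟩
        rw [← e n]
        conv_rhs => rw [← ez]
        group
    have p1 : P 1 := ⟨1, Y.one_mem, Or.inl (by simp)⟩
    have hpow : ∀ k : ℕ, ∀ n ∈ Y, P ⁅n, b ^ k⁆ := by
      intro k
      induction k with
      | zero => intro n _; simpa using p1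
      | succ k ih =>
        intro n hn
        rw [show ⁅n, b ^ (k + 1)⁆ = ⁅n, b⁆ * (b * ⁅n, b ^ k⁆ * b⁻¹) by
          rw [pow_succ']; simp only [commutatorElement_def]; group]
        exact pmul _ _ ⟨n, hn, Or.inl rfl⟩ (pconj _ (ih n hn))
    have key : ∀ g, P g → P g⁻¹ := by
      intro g hg
      obtain ⟨j, hj⟩ := mem_powers_iff_mem_zpowers.mpr (Subgroup.inv_mem _ (Subgroup.mem_zpowers g))
      change g ^ j = g⁻¹ at hj
      rw [← hj]
      clear hj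
      induction j with
      | zero => simpa using p1
      | succ j ih => rw [pow_succ]; exact pmul _ _ ih hg
    intro y hy
    rw [← h.gen, Subgroup.commutator_def] at hy
    induction hy using Subgroup.closure_induction with
    | mem g hg =>
      obtain ⟨n, hn, x, hx, rfl⟩ := hg
      rw [← mem_powers_iff_mem_zpowers] at hx
      obtain ⟨k, rfl⟩ := hx
      exact hpow k n hn
    | one => exact p1
    | mul x y _ _ hx hy => exact pmul _ _ hx hy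
    | inv x _ hx => exact key _ hx
  have hsqc : ∀ y ∈ Y, ∀ w ∈ Y, w * (y * y) = (y * y) * w := by
    intro y hy w hw
    rcases hcomm' w hw y hy with h1 | h1
    · rw [← mul_assoc, h1, mul_assoc, h1, mul_assoc]
    · rw [← mul_assoc, h1, mul_assoc (y * w) z, ← hzY y hy, ← mul_assoc, mul_assoc y w y, h1,
        ← mul_assoc, ← mul_assoc, mul_assoc _ z z, hzz, mul_one]
  refine ⟨z, h, hz, hne, hzz, hzY, hzb, hcomm, hgen, ?_, ⟨x₀, hx₀, y₀, hy₀, rfl⟩, hZb⟩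
  intro y hy
  obtain ⟨n, hn, hy'⟩ := hgen y hy
  have hc : (⁅n, b⁆ * ⁅n, b⁆ = 1 ∨ ⁅n, b⁆ * ⁅n, b⁆ = z) := by
    have hσ : b * n⁻¹ * b⁻¹ ∈ Y := conj_mem_norm h.norm (Y.inv_mem hn)
    have hq : b * (n⁻¹ * n⁻¹) * b⁻¹ = n⁻¹ * n⁻¹ := by
      have := hZb _ (Y.mul_mem (Y.inv_mem hn) (Y.inv_mem hn)) (hsqc _ (Y.inv_mem hn))
      rw [this, mul_inv_cancel_right]
    have e : ⁅n, b⁆ = n * (b * n⁻¹ * b⁻¹) := by simp only [commutatorElement_def]; group
    rcases hcomm' _ hσ n hn with h1 | h1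
    · left
      calc ⁅n, b⁆ * ⁅n, b⁆ = n * ((b * n⁻¹ * b⁻¹) * n) * (b * n⁻¹ * b⁻¹) := by rw [e]; group
        _ = n * n * (b * (n⁻¹ * n⁻¹) * b⁻¹) := by rw [h1]; group
        _ = 1 := by rw [hq]; group
    · right
      calc ⁅n, b⁆ * ⁅n, b⁆ = n * ((b * n⁻¹ * b⁻¹) * n) * (b * n⁻¹ * b⁻¹) := by rw [e]; group
        _ = n * n * ((b * n⁻¹ * b⁻¹) * (b * n⁻¹ * b⁻¹)) * z := by
            rw [h1, mul_assoc n, mul_assoc n n, mul_assoc (n * (b * n⁻¹ * b⁻¹)) z, ← hzY _ hσ]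
            group
        _ = z := by
            rw [show (b * n⁻¹ * b⁻¹) * (b * n⁻¹ * b⁻¹) = b * (n⁻¹ * n⁻¹) * b⁻¹ by group, hq]; group
  rcases hy' with rfl | rfl
  · exact hc
  · rwa [mul_assoc, ← mul_assoc z, ← hzY _ (cb n hn), mul_assoc _ z z, hzz, mul_one]

variable {z : S}

theorem Core.fpf (h : Core ρ b Y z) {y : S} (hy : y ∈ Y)
    (hf : b * y * b⁻¹ = y ∨ b * y * b⁻¹ = y * z) : y = 1 ∨ y = z := by
  have hzY := h.central
  have ez : b * z * b⁻¹ = z := by rw [h.fixed, mul_inv_cancel_right]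
  have hb3 := h.setting.cubic.pow_three
  obtain ⟨n, hn, hy'⟩ := h.gen y hy
  set y₁ := b * y * b⁻¹ with hy₁
  set y₂ := b * y₁ * b⁻¹ with hy₂
  have tel : ⁅n, b⁆ * (b * ⁅n, b⁆ * b⁻¹) * (b * (b * ⁅n, b⁆ * b⁻¹) * b⁻¹) = 1 := by
    calc _ = n * b ^ 3 * n⁻¹ * (b ^ 3)⁻¹ := by simp only [commutatorElement_def, pow_three]; group
      _ = 1 := by rw [hb3]; group
  have hprod : y * y₁ * y₂ = 1 ∨ y * y₁ * y₂ = z := by
    rcases hy' with e | e
    · left; rw [hy₂, hy₁, e]; exact tel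
    · right
      have e1 : b * (⁅n, b⁆ * z) * b⁻¹ = b * ⁅n, b⁆ * b⁻¹ * z := by
        conv_rhs => rw [← ez]
        group
      have e2 : b * (b * ⁅n, b⁆ * b⁻¹ * z) * b⁻¹ = b * (b * ⁅n, b⁆ * b⁻¹) * b⁻¹ * z := by
        conv_rhs => rw [← ez]
        group
      have c1 : b * ⁅n, b⁆ * b⁻¹ ∈ Y := conj_mem_norm h.setting.norm (comm_mem_norm h.setting.norm hn)
      have c2 : b * (b * ⁅n, b⁆ * b⁻¹) * b⁻¹ ∈ Y := conj_mem_norm h.setting.norm c1
      rw [hy₂, hy₁, e, e1, e2]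
      calc ⁅n, b⁆ * z * (b * ⁅n, b⁆ * b⁻¹ * z) * (b * (b * ⁅n, b⁆ * b⁻¹) * b⁻¹ * z)
          = ⁅n, b⁆ * (b * ⁅n, b⁆ * b⁻¹) * (z * z) * (b * (b * ⁅n, b⁆ * b⁻¹) * b⁻¹ * z) := by
            rw [mul_assoc ⁅n, b⁆ z, ← mul_assoc z (b * ⁅n, b⁆ * b⁻¹) z, ← hzY _ c1]; group
        _ = z := by rw [h.sq_one, mul_one, ← mul_assoc, tel, one_mul]
  have hy12 : (y₁ = y ∨ y₁ = y * z) ∧ (y₂ = y ∨ y₂ = y * z) := by
    refine ⟨hf, ?_⟩
    rcases hf with e | e
    · left; rw [hy₂, e, ← hy₁, e]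
    · left
      rw [hy₂, e, show b * (y * z) * b⁻¹ = (b * y * b⁻¹) * (b * z * b⁻¹) by group, ez, ← hy₁, e,
        mul_assoc, h.sq_one, mul_one]
  have hyz : y * z = z * y := hzY y hy
  have hcube : y * y * y = 1 ∨ y * y * y = z := by
    rcases hf with e1 | e1
    · have e2 : y₂ = y := by rw [hy₂, e1, ← hy₁, e1]
      rw [e1, e2] at hprod
      exact hprod
    · have e2 : y₂ = y := by
        rw [hy₂, e1, show b * (y * z) * b⁻¹ = (b * y * b⁻¹) * (b * z * b⁻¹) by group, ez, ← hy₁, e1,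
          mul_assoc, h.sq_one, mul_one]
      rw [e1, e2, show y * (y * z) * y = y * y * (z * y) by group, ← hyz, ← mul_assoc] at hprod
      rcases hprod with p | p
      · right
        calc y * y * y = y * y * y * (z * z) := by rw [h.sq_one, mul_one]
          _ = z := by rw [← mul_assoc, p, one_mul]
      · left; exact mul_right_cancel (b := z) (p.trans (one_mul z).symm)
  rcases h.sq y hy with s | s <;> rw [s] at hcube
  · simpa using hcube
  · rcases hcube with e | e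
    · right
      calc y = z * (z * y) := by rw [← mul_assoc, h.sq_one, one_mul]
        _ = z := by rw [e, mul_one]
    · left; exact mul_left_cancel (a := z) (e.trans (mul_one z).symm)

theorem Core.center (h : Core ρ b Y z) {w : S} (hw : w ∈ Y) (hc : ∀ y ∈ Y, y * w = w * y) :
    w = 1 ∨ w = z := by
  exact h.fpf hw (Or.inl (by rw [h.center_fixed w hw hc, mul_inv_cancel_right]))

end Cfsg.Agent.H84.CubicBlock
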