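import Mathlib
import Cfsg.Prelude.Def_Transfer
import Cfsg.Agent.H24.Extraspecial
import Cfsg.Agent.H84.CubicBlock.TwoCore

set_option autoImplicit false

/-! Order and irreducibility in the class two case. -/

open Module
open scoped commutatorElement

namespace Cfsg.Agent.H84.CubicBlock

variable {S : Type*} [Group S] {E : Type*} [AddCommGroup E] [Module (ZMod 3) E] [Finite E]
  [Finite S] {ρ : Representation (ZMod 3) S E} {b : S} {Y : Subgroup S} {z : S}

theorem Core.move_eq (h : Core ρ b Y z) :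
    fixSub ρ Y = LinearMap.ker (disp ρ z) ∧ moveSub ρ Y = LinearMap.ker (ρ z + LinearMap.id) :=
  h.setting.central_involution h.mem h.ne_one h.sq_one h.central h.fixed

theorem Core.apply_z (h : Core ρ b Y z) {v : E} (hv : v ∈ moveSub ρ Y) : ρ z v = -v :=
  mem_ker_add.mp (h.move_eq.2.le hv)

theorem Core.exists_noncomm (h : Core ρ b Y z) {y : S} (hy : y ∈ Y) (h1 : y ≠ 1) (hz : y ≠ z) :
    ∃ x ∈ Y, ⁅x, y⁆ = z := by
  by_contra hno
  push Not at hno
  rcases h.center hy (fun x hx => by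
    rcases h.comm x hx y hy with e | e
    · exact commutatorElement_eq_one_iff_mul_comm.mp e
    · exact absurd e (hno x hx)) with e | e
  · exact h1 e
  · exact hz e

theorem Core.exists_sq_eq (h : Core ρ b Y z) : ∃ y ∈ Y, y * y = z := by
  by_contra hno
  push Not at hno
  obtain ⟨x, hx, y, hy, he⟩ := h.nonab
  have e : ∀ g ∈ Y, g⁻¹ = g := fun g hg =>
    inv_eq_of_mul_eq_one_right ((h.sq g hg).resolve_right (hno g hg))
  apply h.ne_one
  rw [← he, commutatorElement_def, e x hx, e y hy, mul_assoc]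
  exact (h.sq _ (Y.mul_mem hx hy)).resolve_right (hno _ (Y.mul_mem hx hy))

/-- The group generated acts on an invariant subspace. -/
noncomputable def actOn (ρ : Representation (ZMod 3) S E) (Y : Subgroup S) (M : Submodule (ZMod 3) E)
    (hM : ∀ y ∈ Y, ∀ v ∈ M, ρ y v ∈ M) : Y →* (M →ₗ[ZMod 3] M) where
  toFun y := (ρ (y : S)).restrict (hM y y.2)
  map_one' := by ext v; simp
  map_mul' g k := by ext v; simp [mul_apply]

theorem Core.act_z (h : Core ρ b Y z) {M : Submodule (ZMod 3) E}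
    (hM : ∀ y ∈ Y, ∀ v ∈ M, ρ y v ∈ M) (hMU : M ≤ moveSub ρ Y) :
    actOn ρ Y M hM ⟨z, h.mem⟩ = (-1 : ZMod 3) • (1 : M →ₗ[ZMod 3] M) := by
  ext v
  show ρ z (v : E) = ((-1 : ZMod 3) • v : M)
  rw [h.apply_z (hMU v.2)]
  simp

theorem Core.even_dim (h : Core ρ b Y z) {M : Submodule (ZMod 3) E}
    (hM : ∀ y ∈ Y, ∀ v ∈ M, ρ y v ∈ M) (hMU : M ≤ moveSub ρ Y) : Even (finrank (ZMod 3) M) := by
  obtain ⟨x, hx, y, hy, he⟩ := h.nonab
  set φ := (LinearMap.det : (M →ₗ[ZMod 3] M) →* ZMod 3).comp (actOn ρ Y M hM) with hφ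
  have hu : ∀ g : Y, φ g ≠ 0 := fun g => ((Group.isUnit g).map φ).ne_zero
  have hz : φ ⟨z, h.mem⟩ = (-1) ^ finrank (ZMod 3) M := by
    rw [hφ, MonoidHom.comp_apply, h.act_z hM hMU, LinearMap.det_smul]
    simp
  have hxy : (⟨z, h.mem⟩ : Y) = ⁅(⟨x, hx⟩ : Y), ⟨y, hy⟩⁆ := by
    apply Subtype.ext; simp [← he, commutatorElement_def]
  have h1 : φ ⟨z, h.mem⟩ = 1 := by
    rw [hxy, commutatorElement_def]
    simp only [map_mul]
    rw [mul_comm (φ ⟨x, hx⟩) (φ ⟨y, hy⟩), mul_assoc (φ ⟨y, hy⟩), ← map_mul φ ⟨x, hx⟩,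
      mul_inv_cancel, map_one, mul_one, ← map_mul, mul_inv_cancel, map_one]
  rw [hz] at h1
  rcases Nat.even_or_odd (finrank (ZMod 3) M) with he' | he'
  · exact he'
  · rw [he'.neg_one_pow] at h1
    exact absurd h1 (by decide)

/-- Coset representatives modulo `z` are linearly independent on an invariant subspace of
dimension prime to 3. -/
theorem Core.card_le (h : Core ρ b Y z) {M : Submodule (ZMod 3) E}
    (hM : ∀ y ∈ Y, ∀ v ∈ M, ρ y v ∈ M) (hMU : M ≤ moveSub ρ Y)
    (hd : ((finrank (ZMod 3) M : ℕ) : ZMod 3) ≠ 0) :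
    Nat.card Y ≤ 2 * (finrank (ZMod 3) M * finrank (ZMod 3) M) := by
  classical
  set φ := actOn ρ Y M hM with hφ
  set Z₀ : Subgroup Y := Subgroup.zpowers ⟨z, h.mem⟩ with hZ₀
  have hZ₀card : Nat.card Z₀ = 2 := by
    rw [hZ₀, Nat.card_zpowers]
    exact orderOf_eq_prime (Subtype.ext (by simpa [pow_two] using h.sq_one))
      (fun e => h.ne_one (congrArg Subtype.val e))
  have htr : ∀ g : Y, g ∉ Z₀ → LinearMap.trace (ZMod 3) M (φ g) = 0 := by
    intro g hg
    obtain ⟨x, hx, hxg⟩ := h.exists_noncomm g.2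
      (fun e => hg (by rw [show g = 1 from Subtype.ext e]; exact Z₀.one_mem))
      (fun e => hg (by rw [show g = ⟨z, h.mem⟩ from Subtype.ext e]; exact Subgroup.mem_zpowers _))
    have e : (⟨x, hx⟩ : Y) * g * (⟨x, hx⟩ : Y)⁻¹ = ⟨z, h.mem⟩ * g := by
      apply Subtype.ext
      show x * (g : S) * x⁻¹ = z * g
      rw [← hxg]; simp only [commutatorElement_def]; group
    have := congrArg (fun t => LinearMap.trace (ZMod 3) M (φ t)) e
    simp only [map_mul] at this
    rw [LinearMap.trace_mul_comm, ← mul_assoc, ← map_mul φ, inv_mul_cancel, map_one, one_mul,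
      hφ, h.act_z hM hMU, smul_mul_assoc, one_mul, map_smul, smul_eq_mul, neg_one_mul] at this
    exact eq_zero_of_neg_eq (E := ZMod 3) this.symm
  have : Fintype (Y ⧸ Z₀) := Fintype.ofFinite _
  have hli : LinearIndependent (ZMod 3) (fun q : Y ⧸ Z₀ => φ q.out) := by
    rw [Fintype.linearIndependent_iff]
    intro c hc q
    have := congrArg (fun f => LinearMap.trace (ZMod 3) M (φ q.out⁻¹ * f)) hc
    simp only [Finset.mul_sum, mul_smul_comm, map_sum, map_smul, mul_zero, map_zero, ← map_mul] at this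
    rw [Finset.sum_eq_single q, inv_mul_cancel, map_one, LinearMap.trace_one, smul_eq_mul] at this
    · exact (mul_eq_zero.mp this).resolve_right hd
    · intro q' _ hq'
      rw [htr _ (fun hm => hq' (by
        have := (QuotientGroup.eq (s := Z₀) (a := q.out) (b := q'.out)).mpr hm
        rwa [QuotientGroup.out_eq', QuotientGroup.out_eq', eq_comm] at this)), smul_zero]
    · simp
  have hk := hli.fintype_card_le_finrank
  rw [finrank_linearMap, ← Nat.card_eq_fintype_card] at hk
  rw [Subgroup.card_eq_card_quotient_mul_card_subgroup Z₀, hZ₀card, mul_comm]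
  exact Nat.mul_le_mul_left 2 hk

theorem Core.dim_four (h : Core ρ b Y z) : finrank (ZMod 3) (moveSub ρ Y) = 4 := by
  set U := moveSub ρ Y with hU
  have hUinv : ∀ y ∈ Y, ∀ v ∈ U, ρ y v ∈ U := fun y hy v hv => mem_moveSub_apply ρ hy hv
  have hUb : ∀ v ∈ U, ρ b v ∈ U := fun v hv => moveSub_conj ρ h.setting.norm hv
  have hle : finrank (ZMod 3) U ≤ 4 := by
    obtain ⟨y, hy, hy2⟩ := h.exists_sq_eq
    obtain ⟨n, hn, hy'⟩ := h.gen y hy
    have hinj : ∀ v ∈ U, ρ ⁅n, b⁆ v = v → v = 0 := by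
      intro v hv hfix
      have hc : ⁅n, b⁆ * ⁅n, b⁆ = z := by
        rcases hy' with rfl | rfl
        · exact hy2
        · rwa [mul_assoc, ← mul_assoc z, ← h.central _ (comm_mem_norm h.setting.norm hn),
            mul_assoc _ z z, h.sq_one, mul_one] at hy2
      have := h.apply_z hv
      rw [← hc, mul_apply, hfix, hfix] at this
      exact eq_zero_of_neg_eq this.symm
    have hin : Function.Injective ((disp ρ ⁅n, b⁆).domRestrict U) := by
      rw [← LinearMap.ker_eq_bot, eq_bot_iff]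
      rintro ⟨v, hv⟩ hk
      rw [LinearMap.mem_ker, LinearMap.domRestrict_apply, disp_apply, sub_eq_zero] at hk
      exact Subtype.ext (hinj v hv hk)
    calc finrank (ZMod 3) U = finrank (ZMod 3) (LinearMap.range ((disp ρ ⁅n, b⁆).domRestrict U)) :=
          (LinearMap.finrank_range_of_inj hin).symm
      _ ≤ rk ρ ⁅n, b⁆ := Submodule.finrank_mono (by rintro _ ⟨⟨v, _⟩, rfl⟩; exact ⟨v, rfl⟩)
      _ ≤ 4 := (rk_comm_le ρ n b).trans (by have := h.setting.cubic.rank_le; omega)
  obtain ⟨m, hm⟩ := h.even_dim hUinv le_rfl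
  have hne : finrank (ZMod 3) U ≠ 0 := by
    intro h0
    rw [Submodule.finrank_eq_zero] at h0
    apply h.ne_one
    apply h.setting.cubic.inj
    ext v
    obtain ⟨u, hu, w, hw, rfl⟩ := Submodule.mem_sup.mp
      ((isCompl_fix_move (ρ := ρ) h.setting.three_not_dvd).sup_eq_top ▸
        (Submodule.mem_top : v ∈ (⊤ : Submodule (ZMod 3) E)))
    rw [← hU, h0, Submodule.mem_bot] at hw
    rw [hw, add_zero, (mem_fixSub ρ).mp hu z h.mem, map_one]
    rfl
  by_contra h4
  have h2 : finrank (ZMod 3) U = 2 := by omega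
  have hN : ∀ v ∈ U, disp ρ b v ∈ U := fun v hv => Submodule.sub_mem _ (hUb v hv) hv
  set R := U.map (disp ρ b) with hR
  have hRU : R ≤ U := by rintro _ ⟨v, hv, rfl⟩; exact hN v hv
  have hlt : R ≠ U := by
    intro heq
    apply hne
    rw [Submodule.finrank_eq_zero, eq_bot_iff]
    intro v hv
    obtain ⟨v₁, hv₁, rfl⟩ := heq.ge hv
    obtain ⟨v₂, hv₂, rfl⟩ := heq.ge hv₁
    obtain ⟨v₃, hv₃, rfl⟩ := heq.ge hv₂
    exact (Submodule.mem_bot _).mpr (disp_cube h.setting.cubic.pow_three v₃)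
  have hR1 : finrank (ZMod 3) R ≤ 1 := by
    have := Submodule.finrank_lt_finrank_of_lt (lt_of_le_of_ne hRU hlt)
    omega
  have hk : ∀ w ∈ R, disp ρ b w = 0 := by
    rcases Nat.lt_or_ge (finrank (ZMod 3) R) 1 with h0 | h1
    · intro w hw
      rw [Submodule.finrank_eq_zero.mp (by omega : finrank (ZMod 3) R = 0), Submodule.mem_bot] at hw
      rw [hw, map_zero]
    · exact line_killed h.setting.cubic.pow_three (by omega)
        (by rintro _ ⟨a, ha, rfl⟩; exact Submodule.mem_map_of_mem (hN a ha))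
  obtain ⟨v, hv⟩ := h.setting.cubic.sq_ne
  apply hv
  obtain ⟨u, hu, w, hw, rfl⟩ := Submodule.mem_sup.mp
    ((isCompl_fix_move (ρ := ρ) h.setting.three_not_dvd).sup_eq_top ▸
      (Submodule.mem_top : v ∈ (⊤ : Submodule (ZMod 3) E)))
  rw [map_add, disp_apply ρ b u, h.setting.fix_b hu, sub_self, zero_add]
  exact hk _ (Submodule.mem_map_of_mem hw)

theorem Core.card_eq (h : Core ρ b Y z) : Nat.card Y = 8 ∨ Nat.card Y = 32 := by
  classical
  have hle := h.card_le (M := moveSub ρ Y) (fun y hy v hv => mem_moveSub_apply ρ hy hv) le_rfl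
    (by rw [h.dim_four]; decide)
  rw [h.dim_four] at hle
  set Z₀ : Subgroup Y := Subgroup.zpowers ⟨z, h.mem⟩ with hZ₀
  have hmem : ∀ g : Y, g ∈ Z₀ ↔ ((g : S) = 1 ∨ (g : S) = z) := by
    intro g
    constructor
    · intro hg
      rw [hZ₀, ← mem_powers_iff_mem_zpowers] at hg
      obtain ⟨k, rfl⟩ := hg
      show ((⟨z, h.mem⟩ : Y) ^ k : Y).1 = 1 ∨ _
      induction k with
      | zero => simp
      | succ k ih =>
        simp only [SubmonoidClass.coe_pow] at ih ⊢
        rcases ih with e | e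
        · right; rw [pow_succ, e, one_mul]
        · left; rw [pow_succ, e, h.sq_one]
    · rintro (e | e)
      · rw [show g = 1 from Subtype.ext e]; exact Z₀.one_mem
      · rw [show g = ⟨z, h.mem⟩ from Subtype.ext e]; exact Subgroup.mem_zpowers _
  have hn : Z₀.Normal := by
    refine ⟨fun g hg x => ?_⟩
    rw [hmem] at hg ⊢
    rcases hg with e | e
    · left; simp [e]
    · right; simp [e, h.central _ x.2]
  have hZ₀card : Nat.card Z₀ = 2 := by
    rw [hZ₀, Nat.card_zpowers]
    exact orderOf_eq_prime (Subtype.ext (by simpa [pow_two] using h.sq_one))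
      (fun e => h.ne_one (congrArg Subtype.val e))
  let σ : Y →* Y :=
    { toFun := fun y => ⟨b * y * b⁻¹, conj_mem_norm h.setting.norm y.2⟩
      map_one' := by apply Subtype.ext; simp
      map_mul' := fun x y => by apply Subtype.ext; simp [mul_assoc] }
  have hσZ : Z₀ ≤ Z₀.comap σ := by
    intro g hg
    rw [Subgroup.mem_comap, hmem]
    rcases (hmem g).mp hg with e | e
    · left; show b * (g : S) * b⁻¹ = 1; simp [e]
    · right; show b * (g : S) * b⁻¹ = z; rw [e, h.fixed, mul_inv_cancel_right]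
  let f : Function.End (Y ⧸ Z₀) := fun q => QuotientGroup.map Z₀ Z₀ σ hσZ q
  have hf : f ^ 3 ^ 1 = 1 := by
    funext q
    obtain ⟨y, rfl⟩ := QuotientGroup.mk_surjective q
    show f (f (f (y : Y ⧸ Z₀))) = (y : Y ⧸ Z₀)
    simp only [f, QuotientGroup.map_mk]
    congr 1
    apply Subtype.ext
    show b * (b * (b * (y : S) * b⁻¹) * b⁻¹) * b⁻¹ = y
    calc _ = b ^ 3 * (y : S) * (b ^ 3)⁻¹ := by simp only [pow_three]; group
      _ = y := by rw [h.setting.cubic.pow_three]; group
  have : Fintype (Y ⧸ Z₀) := Fintype.ofFinite _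
  have hmod := Equiv.Perm.card_fixedPoints_modEq (p := 3) (n := 1) hf
  have hone : Fintype.card f.fixedPoints = 1 := by
    rw [Fintype.card_eq_one_iff]
    refine ⟨⟨(1 : Y ⧸ Z₀), show QuotientGroup.map Z₀ Z₀ σ hσZ 1 = 1 from map_one _⟩, ?_⟩
    rintro ⟨q, hq⟩
    obtain ⟨y, rfl⟩ := QuotientGroup.mk_surjective q
    apply Subtype.ext
    show (y : Y ⧸ Z₀) = 1
    rw [QuotientGroup.eq_one_iff, hmem]
    have hq' : ((σ y : Y) : Y ⧸ Z₀) = (y : Y ⧸ Z₀) := (QuotientGroup.map_mk Z₀ Z₀ σ hσZ y).symm.trans hq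
    rw [QuotientGroup.eq, hmem] at hq'
    apply h.fpf y.2
    rcases hq' with e | e
    · left
      exact inv_mul_eq_one.mp e
    · right
      have e' : (b * (y : S) * b⁻¹)⁻¹ * (y : S) = z := e
      calc b * (y : S) * b⁻¹ = (y : S) * ((b * (y : S) * b⁻¹)⁻¹ * (y : S))⁻¹ := by group
        _ = y * z := by rw [e', inv_eq_of_mul_eq_one_right h.sq_one]
  replace hmod : Nat.card (Y ⧸ Z₀) ≡ 1 [MOD 3] := by
    rw [Nat.card_eq_fintype_card]
    convert hmod using 1
    convert hone.symm using 2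
  obtain ⟨e, he⟩ := h.setting.isTwo.exists_card_eq
  have hk := Subgroup.card_eq_card_quotient_mul_card_subgroup Z₀
  rw [hZ₀card] at hk
  have hne : Nat.card (Y ⧸ Z₀) ≠ 1 := by
    intro h1
    obtain ⟨x, hx, y, hy, hxy⟩ := h.nonab
    have hsub : Subsingleton (Y ⧸ Z₀) := (Nat.card_eq_one_iff_unique.mp h1).1
    have hc : ∀ g : Y, (g : S) = 1 ∨ (g : S) = z := fun g =>
      (hmem g).mp ((QuotientGroup.eq_one_iff g).mp (Subsingleton.elim _ _))
    apply h.ne_one
    rw [← hxy, commutatorElement_eq_one_iff_mul_comm]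
    rcases hc ⟨y, hy⟩ with e1 | e1
    · rw [show y = 1 from e1, mul_one, one_mul]
    · rw [show y = z from e1]; exact h.central x hx
  rw [he] at hk hle ⊢
  have h6 : 2 ^ e < 2 ^ 6 := by norm_num; omega
  have he6 : e < 6 := (Nat.pow_lt_pow_iff_right (by norm_num)).mp h6
  rw [Nat.ModEq] at hmod
  interval_cases e <;> omega

/-- In the order 32 case the action on the moved space is irreducible. -/
theorem Core.irreducible (h : Core ρ b Y z) (h32 : Nat.card Y = 32) {M : Submodule (ZMod 3) E}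
    (hMU : M ≤ moveSub ρ Y) (hM : ∀ y ∈ Y, ∀ v ∈ M, ρ y v ∈ M) : M = ⊥ ∨ M = moveSub ρ Y := by
  have hd := h.dim_four
  obtain ⟨m, hm⟩ := h.even_dim hM hMU
  have hle := Submodule.finrank_mono hMU
  by_cases h0 : finrank (ZMod 3) M = 0
  · exact Or.inl (Submodule.finrank_eq_zero.mp h0)
  right
  apply Submodule.eq_of_le_of_finrank_le hMU
  rcases (show m = 1 ∨ m = 2 by omega) with rfl | rfl
  · exfalso
    have hcard := h.card_le hM hMU (by rw [hm]; decide)
    rw [hm, h32] at hcard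
    omega
  · omega

theorem Core.extraspecial (h : Core ρ b Y z) : Cfsg.IsExtraspecial 2 Y := by
  have hcen : ∀ g : Y, g ∈ Subgroup.center Y ↔ ((g : S) = 1 ∨ (g : S) = z) := by
    intro g
    rw [Subgroup.mem_center_iff]
    constructor
    · intro hg
      exact h.center g.2 fun y hy => congrArg Subtype.val (hg ⟨y, hy⟩)
    · rintro (e | e) x <;> apply Subtype.ext <;> simp [e, h.central _ x.2]
  have : Fact (Nat.Prime 2) := ⟨Nat.prime_two⟩
  refine H24.isExtraspecial_of h.setting.isTwo ?_ ?_ ?_ ?_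
  · have : Subgroup.center Y = Subgroup.zpowers (⟨z, h.mem⟩ : Y) := by
      apply le_antisymm
      · intro g hg
        rcases (hcen g).mp hg with e | e
        · rw [show g = 1 from Subtype.ext e]; exact Subgroup.one_mem _
        · rw [show g = ⟨z, h.mem⟩ from Subtype.ext e]; exact Subgroup.mem_zpowers _
      · rw [Subgroup.zpowers_le, hcen]; exact Or.inr rfl
    rw [this, Nat.card_zpowers]
    exact orderOf_eq_prime (Subtype.ext (by simpa [pow_two] using h.sq_one))
      (fun e => h.ne_one (congrArg Subtype.val e))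
  · intro htop
    obtain ⟨x, hx, y, hy, hxy⟩ := h.nonab
    apply h.ne_one
    rw [← hxy, commutatorElement_eq_one_iff_mul_comm]
    have hm : (⟨y, hy⟩ : Y) ∈ Subgroup.center Y := htop.symm ▸ Subgroup.mem_top _
    exact congrArg Subtype.val (Subgroup.mem_center_iff.mp hm ⟨x, hx⟩)
  · intro x y
    rw [hcen]
    have := h.comm x x.2 y y.2
    simpa [commutatorElement_def] using this
  · intro x
    rw [hcen]
    simpa [pow_two] using h.sq x x.2

/-- In the order 32 case there is an elementary abelian subgroup of order 8. -/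
theorem Core.exists_eight (h : Core ρ b Y z) (h32 : Nat.card Y = 32) :
    ∃ A : Subgroup S, A ≤ Y ∧ Cfsg.IsElementaryAbelian 2 A ∧ Nat.card A = 8 := by
  classical
  have ez : b * z * b⁻¹ = z := by rw [h.fixed, mul_inv_cancel_right]
  -- a noncentral involution
  obtain ⟨y, hy, hy1, hyz, hy2⟩ : ∃ y ∈ Y, y ≠ 1 ∧ y ≠ z ∧ y * y = 1 := by
    by_contra hno
    push Not at hno
    have hsq : ∀ g ∈ Y, g ≠ 1 → g ≠ z → g * g = z := fun g hg a c =>
      (h.sq g hg).resolve_left (hno g hg a c)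
    have hz' : z * z = 1 := h.sq_one
    have bad : ∀ x ∈ Y, ∀ y ∈ Y, x ≠ 1 → x ≠ z → y ≠ 1 → y ≠ z → x * y ≠ 1 → x * y ≠ z →
        ⁅x, y⁆ = z := by
      intro x hx y hy a1 a2 b1 b2 c1 c2
      have e := hsq _ (Y.mul_mem hx hy) c1 c2
      rcases h.comm x hx y hy with hc | hc
      · exfalso
        have hxy := commutatorElement_eq_one_iff_mul_comm.mp hc
        rw [mul_assoc, ← mul_assoc y x y, ← hxy, mul_assoc x y y, hsq y hy b1 b2,
          ← mul_assoc, hsq x hx a1 a2, hz'] at e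
        exact h.ne_one e.symm
      · exact hc
    obtain ⟨x, hx, hxn⟩ : ∃ x ∈ Y, x ∉ ({1, z} : Finset S) := by
      by_contra hc
      push Not at hc
      have := Set.ncard_le_ncard (s := (Y : Set S)) (t := (({1, z} : Finset S) : Set S))
        (fun g hg => hc g hg) (Finset.finite_toSet _)
      rw [Set.ncard_coe_finset, ← Nat.card_coe_set_eq, SetLike.coe_sort_coe, h32] at this
      have := this.trans Finset.card_le_two
      omega
    obtain ⟨y, hy, hyn⟩ : ∃ y ∈ Y, y ∉ ({1, z, x⁻¹, x⁻¹ * z} : Finset S) := by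
      by_contra hc
      push Not at hc
      have := Set.ncard_le_ncard (s := (Y : Set S)) (t := (({1, z, x⁻¹, x⁻¹ * z} : Finset S) : Set S))
        (fun g hg => hc g hg) (Finset.finite_toSet _)
      rw [Set.ncard_coe_finset, ← Nat.card_coe_set_eq, SetLike.coe_sort_coe, h32] at this
      have := this.trans Finset.card_le_four
      omega
    obtain ⟨w, hw, hwn⟩ : ∃ w ∈ Y, w ∉ ({1, z, x⁻¹, x⁻¹ * z, y⁻¹, y⁻¹ * z, (x * y)⁻¹, (x * y)⁻¹ * z} : Finset S) := by
      by_contra hc
      push Not at hc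
      have := Set.ncard_le_ncard (s := (Y : Set S))
        (t := (({1, z, x⁻¹, x⁻¹ * z, y⁻¹, y⁻¹ * z, (x * y)⁻¹, (x * y)⁻¹ * z} : Finset S) : Set S))
        (fun g hg => hc g hg) (Finset.finite_toSet _)
      rw [Set.ncard_coe_finset, ← Nat.card_coe_set_eq, SetLike.coe_sort_coe, h32] at this
      have := this.trans ((Finset.card_insert_le _ _).trans (Nat.succ_le_succ ((Finset.card_insert_le _ _).trans
        (Nat.succ_le_succ Finset.card_le_six))))
      omega
    simp only [Finset.mem_insert, Finset.mem_singleton, not_or] at hxn hyn hwn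
    have nm : ∀ p q : S, q ≠ p⁻¹ → p * q ≠ 1 := fun p q hne e => hne (eq_inv_of_mul_eq_one_right e)
    have nz : ∀ p q : S, q ≠ p⁻¹ * z → p * q ≠ z := fun p q hne e => hne (by rw [← e]; group)
    obtain ⟨hwa, hwb, hw3, hw4, hw5, hw6, hw7, hw8⟩ := hwn
    have exy := bad x hx y hy hxn.1 hxn.2 hyn.1 hyn.2.1 (nm _ _ hyn.2.2.1) (nz _ _ hyn.2.2.2)
    have hw1 : w ≠ 1 ∧ w ≠ z := ⟨hwa, hwb⟩
    have exw := bad x hx w hw hxn.1 hxn.2 hw1.1 hw1.2 (nm _ _ hw3) (nz _ _ hw4)
    have hyw1 : y * w ≠ 1 := nm _ _ hw5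
    have hyw2 : y * w ≠ z := nz _ _ hw6
    have exyw := bad x hx (y * w) (Y.mul_mem hy hw) hxn.1 hxn.2 hyw1 hyw2
      (by rw [← mul_assoc]; exact nm _ _ hw7) (by rw [← mul_assoc]; exact nz _ _ hw8)
    apply h.ne_one
    rw [show ⁅x, y * w⁆ = ⁅x, y⁆ * (y * ⁅x, w⁆ * y⁻¹) by simp only [commutatorElement_def]; group,
      exy, exw, h.central y hy, mul_inv_cancel_right, hz'] at exyw
    exact exyw.symm
  set y' := b * y * b⁻¹ with hy'
  have hy'Y : y' ∈ Y := conj_mem_norm h.setting.norm hy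
  have hy'2 : y' * y' = 1 := by rw [hy', show b * y * b⁻¹ * (b * y * b⁻¹) = b * (y * y) * b⁻¹ by group, hy2]; group
  have hne1 : y' ≠ y := fun e => by rcases h.fpf hy (Or.inl e) with r | r <;> simp_all
  have hne2 : y' ≠ y * z := fun e => by rcases h.fpf hy (Or.inr e) with r | r <;> simp_all
  have hcomm : y * y' = y' * y := by
    -- `(b² y b⁻²)` is `y y'` up to `z`, hence an involution
    set y'' := b * y' * b⁻¹ with hy''
    have hy''2 : y'' * y'' = 1 := by
      rw [hy'', show b * y' * b⁻¹ * (b * y' * b⁻¹) = b * (y' * y') * b⁻¹ by group, hy'2]; group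
    have hy''Y : y'' ∈ Y := conj_mem_norm h.setting.norm hy'Y
    have hP : y * y' * y'' ∈ Y := Y.mul_mem (Y.mul_mem hy hy'Y) hy''Y
    have h3 : b * y'' * b⁻¹ = y := by
      calc b * (b * (b * y * b⁻¹) * b⁻¹) * b⁻¹ = b ^ 3 * y * (b ^ 3)⁻¹ := by
            simp only [pow_three]; group
        _ = y := by rw [h.setting.cubic.pow_three]; group
    have hfix : b * (y * y' * y'') * b⁻¹ = y * y' * y'' ∨
        b * (y * y' * y'') * b⁻¹ = y * y' * y'' * z := by
      have e : b * (y * y' * y'') * b⁻¹ = y⁻¹ * (y * y' * y'') * y := by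
        calc b * (y * y' * y'') * b⁻¹ = (b * y * b⁻¹) * (b * y' * b⁻¹) * (b * y'' * b⁻¹) := by group
          _ = y' * y'' * y := by rw [← hy', ← hy'', h3]
          _ = _ := by group
      rcases h.comm y⁻¹ (Y.inv_mem hy) _ hP with hc | hc
      · left
        rw [e, commutatorElement_eq_one_iff_mul_comm.mp hc, inv_mul_cancel_right]
      · right
        rw [e]
        calc y⁻¹ * (y * y' * y'') * y = ⁅y⁻¹, y * y' * y''⁆ * (y * y' * y'') := by
              simp only [commutatorElement_def]; group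
          _ = _ := by rw [hc, h.central _ hP]
    have hsq : (y' * y) * (y' * y) = 1 := by
      rcases h.fpf hP hfix with e | e
      · have e' : y'' = y' * y := by
          calc y'' = y'⁻¹ * y⁻¹ * (y * y' * y'') := by group
            _ = y' * y := by
              rw [e, inv_eq_of_mul_eq_one_right hy2, inv_eq_of_mul_eq_one_right hy'2, mul_one]
        rwa [e'] at hy''2
      · have e' : y'' = y' * y * z := by
          calc y'' = y'⁻¹ * y⁻¹ * (y * y' * y'') := by group
            _ = y' * y * z := by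
              rw [e, inv_eq_of_mul_eq_one_right hy2, inv_eq_of_mul_eq_one_right hy'2]
        rwa [e', mul_assoc, ← mul_assoc z, ← h.central _ (Y.mul_mem hy'Y hy), mul_assoc _ z z,
          h.sq_one, mul_one] at hy''2
    exact ((mul_eq_one_iff_eq_inv.mp hsq).trans (by
      rw [mul_inv_rev, inv_eq_of_mul_eq_one_right hy2, inv_eq_of_mul_eq_one_right hy'2])).symm
  have hzy : ∀ g ∈ Y, g * z = z * g := h.central
  let p : S → Bool → S := fun x i => if i then x else 1
  let f : Bool × Bool × Bool → S := fun t => p y t.1 * (p y' t.2.1 * p z t.2.2)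
  have fmem : ∀ t, f t ∈ Y := by
    rintro ⟨_ | _, _ | _, _ | _⟩ <;> simp [f, p, hy, hy'Y, h.mem, Subgroup.mul_mem]
  have cy : ∀ i j, Commute (p y i) (p y' j) := by
    rintro (_ | _) (_ | _) <;> simp [p, Commute.one_left, Commute.one_right]
    exact hcomm
  have cz : ∀ g ∈ Y, ∀ k, Commute g (p z k) := by
    rintro g hg (_ | _) <;> simp [p, Commute.one_right]
    exact hzy g hg
  have pp : ∀ x : S, x * x = 1 → ∀ i j, p x i * p x j = p x (xor i j) := by
    rintro x hx (_ | _) (_ | _) <;> simp [p, hx]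
  have pm : ∀ x ∈ Y, ∀ i, p x i ∈ Y := by
    rintro x hx (_ | _) <;> simp [p, hx, Y.one_mem]
  have fmul : ∀ s t, f s * f t = f (xor s.1 t.1, xor s.2.1 t.2.1, xor s.2.2 t.2.2) := by
    rintro ⟨i, j, k⟩ ⟨i', j', k'⟩
    show p y i * (p y' j * p z k) * (p y i' * (p y' j' * p z k')) = _
    have a1 : Commute (p y' j * p z k) (p y i') :=
      ((cy i' j).symm).mul_left ((cz _ (pm y hy i') k).symm)
    have a2 : Commute (p z k) (p y' j') := (cz _ (pm y' hy'Y j') k).symm
    calc _ = p y i * ((p y' j * p z k) * p y i') * (p y' j' * p z k') := by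
          simp only [mul_assoc]
      _ = p y i * p y i' * (p y' j * (p z k * p y' j') * p z k') := by
          rw [a1.eq]; simp only [mul_assoc]
      _ = p y i * p y i' * (p y' j * p y' j' * (p z k * p z k')) := by
          rw [a2.eq]; simp only [mul_assoc]
      _ = _ := by rw [pp y hy2, pp y' hy'2, pp z h.sq_one]
  have fsq : ∀ t, f t * f t = 1 := fun t => by rw [fmul]; simp [f, p]
  let A : Subgroup S :=
    { carrier := Set.range f
      one_mem' := ⟨(false, false, false), by simp [f, p]⟩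
      mul_mem' := by rintro _ _ ⟨s, rfl⟩ ⟨t, rfl⟩; exact ⟨_, (fmul s t).symm⟩
      inv_mem' := by rintro _ ⟨t, rfl⟩; exact ⟨t, (inv_eq_of_mul_eq_one_right (fsq t)).symm⟩ }
  have hkey : ∀ t, f t = 1 → t = (false, false, false) := by
    have hy'1 : y' ≠ 1 := fun e => hy1 (by
      have : y = b⁻¹ * y' * b := by rw [hy']; group
      rw [this, e]; group)
    have hy'z : y' ≠ z := fun e => hyz (by
      have : y = b⁻¹ * y' * b := by rw [hy']; group
      rw [this, e, mul_assoc, ← h.fixed]; group)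
    have iy : y⁻¹ = y := inv_eq_of_mul_eq_one_right hy2
    have iz : z⁻¹ = z := inv_eq_of_mul_eq_one_right h.sq_one
    rintro ⟨_ | _, _ | _, _ | _⟩ ht
    all_goals simp [f, p] at ht ⊢
    · exact h.ne_one ht
    · exact hy'1 ht
    · exact hy'z ((eq_inv_of_mul_eq_one_left ht).trans iz)
    · exact hy1 ht
    · exact hyz ((eq_inv_of_mul_eq_one_left ht).trans iz)
    · exact hne1 ((eq_inv_of_mul_eq_one_right ht).trans iy)
    · apply hne2
      calc y' = y * (y * (y' * z)) * z := by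
            simp only [← mul_assoc, hy2, one_mul]
            rw [mul_assoc, h.sq_one, mul_one]
        _ = y * z := by rw [ht, mul_one]
  have finj : Function.Injective f := by
    intro s t hst
    have := hkey _ ((fmul s t).symm.trans (by rw [hst, fsq]))
    obtain ⟨i, j, k⟩ := s
    obtain ⟨i', j', k'⟩ := t
    revert this
    cases i <;> cases j <;> cases k <;> cases i' <;> cases j' <;> cases k' <;> simp
  refine ⟨A, ?_, ⟨⟨⟨?_⟩⟩, ?_⟩, ?_⟩
  · rintro _ ⟨t, rfl⟩; exact fmem t
  · rintro ⟨_, s, rfl⟩ ⟨_, t, rfl⟩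
    apply Subtype.ext
    show f s * f t = f t * f s
    rw [fmul, fmul]
    simp [Bool.xor_comm]
  · rintro _ ⟨t, rfl⟩
    rw [pow_two]; exact fsq t
  · show Nat.card (Set.range f) = 8
    rw [Nat.card_range_of_injective finj]
    simp

end Cfsg.Agent.H84.CubicBlock
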