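import Mathlib
import Cfsg.Agent.H19.Misc
import Cfsg.Agent.H84.CubicBlock.TwoLarge

set_option autoImplicit false

/-! Classification of `2`-groups `Y = [Y, b]` for a cubic `b`. -/

open Module
open scoped commutatorElement

namespace Cfsg.Agent.H84.CubicBlock

variable {S : Type*} [Group S] {E : Type*} [AddCommGroup E] [Module (ZMod 3) E] [Finite E]
  {ρ : Representation (ZMod 3) S E} {b : S} {Y : Subgroup S}

theorem zmod3_sign {c : ZMod 3} (hc : c ≠ 0) : c = 1 ∨ c = -1 := by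
  revert hc; revert c; decide

theorem line_sign {g : S} {L : Submodule (ZMod 3) E} (h1 : finrank (ZMod 3) L = 1)
    (hg : ∀ v ∈ L, ρ g v ∈ L) : (∀ v ∈ L, ρ g v = v) ∨ ∀ v ∈ L, ρ g v = -v := by
  obtain ⟨w₀, hw₀, hspan⟩ := finrank_eq_one_iff'.mp h1
  obtain ⟨c, hc⟩ := hspan ⟨ρ g w₀, hg _ w₀.2⟩
  have hc' : c • (w₀ : E) = ρ g w₀ := congrArg Subtype.val hc
  have hc0 : c ≠ 0 := by
    intro h0
    rw [h0, zero_smul] at hc'
    exact hw₀ (Subtype.ext (apply_injective ρ g (hc'.symm.trans (map_zero (ρ g)).symm)))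
  have key : ∀ v ∈ L, ρ g v = c • v := by
    intro v hv
    obtain ⟨d, hd⟩ := hspan ⟨v, hv⟩
    have hd' : d • (w₀ : E) = v := congrArg Subtype.val hd
    rw [← hd', map_smul, ← hc', smul_comm]
  rcases zmod3_sign hc0 with rfl | rfl
  · exact Or.inl fun v hv => by rw [key v hv, one_smul]
  · exact Or.inr fun v hv => by rw [key v hv, neg_smul, one_smul]

/-- The determinant of an involution. -/
theorem det_involution {w : S} (hw : w * w = 1) :
    LinearMap.det (ρ w) = (-1) ^ finrank (ZMod 3) (LinearMap.ker (ρ w + LinearMap.id)) := by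
  set P := LinearMap.ker (disp ρ w)
  set M := LinearMap.ker (ρ w + LinearMap.id)
  set e := Submodule.prodEquivOfIsCompl P M (isCompl_eigen hw) with he
  have hconj : ρ w = (e : (P × M) →ₗ[ZMod 3] E) ∘ₗ
      (LinearMap.prodMap LinearMap.id ((-1 : ZMod 3) • LinearMap.id)) ∘ₗ (e.symm : E →ₗ[ZMod 3] (P × M)) := by
    refine LinearMap.ext fun v => ?_
    obtain ⟨p, rfl⟩ := e.surjective v
    simp only [LinearMap.comp_apply, LinearEquiv.coe_coe, LinearEquiv.symm_apply_apply, he,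
      Submodule.coe_prodEquivOfIsCompl', LinearMap.prodMap_apply, LinearMap.id_apply,
      LinearMap.smul_apply, map_add, mem_ker_disp.mp p.1.2, mem_ker_add.mp p.2.2]
    simp
  rw [hconj, LinearMap.det_conj, LinearMap.det_prodMap, LinearMap.det_id, one_mul,
    LinearMap.det_smul, LinearMap.det_id, mul_one]

variable [Finite S]

variable (ρ b) in
/-- The elementary abelian conclusion. -/
def IsFour (Y : Subgroup S) : Prop :=
  Cfsg.IsElementaryAbelian 2 Y ∧ Nat.card Y = 4 ∧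
    ∀ M : Submodule (ZMod 3) E, M ≤ moveSub ρ Y → (∀ y ∈ Y, ∀ v ∈ M, ρ y v ∈ M) →
      (∀ v ∈ M, ρ b v ∈ M) → M = ⊥ ∨ M = moveSub ρ Y

theorem four_of_central (h : TwoSetting ρ b Y) {a a' : S} (hp : FourPair b a a') (ha : a ∈ Y)
    (ha' : a' ∈ Y) (hca : ∀ y ∈ Y, y * a = a * y) (hca' : ∀ y ∈ Y, y * a' = a' * y) :
    IsFour ρ b Y := by
  obtain ⟨d1, d2, d3, -, hb0⟩ := hp.lines (ρ := ρ) h.cubic
  have m1 : ((-1 : ZMod 3) * 1) = -1 := mul_one _
  have m2 : ((-1 : ZMod 3) * -1) = 1 := by decide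
  have m3 : ((1 : ZMod 3) * -1) = -1 := by decide
  have inv : ∀ y ∈ Y, ∀ s t, ∀ v ∈ wt ρ a a' s t, ρ y v ∈ wt ρ a a' s t :=
    fun y hy s t v hv => wt_invariant (hca y hy) (hca' y hy) hv
  have y0 : ∀ y ∈ Y, ∀ v ∈ wt ρ a a' 1 1, ρ y v = v := fun y hy v hv =>
    fixed_of_commutator_eq h.gen (fun y hy v hv => inv y hy 1 1 v hv) hb0 hy hv
  have hext : ∀ g k : S, g ∈ Y → k ∈ Y → (∀ v ∈ wt ρ a a' 1 (-1), ρ g v = ρ k v) →
      (∀ v ∈ wt ρ a a' (-1) 1, ρ g v = ρ k v) → (∀ v ∈ wt ρ a a' (-1) (-1), ρ g v = ρ k v) →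
      g = k := by
    intro g k hg hk e1 e2 e3
    apply h.cubic.inj
    ext v
    obtain ⟨v₀, h0, v₁, h1, v₂, h2, v₃, h3, he, -⟩ := hp.decompose (ρ := ρ) v
    rw [he]
    simp only [map_add, y0 g hg v₀ h0, y0 k hk v₀ h0, e1 v₁ h1, e2 v₂ h2, e3 v₃ h3]
  have hsq : ∀ y ∈ Y, y * y = 1 := by
    intro y hy
    have key : ∀ s t, finrank (ZMod 3) (wt ρ a a' s t) = 1 → ∀ v ∈ wt ρ a a' s t, ρ (y * y) v = ρ 1 v := by
      intro s t hd v hv
      rw [mul_apply, map_one]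
      rcases line_sign (ρ := ρ) (g := y) hd (fun v hv => inv y hy s t v hv) with e | e
      · rw [e v hv, e v hv]; rfl
      · rw [e v hv, map_neg, e v hv, neg_neg]; rfl
    exact hext _ _ (Y.mul_mem hy hy) Y.one_mem (key _ _ d1) (key _ _ d2) (key _ _ d3)
  have hinv : ∀ y ∈ Y, y⁻¹ = y := fun y hy => inv_eq_of_mul_eq_one_right (hsq y hy)
  have hab : ∀ x ∈ Y, ∀ y ∈ Y, x * y = y * x := fun x hx y hy => by
    calc x * y = (x * y)⁻¹ := (hinv _ (Y.mul_mem hx hy)).symm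
      _ = y * x := by rw [mul_inv_rev, hinv x hx, hinv y hy]
  have hYc : IsMulCommutative Y := ⟨⟨fun x y => Subtype.ext (hab x x.2 y y.2)⟩⟩
  have a1 : a ≠ 1 := by
    intro e
    have := hp.conj
    rw [e, mul_one, mul_inv_cancel] at this
    exact hp.ne (by rw [e, ← this])
  have a'1 : a' ≠ 1 := by
    intro e
    have := hp.conj'
    rw [e, mul_one, mul_inv_cancel, mul_one] at this
    exact a1 this.symm
  have aa1 : a * a' ≠ 1 := fun e => hp.ne ((eq_inv_of_mul_eq_one_right e).trans (inv_eq_of_mul_eq_one_right hp.sq))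
  have hall : ∀ y ∈ Y, y = 1 ∨ y = a ∨ y = a' ∨ y = a * a' := by
    intro y hy
    obtain ⟨n, hn, rfl⟩ := exists_comm_eq hYc h.norm (h.gen.symm ▸ hy)
    have hb2 : b⁻¹ = b * b := by
      refine inv_eq_of_mul_eq_one_right ?_
      rw [← pow_three]; exact h.cubic.pow_three
    have hcomm : ∀ v, ρ ⁅n, b⁆ v = ρ n (ρ b (ρ n (ρ b (ρ b v)))) := by
      intro v
      rw [commutatorElement_def, hinv n hn, hb2, mul_apply, mul_apply, mul_apply, mul_apply]
    have back : ∀ v, ρ b (ρ b (ρ b v)) = v := by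
      intro v
      rw [← mul_apply, ← mul_apply, mul_assoc, ← pow_three, h.cubic.pow_three, map_one]; rfl
    have step : ∀ s t s' t' : ZMod 3, (s * t) * s = s' → s * t = t' → ∀ v ∈ wt ρ a a' s t,
        ρ b (ρ b v) ∈ wt ρ a a' s' t' := by
      intro s t s' t' e1 e2 v hv
      exact e1 ▸ e2 ▸ hp.rotate (hp.rotate hv)
    have on1 : ∀ v ∈ wt ρ a a' 1 (-1), ρ b (ρ b v) ∈ wt ρ a a' (-1) (-1) :=
      step _ _ _ _ (by decide) (by decide)
    have on2 : ∀ v ∈ wt ρ a a' (-1) 1, ρ b (ρ b v) ∈ wt ρ a a' 1 (-1) :=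
      step _ _ _ _ (by decide) (by decide)
    have on3 : ∀ v ∈ wt ρ a a' (-1) (-1), ρ b (ρ b v) ∈ wt ρ a a' (-1) 1 :=
      step _ _ _ _ (by decide) (by decide)
    have hc : ⁅n, b⁆ ∈ Y := comm_mem_norm h.norm hn
    have ea : ∀ v s t, v ∈ wt ρ a a' s t → ρ a v = s • v ∧ ρ a' v = t • v :=
      fun v s t hv => mem_wt.mp hv
    rcases line_sign (ρ := ρ) (g := n) d1 (fun v hv => inv n hn _ _ v hv) with e1 | e1 <;>
    rcases line_sign (ρ := ρ) (g := n) d2 (fun v hv => inv n hn _ _ v hv) with e2 | e2 <;>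
    rcases line_sign (ρ := ρ) (g := n) d3 (fun v hv => inv n hn _ _ v hv) with e3 | e3
    all_goals
      first
      | refine Or.inl (hext _ _ hc Y.one_mem ?_ ?_ ?_) <;> intro v hv <;>
          (rw [hcomm, map_one]
           first
           | (rw [e3 _ (on1 v hv)]; simp only [map_neg, back, e1 v hv, neg_neg]; rfl)
           | (rw [e1 _ (on2 v hv)]; simp only [map_neg, back, e2 v hv, neg_neg]; rfl)
           | (rw [e2 _ (on3 v hv)]; simp only [map_neg, back, e3 v hv, neg_neg]; rfl))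
      | refine Or.inr (Or.inl (hext _ _ hc ha ?_ ?_ ?_)) <;> intro v hv <;>
          (rw [hcomm, (ea v _ _ hv).1]
           first
           | (rw [e3 _ (on1 v hv)]; simp only [map_neg, back, e1 v hv, neg_neg, one_smul, neg_smul]; done)
           | (rw [e1 _ (on2 v hv)]; simp only [map_neg, back, e2 v hv, neg_neg, one_smul, neg_smul]; done)
           | (rw [e2 _ (on3 v hv)]; simp only [map_neg, back, e3 v hv, neg_neg, one_smul, neg_smul]; done))
      | refine Or.inr (Or.inr (Or.inl (hext _ _ hc ha' ?_ ?_ ?_))) <;> intro v hv <;>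
          (rw [hcomm, (ea v _ _ hv).2]
           first
           | (rw [e3 _ (on1 v hv)]; simp only [map_neg, back, e1 v hv, neg_neg, one_smul, neg_smul]; done)
           | (rw [e1 _ (on2 v hv)]; simp only [map_neg, back, e2 v hv, neg_neg, one_smul, neg_smul]; done)
           | (rw [e2 _ (on3 v hv)]; simp only [map_neg, back, e3 v hv, neg_neg, one_smul, neg_smul]; done))
      | refine Or.inr (Or.inr (Or.inr (hext _ _ hc (Y.mul_mem ha ha') ?_ ?_ ?_))) <;> intro v hv <;>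
          (rw [hcomm, mul_apply, (ea v _ _ hv).2, map_smul, (ea v _ _ hv).1, smul_smul]
           first
           | (rw [e3 _ (on1 v hv)]; simp only [map_neg, back, e1 v hv, neg_neg, one_smul, neg_smul, m1, m2, m3]; done)
           | (rw [e1 _ (on2 v hv)]; simp only [map_neg, back, e2 v hv, neg_neg, one_smul, neg_smul, m1, m2, m3]; done)
           | (rw [e2 _ (on3 v hv)]; simp only [map_neg, back, e3 v hv, neg_neg, one_smul, neg_smul, m1, m2, m3]; done))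
  refine ⟨⟨hYc, fun y hy => by rw [pow_two]; exact hsq y hy⟩, ?_, ?_⟩
  · classical
    have heq : (Y : Set S) = (({1, a, a', a * a'} : Finset S) : Set S) := by
      ext g
      simp only [SetLike.mem_coe, Finset.coe_insert, Finset.coe_singleton, Set.mem_insert_iff,
        Set.mem_singleton_iff]
      refine ⟨hall g, ?_⟩
      rintro (rfl | rfl | rfl | rfl)
      exacts [Y.one_mem, ha, ha', Y.mul_mem ha ha']
    rw [← SetLike.coe_sort_coe, Nat.card_coe_set_eq, heq, Set.ncard_coe_finset,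
      Finset.card_insert_of_notMem, Finset.card_insert_of_notMem, Finset.card_insert_of_notMem,
      Finset.card_singleton]
    · simp only [Finset.mem_singleton]
      intro e; exact a1 (mul_right_cancel (b := a') (by rw [← e, one_mul]))
    · simp only [Finset.mem_insert, Finset.mem_singleton, not_or]
      exact ⟨Ne.symm hp.ne, fun e => a'1 (mul_left_cancel (a := a) (by rw [← e, mul_one]))⟩
    · simp only [Finset.mem_insert, Finset.mem_singleton, not_or]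
      exact ⟨Ne.symm a1, Ne.symm a'1, Ne.symm aa1⟩
  · intro M hMU hMY hMb
    by_cases hM : M = ⊥
    · exact Or.inl hM
    right
    obtain ⟨v, hv, hv0⟩ := (Submodule.ne_bot_iff M).mp hM
    obtain ⟨v₀, h0, v₁, h1, v₂, h2, v₃, h3, he, x1, x2, x3⟩ := hp.decompose (ρ := ρ) v
    have av : ρ a v ∈ M := hMY a ha v hv
    have a'v : ρ a' v ∈ M := hMY a' ha' v hv
    have aav : ρ a (ρ a' v) ∈ M := hMY a ha _ a'v
    have M1 : v₁ ∈ M := x1 ▸ M.sub_mem (M.sub_mem (M.add_mem hv av) a'v) aav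
    have M2 : v₂ ∈ M := x2 ▸ M.sub_mem (M.add_mem (M.sub_mem hv av) a'v) aav
    have M3 : v₃ ∈ M := x3 ▸ M.add_mem (M.sub_mem (M.sub_mem hv av) a'v) aav
    have hfix0 : v₀ ∈ fixSub ρ Y := (mem_fixSub ρ).mpr fun y hy => y0 y hy v₀ h0
    have hz0 : v₀ = 0 := by
      refine (Submodule.disjoint_def.mp (isCompl_fix_move (ρ := ρ) h.three_not_dvd).disjoint) v₀ hfix0 ?_
      rw [show v₀ = v - v₁ - v₂ - v₃ by rw [he]; abel]
      exact Submodule.sub_mem _ (Submodule.sub_mem _ (Submodule.sub_mem _ (hMU hv) (hMU M1)) (hMU M2)) (hMU M3)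
    have full : ∀ s t, finrank (ZMod 3) (wt ρ a a' s t) = 1 → ∀ u ∈ wt ρ a a' s t, u ∈ M → u ≠ 0 →
        wt ρ a a' s t ≤ M := by
      intro s t hd u hu huM hu0 w hw
      obtain ⟨c, hc⟩ := (finrank_eq_one_iff_of_nonzero' (⟨u, hu⟩ : wt ρ a a' s t)
        (fun e => hu0 (congrArg Subtype.val e))).mp hd ⟨w, hw⟩
      have hc' : c • u = w := congrArg Subtype.val hc
      rw [← hc']; exact M.smul_mem c huM
    have next' : ∀ s t s', s * t = s' → finrank (ZMod 3) (wt ρ a a' s t) = 1 →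
        finrank (ZMod 3) (wt ρ a a' s' s) = 1 → wt ρ a a' s t ≤ M → wt ρ a a' s' s ≤ M := by
      intro s t s' e hd hd' hle
      obtain ⟨u, hu, hu0⟩ := (Submodule.ne_bot_iff _).mp (fun eb => by
        rw [eb, finrank_bot] at hd; exact one_ne_zero hd.symm : wt ρ a a' s t ≠ ⊥)
      refine full s' s hd' (ρ b u) (e ▸ hp.rotate hu) (hMb u (hle hu)) ?_
      exact fun e0 => hu0 (apply_injective ρ b (e0.trans (map_zero (ρ b)).symm))
    have n12 := next' 1 (-1) (-1) m3 d1 d2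
    have n23 := next' (-1) 1 (-1) m1 d2 d3
    have n31 := next' (-1) (-1) 1 m2 d3 d1
    have L : wt ρ a a' 1 (-1) ≤ M := by
      by_cases z1 : v₁ = 0
      · by_cases z2 : v₂ = 0
        · by_cases z3 : v₃ = 0
          · exact absurd (by rw [he, hz0, z1, z2, z3]; abel) hv0
          · exact n31 (full _ _ d3 v₃ h3 M3 z3)
        · exact n31 (n23 (full _ _ d2 v₂ h2 M2 z2))
      · exact full _ _ d1 v₁ h1 M1 z1
    refine le_antisymm hMU (iSup_le fun y => ?_)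
    rintro _ ⟨w, rfl⟩
    obtain ⟨w₀, g0, w₁, g1, w₂, g2, w₃, g3, hw, -⟩ := hp.decompose (ρ := ρ) w
    rw [disp_apply, hw]
    simp only [map_add, y0 _ y.2 w₀ g0]
    rw [show w₀ + ρ (y : S) w₁ + ρ (y : S) w₂ + ρ (y : S) w₃ - (w₀ + w₁ + w₂ + w₃) =
      (ρ (y : S) w₁ + ρ (y : S) w₂ + ρ (y : S) w₃) - (w₁ + w₂ + w₃) by abel]
    exact M.sub_mem
      (M.add_mem (M.add_mem (L (inv _ y.2 _ _ _ g1)) (n12 L (inv _ y.2 _ _ _ g2))) (n23 (n12 L) (inv _ y.2 _ _ _ g3)))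
      (M.add_mem (M.add_mem (L g1) (n12 L g2)) (n23 (n12 L) g3))

theorem commutator_in_center (h : TwoSetting ρ b Y)
    (hZb : ∀ w ∈ Y, (∀ y ∈ Y, y * w = w * y) → b * w = w * b)
    {a a' : S} (hp : FourPair b a a') (ha : a ∈ Y) (ha' : a' ∈ Y)
    (hac : ∀ g : S, g = a ∨ g = a' → ∀ x ∈ Y, ∀ y ∈ Y, y * ⁅g, x⁆ = ⁅g, x⁆ * y) :
    ∃ z ∈ Y, z * z = 1 ∧ (∀ y ∈ Y, y * z = z * y) ∧ ∀ u ∈ Y, ∀ v ∈ Y, ⁅u, v⁆ = 1 ∨ ⁅u, v⁆ = z := by
  obtain ⟨d1, d2, d3, dA, hb0⟩ := hp.lines (ρ := ρ) h.cubic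
  have cm : ∀ x ∈ Y, ∀ y ∈ Y, ⁅x, y⁆ ∈ Y := fun x hx y hy => by
    rw [commutatorElement_def]
    exact Y.mul_mem (Y.mul_mem (Y.mul_mem hx hy) (Y.inv_mem hx)) (Y.inv_mem hy)
  obtain ⟨y₀, hy₀, hne⟩ : ∃ y ∈ Y, ⁅a, y⁆ ≠ 1 := by
    by_contra hno
    push Not at hno
    have := hZb a ha fun y hy => (commutatorElement_eq_one_iff_mul_comm.mp (hno y hy)).symm
    have hconj := hp.conj
    rw [this, mul_inv_cancel_right] at hconj
    exact hp.ne hconj.symm
  set z := ⁅a, y₀⁆ with hzdef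
  have hgY : ∀ g : S, g = a ∨ g = a' → g ∈ Y := by rintro g (rfl | rfl) <;> assumption
  have hg2 : ∀ g : S, g = a ∨ g = a' → g * g = 1 := by rintro g (rfl | rfl); exacts [hp.sq, hp.sq']
  have hc2 : ∀ g : S, g = a ∨ g = a' → ∀ x ∈ Y, ⁅g, x⁆ * ⁅g, x⁆ = 1 := by
    intro g hg x hx
    have e : ⁅g * g, x⁆ = g * ⁅g, x⁆ * g⁻¹ * ⁅g, x⁆ := by simp only [commutatorElement_def]; group
    rw [hg2 g hg, commutatorElement_one_left, hac g hg x hx g (hgY g hg), mul_inv_cancel_right] at e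
    exact e.symm
  have hz : z ∈ Y := cm _ ha _ hy₀
  have hzY : ∀ y ∈ Y, y * z = z * y := hac a (Or.inl rfl) y₀ hy₀
  have hzz : z * z = 1 := hc2 a (Or.inl rfl) y₀ hy₀
  have hzb := hZb z hz hzY
  have two : ∀ g : S, g = a ∨ g = a' → ∀ x ∈ Y, ⁅g, x⁆ = 1 ∨ ⁅g, x⁆ = z := by
    intro g hg x hx
    by_cases h1 : ⁅g, x⁆ = 1
    · exact Or.inl h1
    · exact Or.inr (h.central_involution_unique hz hne hzz hzY hzb (cm _ (hgY g hg) _ hx) h1
        (hc2 g hg x hx) (hac g hg x hx) (hZb _ (cm _ (hgY g hg) _ hx) (hac g hg x hx)))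
  obtain ⟨hfix, hmove⟩ := h.central_involution hz hne hzz hzY hzb
  set U := moveSub ρ Y with hU
  have zU : ∀ v ∈ U, ρ z v = -v := fun v hv => mem_ker_add.mp (hmove.le hv)
  have hUy : ∀ y ∈ Y, ∀ v ∈ U, ρ y v ∈ U := fun y hy v hv => mem_moveSub_apply ρ hy hv
  -- the trivial weight space meets `U` in a line
  set L4 := wt ρ a a' 1 1 ⊓ U with hL4
  have inU : ∀ g ∈ Y, ∀ v, ρ g v = -v → v ∈ U := by
    intro g hg v hv
    have h2 := disp_mem_moveSub ρ hg v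
    rw [hv] at h2
    have : v = -v - v := by
      have h3 : (3 : ℕ) • v = 0 := ZModModule.char_nsmul_eq_zero 3 _
      calc v = v - (3 : ℕ) • v := by rw [h3, sub_zero]
        _ = -v - v := by abel
    rw [this]; exact h2
  have L1U : wt ρ a a' 1 (-1) ≤ U := fun v hv => inU a' ha' v (by rw [(mem_wt.mp hv).2, neg_smul, one_smul])
  have L2U : wt ρ a a' (-1) 1 ≤ U := fun v hv => inU a ha v (by rw [(mem_wt.mp hv).1, neg_smul, one_smul])
  have L3U : wt ρ a a' (-1) (-1) ≤ U := fun v hv => inU a ha v (by rw [(mem_wt.mp hv).1, neg_smul, one_smul])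
  have haU : LinearMap.ker (ρ a + LinearMap.id) ≤ U := fun v hv => inU a ha v (mem_ker_add.mp hv)
  have flip : ∀ v ∈ U, ρ a (ρ y₀ v) = -ρ y₀ (ρ a v) := by
    intro v hv
    have e : a * y₀ = z * (y₀ * a) := by rw [hzdef]; simp only [commutatorElement_def]; group
    rw [← mul_apply, e, mul_apply, mul_apply, zU _ (hUy y₀ hy₀ _ (hUy a ha v hv))]
  have dP : finrank (ZMod 3) (LinearMap.ker (disp ρ a) ⊓ U : Submodule (ZMod 3) E) = 2 := by
    have e1 : (LinearMap.ker (ρ a + LinearMap.id)).map (ρ y₀) = LinearMap.ker (disp ρ a) ⊓ U := by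
      apply le_antisymm
      · rintro _ ⟨v, hv, rfl⟩
        refine ⟨?_, hUy y₀ hy₀ v (haU hv)⟩
        rw [SetLike.mem_coe, mem_ker_disp, flip v (haU hv), mem_ker_add.mp hv, map_neg, neg_neg]
      · rintro v ⟨hv1, hv2⟩
        refine ⟨ρ y₀⁻¹ v, ?_, self_inv_apply ρ y₀ v⟩
        have hvU : ρ y₀⁻¹ v ∈ U := hUy _ (Y.inv_mem hy₀) v hv2
        rw [SetLike.mem_coe, mem_ker_add]
        apply apply_injective ρ y₀
        rw [map_neg, self_inv_apply]
        have := flip _ hvU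
        rw [self_inv_apply, mem_ker_disp.mp hv1] at this
        exact (neg_eq_iff_eq_neg.mpr this).symm
    rw [← e1, ← (Submodule.equivMapOfInjective _ (apply_injective ρ y₀) _).finrank_eq, dA]
  have d4 : finrank (ZMod 3) L4 = 1 := by
    have heq : LinearMap.ker (disp ρ a) ⊓ U = wt ρ a a' 1 (-1) ⊔ L4 := by
      apply le_antisymm
      · rintro v ⟨hv1, hv2⟩
        obtain ⟨v₀, h0, v₁, h1, v₂, h2, v₃, h3, he, x1, x2, x3⟩ := hp.decompose (ρ := ρ) v
        have hav := mem_ker_disp.mp hv1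
        have cc : ρ a (ρ a' v) = ρ a' v := by rw [← mul_apply, hp.comm, mul_apply, hav]
        have z2 : v₂ = 0 := by rw [x2, hav, cc]; abel
        have z3 : v₃ = 0 := by rw [x3, hav, cc]; abel
        rw [he, z2, z3, add_zero, add_zero, add_comm]
        refine Submodule.add_mem_sup h1 ⟨h0, ?_⟩
        rw [show v₀ = v - v₁ by rw [he, z2, z3]; abel]
        exact U.sub_mem hv2 (L1U h1)
      · refine sup_le ?_ ?_
        · intro v hv
          exact ⟨mem_ker_disp.mpr (by rw [(mem_wt.mp hv).1, one_smul]), L1U hv⟩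
        · rintro v ⟨hv, hvU⟩
          exact ⟨mem_ker_disp.mpr (by rw [(mem_wt.mp hv).1, one_smul]), hvU⟩
    have hd : wt ρ a a' 1 (-1) ⊓ L4 = ⊥ := by
      rw [eq_bot_iff]
      rintro v ⟨h1, h2, -⟩
      have e1 := (mem_wt.mp h1).2
      have e2 := (mem_wt.mp h2).2
      rw [one_smul] at e2
      rw [e2, neg_smul, one_smul] at e1
      exact eq_zero_of_neg_eq e1.symm
    have := Submodule.finrank_sup_add_finrank_inf_eq (wt ρ a a' 1 (-1)) L4
    rw [hd, finrank_bot, add_zero, ← heq, dP, d1] at this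
    omega
  -- elements commuting with `a` and `a'`
  let M8 : S → Prop := fun g => ∃ m, (m = 1 ∨ m = a ∨ m = a' ∨ m = a * a') ∧ (g = m ∨ g = m * z)
  have hdet : ∀ g ∈ Y, LinearMap.det (ρ g) = 1 := by
    let φ : S →* ZMod 3 := (LinearMap.det : (E →ₗ[ZMod 3] E) →* ZMod 3).comp (ρ : S →* (E →ₗ[ZMod 3] E))
    let K : Subgroup S := φ.toHomUnits.ker
    have : Y ≤ K := by
      refine h.gen.ge.trans ?_
      rw [Subgroup.commutator_le]
      intro x _ y _
      show φ.toHomUnits ⁅x, y⁆ = 1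
      rw [map_commutatorElement, commutatorElement_eq_one_iff_mul_comm, mul_comm]
    intro g hg
    exact congrArg Units.val (MonoidHom.mem_ker.mp (this hg))
  have hD : ∀ g ∈ Y, g * a = a * g → g * a' = a' * g → M8 g := by
    intro g hg c1 c2
    have inv : ∀ w : S, w ∈ Y → w * a = a * w → w * a' = a' * w → ∀ v ∈ L4, ρ w v ∈ L4 :=
      fun w hw e1 e2 v hv => ⟨wt_invariant e1 e2 hv.1, hUy w hw v hv.2⟩
    have fin : ∀ m ∈ Y, m * a = a * m → m * a' = a' * m →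
        (∀ v ∈ wt ρ a a' 1 (-1), ρ g v = ρ m v) → (∀ v ∈ wt ρ a a' (-1) 1, ρ g v = ρ m v) →
        (∀ v ∈ wt ρ a a' (-1) (-1), ρ g v = ρ m v) → g = m := by
      intro m hm k1 k2 e1 e2 e3
      set w := m⁻¹ * g with hw
      have hwY : w ∈ Y := Y.mul_mem (Y.inv_mem hm) hg
      have w1 : w * a = a * w := ((Commute.inv_left k1).mul_left c1 : Commute (m⁻¹ * g) a).eq
      have w2 : w * a' = a' * w := ((Commute.inv_left k2).mul_left c2 : Commute (m⁻¹ * g) a').eq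
      have we : ∀ v, ρ g v = ρ m v → ρ w v = v := fun v e => by rw [hw, mul_apply, e, inv_apply_self]
      have hfix' : ∀ u ∈ fixSub ρ Y, ρ w u = u := fun u hu => (mem_fixSub ρ).mp hu w hwY
      rcases line_sign (ρ := ρ) (g := w) d4 (inv w hwY w1 w2) with e4 | e4
      · symm
        apply inv_mul_eq_one.mp
        apply h.cubic.inj
        ext v
        obtain ⟨u, hu, x, hx, rfl⟩ := Submodule.mem_sup.mp
          ((isCompl_fix_move (ρ := ρ) h.three_not_dvd).sup_eq_top ▸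
            (Submodule.mem_top : v ∈ (⊤ : Submodule (ZMod 3) E)))
        obtain ⟨v₀, h0, v₁, h1, v₂, h2, v₃, h3, he, -⟩ := hp.decompose (ρ := ρ) x
        have hv₀ : v₀ ∈ L4 := ⟨h0, by
          rw [show v₀ = x - v₁ - v₂ - v₃ by rw [he]; abel]
          exact U.sub_mem (U.sub_mem (U.sub_mem hx (L1U h1)) (L2U h2)) (L3U h3)⟩
        rw [map_one]
        show ρ w (u + x) = u + x
        rw [map_add, hfix' u hu, he, map_add, map_add, map_add, e4 v₀ hv₀, we _ (e1 v₁ h1),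
          we _ (e2 v₂ h2), we _ (e3 v₃ h3)]
      · exfalso
        have hker : LinearMap.ker (ρ w + LinearMap.id) = L4 := by
          apply le_antisymm
          · intro v hv
            have hv' := mem_ker_add.mp hv
            have hvU := inU w hwY v hv'
            obtain ⟨v₀, h0, v₁, h1, v₂, h2, v₃, h3, he, -⟩ := hp.decompose (ρ := ρ) v
            have hv₀ : v₀ ∈ L4 := ⟨h0, by
              rw [show v₀ = v - v₁ - v₂ - v₃ by rw [he]; abel]
              exact U.sub_mem (U.sub_mem (U.sub_mem hvU (L1U h1)) (L2U h2)) (L3U h3)⟩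
            rw [he, map_add, map_add, map_add, e4 v₀ hv₀, we _ (e1 v₁ h1), we _ (e2 v₂ h2),
              we _ (e3 v₃ h3)] at hv'
            have z : v₁ + v₂ + v₃ = 0 := eq_zero_of_neg_eq (by
              calc -(v₁ + v₂ + v₃) = -(v₀ + v₁ + v₂ + v₃) + v₀ := by abel
                _ = -v₀ + v₁ + v₂ + v₃ + v₀ := by rw [hv']
                _ = v₁ + v₂ + v₃ := by abel)
            rw [he, show v₀ + v₁ + v₂ + v₃ = v₀ + (v₁ + v₂ + v₃) by abel, z, add_zero]
            exact hv₀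
          · exact fun v hv => mem_ker_add.mpr (e4 v hv)
        have hww : w * w = 1 := by
          apply h.cubic.inj
          ext v
          obtain ⟨u, hu, x, hx, rfl⟩ := Submodule.mem_sup.mp
            ((isCompl_fix_move (ρ := ρ) h.three_not_dvd).sup_eq_top ▸
              (Submodule.mem_top : v ∈ (⊤ : Submodule (ZMod 3) E)))
          obtain ⟨v₀, h0, v₁, h1, v₂, h2, v₃, h3, he, -⟩ := hp.decompose (ρ := ρ) x
          have hv₀ : v₀ ∈ L4 := ⟨h0, by
            rw [show v₀ = x - v₁ - v₂ - v₃ by rw [he]; abel]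
            exact U.sub_mem (U.sub_mem (U.sub_mem hx (L1U h1)) (L2U h2)) (L3U h3)⟩
          rw [mul_apply, map_one, he]
          simp only [map_add, hfix' u hu, e4 v₀ hv₀, map_neg, neg_neg, we _ (e1 v₁ h1),
            we _ (e2 v₂ h2), we _ (e3 v₃ h3)]
          rfl
        have := hdet w hwY
        rw [det_involution hww, hker, d4, pow_one] at this
        exact absurd this (by decide)
    have inv' := fun s t v hv => wt_invariant (ρ := ρ) c1 c2 (s := s) (t := t) (v := v) hv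
    have za : z * a = a * z := (hzY a ha).symm
    have za' : z * a' = a' * z := (hzY a' ha').symm
    rcases line_sign (ρ := ρ) (g := g) d1 (inv' _ _) with e1 | e1 <;>
    rcases line_sign (ρ := ρ) (g := g) d2 (inv' _ _) with e2 | e2 <;>
    rcases line_sign (ρ := ρ) (g := g) d3 (inv' _ _) with e3 | e3
    · refine ⟨1, Or.inl rfl, Or.inl (fin 1 Y.one_mem (by simp) (by simp) ?_ ?_ ?_)⟩
      all_goals intro v hv; rw [map_one]; first | exact e1 v hv | exact e2 v hv | exact e3 v hv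
    · refine ⟨a * a', Or.inr (Or.inr (Or.inr rfl)), Or.inr ?_⟩
      refine fin _ (Y.mul_mem (Y.mul_mem ha ha') hz) ?_ ?_ ?_ ?_ ?_
      · exact (((Commute.refl a).mul_left (Commute.symm hp.comm)).mul_left za : Commute _ a).eq
      · exact ((Commute.mul_left hp.comm (Commute.refl a')).mul_left za' : Commute _ a').eq
      · intro v hv
        rw [e1 v hv, mul_apply, mul_apply, zU v (L1U hv), map_neg, map_neg, (mem_wt.mp hv).2, map_smul,
          (mem_wt.mp hv).1]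
        simp
      · intro v hv
        rw [e2 v hv, mul_apply, mul_apply, zU v (L2U hv), map_neg, map_neg, (mem_wt.mp hv).2, map_smul,
          (mem_wt.mp hv).1]
        simp
      · intro v hv
        rw [e3 v hv, mul_apply, mul_apply, zU v (L3U hv), map_neg, map_neg, (mem_wt.mp hv).2, map_smul,
          (mem_wt.mp hv).1]
        simp
    · refine ⟨a', Or.inr (Or.inr (Or.inl rfl)), Or.inr (fin _ (Y.mul_mem ha' hz) ?_ ?_ ?_ ?_ ?_)⟩
      · exact ((Commute.symm hp.comm).mul_left za : Commute _ a).eq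
      · exact ((Commute.refl a').mul_left za' : Commute _ a').eq
      all_goals intro v hv
      · rw [e1 v hv, mul_apply, zU v (L1U hv), map_neg, (mem_wt.mp hv).2]; simp
      · rw [e2 v hv, mul_apply, zU v (L2U hv), map_neg, (mem_wt.mp hv).2]; simp
      · rw [e3 v hv, mul_apply, zU v (L3U hv), map_neg, (mem_wt.mp hv).2]; simp
    · refine ⟨a, Or.inr (Or.inl rfl), Or.inl (fin _ ha rfl hp.comm ?_ ?_ ?_)⟩
      all_goals intro v hv
      · rw [e1 v hv, (mem_wt.mp hv).1]; simp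
      · rw [e2 v hv, (mem_wt.mp hv).1]; simp
      · rw [e3 v hv, (mem_wt.mp hv).1]; simp
    · refine ⟨a, Or.inr (Or.inl rfl), Or.inr (fin _ (Y.mul_mem ha hz) ?_ ?_ ?_ ?_ ?_)⟩
      · exact ((Commute.refl a).mul_left za : Commute _ a).eq
      · exact (Commute.mul_left hp.comm za' : Commute _ a').eq
      all_goals intro v hv
      · rw [e1 v hv, mul_apply, zU v (L1U hv), map_neg, (mem_wt.mp hv).1]; simp
      · rw [e2 v hv, mul_apply, zU v (L2U hv), map_neg, (mem_wt.mp hv).1]; simp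
      · rw [e3 v hv, mul_apply, zU v (L3U hv), map_neg, (mem_wt.mp hv).1]; simp
    · refine ⟨a', Or.inr (Or.inr (Or.inl rfl)), Or.inl (fin _ ha' hp.comm.symm rfl ?_ ?_ ?_)⟩
      all_goals intro v hv
      · rw [e1 v hv, (mem_wt.mp hv).2]; simp
      · rw [e2 v hv, (mem_wt.mp hv).2]; simp
      · rw [e3 v hv, (mem_wt.mp hv).2]; simp
    · refine ⟨a * a', Or.inr (Or.inr (Or.inr rfl)), Or.inl (fin _ (Y.mul_mem ha ha') ?_ ?_ ?_ ?_ ?_)⟩
      · exact ((Commute.refl a).mul_left (Commute.symm hp.comm) : Commute _ a).eq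
      · exact (Commute.mul_left hp.comm (Commute.refl a') : Commute _ a').eq
      all_goals intro v hv
      · rw [e1 v hv, mul_apply, (mem_wt.mp hv).2, map_smul, (mem_wt.mp hv).1]; simp
      · rw [e2 v hv, mul_apply, (mem_wt.mp hv).2, map_smul, (mem_wt.mp hv).1]; simp
      · rw [e3 v hv, mul_apply, (mem_wt.mp hv).2, map_smul, (mem_wt.mp hv).1]; simp
    · refine ⟨1, Or.inl rfl, Or.inr (fin _ (Y.mul_mem Y.one_mem hz) (by simp [za]) (by simp [za']) ?_ ?_ ?_)⟩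
      all_goals intro v hv; rw [one_mul]
      · rw [e1 v hv, zU v (L1U hv)]
      · rw [e2 v hv, zU v (L2U hv)]
      · rw [e3 v hv, zU v (L3U hv)]
  -- commutators with elements of `M8`
  have hp2 : ∀ k : S, k = 1 ∨ k = z → ∀ y ∈ Y, y * k = k * y := by
    rintro k (rfl | rfl) y hy
    · simp
    · exact hzY y hy
  have hmul2 : ∀ k l : S, (k = 1 ∨ k = z) → (l = 1 ∨ l = z) → (k * l = 1 ∨ k * l = z) := by
    rintro k l (rfl | rfl) (rfl | rfl) <;> simp [hzz]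
  have homg : ∀ g, (g = a ∨ g = a') → ∀ x ∈ Y, ∀ y ∈ Y, ⁅g, x * y⁆ = ⁅g, x⁆ * ⁅g, y⁆ := by
    intro g hg x hx y hy
    rw [show ⁅g, x * y⁆ = ⁅g, x⁆ * (x * ⁅g, y⁆ * x⁻¹) by simp only [commutatorElement_def]; group,
      hac g hg y hy x hx, mul_inv_cancel_right]
  have hsmall : ∀ m ∈ Y, M8 m → ∀ y ∈ Y, ⁅m, y⁆ = 1 ∨ ⁅m, y⁆ = z := by
    intro m _ hm y hy
    have hz1 : ⁅z, y⁆ = 1 := commutatorElement_eq_one_iff_mul_comm.mpr (hzY y hy).symm
    have mulT : ∀ p q : S, p ∈ Y → (⁅p, y⁆ = 1 ∨ ⁅p, y⁆ = z) → (⁅q, y⁆ = 1 ∨ ⁅q, y⁆ = z) →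
        (⁅p * q, y⁆ = 1 ∨ ⁅p * q, y⁆ = z) := by
      intro p q hpY hp' hq'
      rw [show ⁅p * q, y⁆ = p * ⁅q, y⁆ * p⁻¹ * ⁅p, y⁆ by simp only [commutatorElement_def]; group,
        hp2 _ hq' p hpY, mul_inv_cancel_right]
      exact hmul2 _ _ hq' hp'
    have hm0 : ∀ m : S, (m = 1 ∨ m = a ∨ m = a' ∨ m = a * a') → m ∈ Y ∧ (⁅m, y⁆ = 1 ∨ ⁅m, y⁆ = z) := by
      rintro m (rfl | rfl | rfl | rfl)
      · exact ⟨Y.one_mem, Or.inl (commutatorElement_one_left y)⟩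
      · exact ⟨ha, two _ (Or.inl rfl) y hy⟩
      · exact ⟨ha', two _ (Or.inr rfl) y hy⟩
      · exact ⟨Y.mul_mem ha ha', mulT _ _ ha (two _ (Or.inl rfl) y hy) (two _ (Or.inr rfl) y hy)⟩
    obtain ⟨m₀, hm₀, rfl | rfl⟩ := hm
    · exact (hm0 _ hm₀).2
    · exact mulT _ _ (hm0 _ hm₀).1 (hm0 _ hm₀).2 (Or.inl hz1)
  let f : S → S × S := fun y => (⁅a, y⁆, ⁅a', y⁆)
  have same : ∀ x ∈ Y, ∀ y ∈ Y, f x = f y → M8 (x⁻¹ * y) := by
    intro x hx y hy hf
    obtain ⟨f1, f2⟩ := Prod.mk.inj hf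
    have key : ∀ g, (g = a ∨ g = a') → ⁅g, x⁆ = ⁅g, y⁆ → (x⁻¹ * y) * g = g * (x⁻¹ * y) := by
      intro g hg e
      symm
      rw [← commutatorElement_eq_one_iff_mul_comm]
      have h1 := homg g hg x hx (x⁻¹ * y) (Y.mul_mem (Y.inv_mem hx) hy)
      rw [mul_inv_cancel_left, ← e] at h1
      exact mul_left_cancel (h1.symm.trans (mul_one _).symm)
    exact hD _ (Y.mul_mem (Y.inv_mem hx) hy) (key a (Or.inl rfl) f1) (key a' (Or.inr rfl) f2)
  -- commutators lie in `M8`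
  have hcomm8 : ∀ u ∈ Y, ∀ v ∈ Y, M8 ⁅u, v⁆ := by
    intro u hu v hv
    have key : ∀ g, (g = a ∨ g = a') → ⁅u, v⁆ * g = g * ⁅u, v⁆ := by
      intro g hg
      symm
      rw [← commutatorElement_eq_one_iff_mul_comm]
      have i1 : ∀ x ∈ Y, ⁅g, x⁻¹⁆ = ⁅g, x⁆ := by
        intro x hx
        have h1 := homg g hg x hx x⁻¹ (Y.inv_mem hx)
        rw [mul_inv_cancel, commutatorElement_one_right] at h1
        exact (inv_eq_of_mul_eq_one_right h1.symm).symm.trans (inv_eq_of_mul_eq_one_right (hc2 g hg x hx))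
      rw [commutatorElement_def u v, homg g hg _ (Y.mul_mem (Y.mul_mem hu hv) (Y.inv_mem hu)) _ (Y.inv_mem hv),
        homg g hg _ (Y.mul_mem hu hv) _ (Y.inv_mem hu), homg g hg _ hu _ hv, i1 u hu, i1 v hv,
        hac g hg v hv _ (cm _ (hgY g hg) _ hu), mul_assoc (⁅g, v⁆) ⁅g, u⁆, hc2 g hg u hu, mul_one,
        hc2 g hg v hv]
    exact hD _ (cm _ hu _ hv) (key a (Or.inl rfl)) (key a' (Or.inr rfl))
  have eqv : ∀ y ∈ Y, ⁅a, b * y * b⁻¹⁆ = ⁅a', y⁆ * ⁅a, y⁆ ∧ ⁅a', b * y * b⁻¹⁆ = ⁅a, y⁆ := by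
    intro y hy
    have hσ : b * y * b⁻¹ ∈ Y := conj_mem_norm h.norm hy
    have bfix : ∀ k : S, k = 1 ∨ k = z → b * k * b⁻¹ = k := by
      rintro k (rfl | rfl)
      · simp
      · rw [hzb, mul_inv_cancel_right]
    have e1 : ⁅a', b * y * b⁻¹⁆ = ⁅a, y⁆ := by
      rw [← hp.conj, show ⁅b * a * b⁻¹, b * y * b⁻¹⁆ = b * ⁅a, y⁆ * b⁻¹ by
        simp only [commutatorElement_def]; group]
      exact bfix _ (two a (Or.inl rfl) y hy)
    have e2 : ⁅a * a', b * y * b⁻¹⁆ = ⁅a', y⁆ := by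
      rw [← hp.conj', show ⁅b * a' * b⁻¹, b * y * b⁻¹⁆ = b * ⁅a', y⁆ * b⁻¹ by
        simp only [commutatorElement_def]; group]
      exact bfix _ (two a' (Or.inr rfl) y hy)
    rw [show ⁅a * a', b * y * b⁻¹⁆ = a * ⁅a', b * y * b⁻¹⁆ * a⁻¹ * ⁅a, b * y * b⁻¹⁆ by
      simp only [commutatorElement_def]; group, e1, hac a (Or.inl rfl) y hy a ha,
      mul_inv_cancel_right] at e2
    refine ⟨?_, e1⟩
    rw [← e2, ← hac a (Or.inl rfl) y hy _ (cm _ ha _ hσ), mul_assoc ⁅a, b * y * b⁻¹⁆ ⁅a, y⁆ ⁅a, y⁆,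
      hc2 a (Or.inl rfl) y hy, mul_one]
  have conjz : ∀ k : S, k = 1 ∨ k = z → ∀ x ∈ Y, x * k * x⁻¹ = k := fun k hk x hx => by
    rw [hp2 k hk x hx, mul_inv_cancel_right]
  -- `[u, σ u]` lies in `{1, z}`
  have c0z : ∀ u ∈ Y, ⁅u, b * u * b⁻¹⁆ = 1 ∨ ⁅u, b * u * b⁻¹⁆ = z := by
    intro u hu
    set u₁ := b * u * b⁻¹ with hu₁
    set u₂ := b * u₁ * b⁻¹ with hu₂
    have hu1Y : u₁ ∈ Y := conj_mem_norm h.norm hu
    have hu2Y : u₂ ∈ Y := conj_mem_norm h.norm hu1Y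
    have hd : M8 ((u * u₁)⁻¹ * u₂) := by
      refine same _ (Y.mul_mem hu hu1Y) _ hu2Y ?_
      have ca : ⁅a', u⁆ * ⁅a, u⁆ = ⁅a, u⁆ * ⁅a', u⁆ := hac a (Or.inl rfl) u hu _ (cm _ ha' _ hu)
      obtain ⟨p1, p2⟩ := eqv u hu
      obtain ⟨q1, q2⟩ := eqv u₁ hu1Y
      rw [← hu₁] at p1 p2
      rw [← hu₂] at q1 q2
      show (⁅a, u * u₁⁆, ⁅a', u * u₁⁆) = (⁅a, u₂⁆, ⁅a', u₂⁆)
      rw [homg a (Or.inl rfl) _ hu _ hu1Y, homg a' (Or.inr rfl) _ hu _ hu1Y, q1, q2, p1, p2, ca]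
    set d := (u * u₁)⁻¹ * u₂ with hd'
    have hdY : d ∈ Y := Y.mul_mem (Y.inv_mem (Y.mul_mem hu hu1Y)) hu2Y
    have hd2 : ∀ x ∈ Y, ⁅x, d⁆ = 1 ∨ ⁅x, d⁆ = z := by
      intro x hx
      rw [← commutatorElement_inv]
      rcases hsmall d hdY hd x hx with e | e <;> rw [e]
      · simp
      · exact Or.inr (inv_eq_of_mul_eq_one_right hzz)
    obtain ⟨k, hk, hσc⟩ : ∃ k : S, (k = 1 ∨ k = z) ∧ b * ⁅u, u₁⁆ * b⁻¹ = ⁅u, u₁⁆⁻¹ * k := by
      refine ⟨⁅u₁, d⁆, hd2 u₁ hu1Y, ?_⟩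
      have e : b * ⁅u, u₁⁆ * b⁻¹ = ⁅u₁, u₂⁆ := by
        rw [hu₂, hu₁]; simp only [commutatorElement_def]; group
      have : u₂ = u * (u₁ * d) := by rw [hd']; group
      rw [e, this, show ⁅u₁, u * (u₁ * d)⁆ = ⁅u, u₁⁆⁻¹ * (u * (u₁ * ⁅u₁, d⁆ * u₁⁻¹) * u⁻¹) by
        simp only [commutatorElement_def]; group, conjz _ (hd2 u₁ hu1Y) u₁ hu1Y,
        conjz _ (hd2 u₁ hu1Y) u hu]
    obtain ⟨m, hm, hm'⟩ := hcomm8 u hu u₁ hu1Y
    have hm2 : m * m = 1 ∧ m ∈ Y := by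
      rcases hm with rfl | rfl | rfl | rfl
      · exact ⟨one_mul 1, Y.one_mem⟩
      · exact ⟨hp.sq, ha⟩
      · exact ⟨hp.sq', ha'⟩
      · exact ⟨by rw [mul_assoc, ← mul_assoc a' a a', ← hp.comm, mul_assoc a a' a', hp.sq', mul_one, hp.sq], Y.mul_mem ha ha'⟩
    have hkey : ∃ l : S, (l = 1 ∨ l = z) ∧ (b * m * b⁻¹) * m = l := by
      have bz : b * z * b⁻¹ = z := by rw [hzb, mul_inv_cancel_right]
      have iz : z⁻¹ = z := inv_eq_of_mul_eq_one_right hzz
      rcases hm' with e | e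
      · refine ⟨k, hk, ?_⟩
        rw [e, inv_eq_of_mul_eq_one_right hm2.1] at hσc
        rw [hσc, mul_assoc, ← hp2 k hk m hm2.2, ← mul_assoc, hm2.1, one_mul]
      · refine ⟨k, hk, ?_⟩
        rw [e, show b * (m * z) * b⁻¹ = (b * m * b⁻¹) * (b * z * b⁻¹) by group, bz, mul_inv_rev, iz,
          inv_eq_of_mul_eq_one_right hm2.1, ← hzY m hm2.2, mul_assoc m z k, hp2 k hk z hz,
          ← mul_assoc] at hσc
        rw [mul_right_cancel hσc, mul_assoc, ← hp2 k hk m hm2.2, ← mul_assoc, hm2.1, one_mul]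
    obtain ⟨l, hl, hl'⟩ := hkey
    have nz : ∀ (g : S) (s : ZMod 3) (t : ZMod 3), finrank (ZMod 3) (wt ρ a a' s t) = 1 →
        wt ρ a a' s t ≤ U → (∀ v ∈ wt ρ a a' s t, ρ g v = v) → g ≠ z := by
      intro g s t hd hle hg e
      obtain ⟨v, hv, hv0⟩ := (Submodule.ne_bot_iff _).mp (fun eb => by
        rw [eb, finrank_bot] at hd; exact one_ne_zero hd.symm : wt ρ a a' s t ≠ ⊥)
      have := hg v hv
      rw [e, zU v (hle hv)] at this
      exact hv0 (eq_zero_of_neg_eq this)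
    have na : a ≠ z := nz a 1 (-1) d1 L1U fun v hv => by rw [(mem_wt.mp hv).1, one_smul]
    have na' : a' ≠ z := nz a' (-1) 1 d2 L2U fun v hv => by rw [(mem_wt.mp hv).2, one_smul]
    have naa : a * a' ≠ z := nz _ (-1) (-1) d3 L3U fun v hv => by
      rw [mul_apply, (mem_wt.mp hv).2, map_smul, (mem_wt.mp hv).1, smul_smul]; simp
    have a1 : a ≠ 1 := by rintro rfl; simp [hzdef] at hne
    have a'1 : a' ≠ 1 := by
      intro e
      apply a1
      have := hp.conj'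
      rw [e, mul_one, mul_inv_cancel, mul_one] at this
      exact this.symm
    have aa1 : a * a' ≠ 1 := fun e => hp.ne ((eq_inv_of_mul_eq_one_right e).trans (inv_eq_of_mul_eq_one_right hp.sq))
    have bad : ∀ g : S, g ≠ 1 → g ≠ z → g = l → False := by
      rintro g g1 g2 rfl
      rcases hl with e | e
      · exact g1 e
      · exact g2 e
    rcases hm with rfl | rfl | rfl | rfl
    · rcases hm' with e | e
      · exact Or.inl e
      · exact Or.inr (e.trans (one_mul z))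
    · rw [hp.conj, ← hp.comm] at hl'
      exact (bad _ aa1 naa hl').elim
    · rw [hp.conj', mul_assoc, hp.sq', mul_one] at hl'
      exact (bad _ a1 na hl').elim
    · rw [show b * (a * a') * b⁻¹ = (b * a * b⁻¹) * (b * a' * b⁻¹) by group, hp.conj, hp.conj',
        ← mul_assoc a' a a', ← hp.comm, mul_assoc a a' a', hp.sq', mul_one, ← mul_assoc, hp.sq, one_mul] at hl'
      exact (bad _ a'1 na' hl').elim
  refine ⟨z, hz, hzz, hzY, fun u hu v hv => ?_⟩
  set u₁ := b * u * b⁻¹ with hu₁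
  have hu1Y : u₁ ∈ Y := conj_mem_norm h.norm hu
  have left_small : ∀ d ∈ Y, M8 d → ∀ x ∈ Y, ⁅x, d⁆ = 1 ∨ ⁅x, d⁆ = z := by
    intro d hdY hd x hx
    rw [← commutatorElement_inv]
    rcases hsmall d hdY hd x hx with e | e <;> rw [e]
    · simp
    · exact Or.inr (inv_eq_of_mul_eq_one_right hzz)
  have e_ext : ∀ w ∈ Y, (⁅u, w⁆ = 1 ∨ ⁅u, w⁆ = z) → f w = f v → (⁅u, v⁆ = 1 ∨ ⁅u, v⁆ = z) := by
    intro w hw hw' hf
    have hd := same w hw v hv hf
    have hdY : w⁻¹ * v ∈ Y := Y.mul_mem (Y.inv_mem hw) hv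
    rw [show ⁅u, v⁆ = ⁅u, w⁆ * (w * ⁅u, w⁻¹ * v⁆ * w⁻¹) by simp only [commutatorElement_def]; group,
      conjz _ (left_small _ hdY hd u hu) w hw]
    exact hmul2 _ _ hw' (left_small _ hdY hd u hu)
  have hf1 : f 1 = (1, 1) := by simp [f]
  have hfu : f u₁ = (⁅a', u⁆ * ⁅a, u⁆, ⁅a, u⁆) := by
    obtain ⟨p1, p2⟩ := eqv u hu
    show (⁅a, u₁⁆, ⁅a', u₁⁆) = _
    rw [hu₁, p1, p2]
  have hfuu : f (u * u₁) = (⁅a, u⁆ * (⁅a', u⁆ * ⁅a, u⁆), ⁅a', u⁆ * ⁅a, u⁆) := by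
    show (⁅a, u * u₁⁆, ⁅a', u * u₁⁆) = _
    rw [homg a (Or.inl rfl) _ hu _ hu1Y, homg a' (Or.inr rfl) _ hu _ hu1Y]
    rw [show ⁅a, u₁⁆ = ⁅a', u⁆ * ⁅a, u⁆ from congrArg Prod.fst hfu,
      show ⁅a', u₁⁆ = ⁅a, u⁆ from congrArg Prod.snd hfu]
  have c_uu : ⁅u, u * u₁⁆ = 1 ∨ ⁅u, u * u₁⁆ = z := by
    rw [show ⁅u, u * u₁⁆ = u * ⁅u, u₁⁆ * u⁻¹ by simp only [commutatorElement_def]; group,
      conjz _ (c0z u hu) u hu]
    exact c0z u hu
  have c_one : ⁅u, (1 : S)⁆ = 1 ∨ ⁅u, (1 : S)⁆ = z := Or.inl (commutatorElement_one_right u)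
  have c_u : ⁅u, u⁆ = 1 ∨ ⁅u, u⁆ = z := Or.inl (commutatorElement_self u)
  by_cases hu0 : f u = (1, 1)
  · have := same 1 Y.one_mem u hu (hf1.trans hu0.symm)
    rw [inv_one, one_mul] at this
    exact hsmall u hu this v hv
  rcases two a (Or.inl rfl) u hu with p | p <;> rcases two a' (Or.inr rfl) u hu with q | q <;>
    rcases two a (Or.inl rfl) v hv with r | r <;> rcases two a' (Or.inr rfl) v hv with s | s
  all_goals
    first
    | (refine absurd ?_ hu0; simp [f, p, q]; done)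
    | (refine e_ext 1 Y.one_mem c_one ?_; rw [hf1]; simp [f, r, s]; done)
    | (refine e_ext u hu c_u ?_; simp [f, p, q, r, s]; done)
    | (refine e_ext u₁ hu1Y (c0z u hu) ?_; rw [hfu]; simp [f, p, q, r, s, hzz]; done)
    | (refine e_ext (u * u₁) (Y.mul_mem hu hu1Y) c_uu ?_; rw [hfuu]; simp [f, p, q, r, s, hzz]; done)

end Cfsg.Agent.H84.CubicBlock
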