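import Mathlib
import Cfsg.Agent.H84.CubicBlock.TwoFour

set_option autoImplicit false

/-! Classification of `2`-groups `Y = [Y, b]` for a cubic `b`. -/

open Module
open scoped commutatorElement

namespace Cfsg.Agent.H84.CubicBlock

variable {S : Type*} [Group S] {E : Type*} [AddCommGroup E] [Module (ZMod 3) E] [Finite E]
  {ρ : Representation (ZMod 3) S E} {b : S} {Y : Subgroup S}

theorem fourPair_of_moved {N : Subgroup S} (hN : IsMulCommutative N) {a : S} (haN : a ∈ N)
    (hbN : b ∈ Subgroup.normalizer (N : Set S)) (h2 : a * a = 1) (hne : b * a * b⁻¹ ≠ a)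
    (hconj : b * (b * a * b⁻¹) * b⁻¹ = a * (b * a * b⁻¹)) :
    FourPair b a (b * a * b⁻¹) :=
  { sq := h2
    sq' := by rw [show b * a * b⁻¹ * (b * a * b⁻¹) = b * (a * a) * b⁻¹ by group, h2]; group
    comm := congrArg Subtype.val (hN.is_comm.comm ⟨a, haN⟩ ⟨_, conj_mem_norm hbN haN⟩)
    conj := rfl
    conj' := hconj
    ne := hne }

variable [Finite S]

theorem classify (h : TwoSetting ρ b Y) : IsFour ρ b Y ∨ ∃ z, Core ρ b Y z := by
  have hb3 := h.cubic.pow_three
  by_cases hZb : ∀ w ∈ Y, (∀ y ∈ Y, y * w = w * y) → b * w = w * b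
  swap
  · push Not at hZb
    obtain ⟨w, hw, hwc, hwb⟩ := hZb
    left
    set N := Y ⊓ Subgroup.centralizer (Y : Set S) with hNdef
    have hN : IsMulCommutative N := ⟨⟨fun x y => Subtype.ext
      (Subgroup.mem_centralizer_iff.mp (Subgroup.mem_inf.mp y.2).2 x (Subgroup.mem_inf.mp x.2).1)⟩⟩
    have hbN : b ∈ Subgroup.normalizer (N : Set S) :=
      H20.le_normalizer_inf (A := Subgroup.zpowers b) (Subgroup.zpowers_le.mpr h.norm)
        (H20.le_normalizer_centralizer (Subgroup.zpowers_le.mpr h.norm)) (Subgroup.mem_zpowers b)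
    obtain ⟨a, haN, h2, hne, hconj⟩ := exists_moved_involution hb3 hN (h.isTwo.to_le inf_le_left)
      hbN ⟨w, Subgroup.mem_inf.mpr ⟨hw, Subgroup.mem_centralizer_iff.mpr hwc⟩, hwb⟩
    have ha'N := conj_mem_norm hbN haN
    obtain ⟨haY, hac⟩ := Subgroup.mem_inf.mp haN
    obtain ⟨ha'Y, ha'c⟩ := Subgroup.mem_inf.mp ha'N
    exact four_of_central h (fourPair_of_moved hN haN hbN h2 hne hconj) haY ha'Y
      (Subgroup.mem_centralizer_iff.mp hac) (Subgroup.mem_centralizer_iff.mp ha'c)
  right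
  have cm : ∀ x ∈ Y, ∀ y ∈ Y, ⁅x, y⁆ ∈ Y := fun x hx y hy => by
    rw [commutatorElement_def]
    exact Y.mul_mem (Y.mul_mem (Y.mul_mem hx hy) (Y.inv_mem hx)) (Y.inv_mem hy)
  -- with a noncentral abelian normal subgroup we are in class two already
  by_cases hNC : ∃ N : Subgroup S, N ≤ Y ∧ IsMulCommutative N ∧ b ∈ Subgroup.normalizer (N : Set S) ∧
      (∀ y ∈ Y, ∀ n ∈ N, y * n * y⁻¹ ∈ N) ∧
      (∀ n ∈ N, ∀ x ∈ Y, ∀ y ∈ Y, y * ⁅n, x⁆ = ⁅n, x⁆ * y) ∧ ∃ n ∈ N, ∃ y ∈ Y, y * n ≠ n * y
  · obtain ⟨N, hNY, hN, hbN, hnorm, hc, n₀, hn₀, y₁, hy₁, hnc⟩ := hNC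
    have hmv : ∃ n ∈ N, b * n ≠ n * b := by
      by_contra hno
      push Not at hno
      apply hnc
      have hNb : ∀ x ∈ Subgroup.zpowers b, ∀ n ∈ N, x * n = n * x := by
        intro x hx n hn
        rw [← mem_powers_iff_mem_zpowers] at hx
        obtain ⟨k, rfl⟩ := hx
        exact ((show Commute b n from hno n hn).pow_left k).eq
      let K : Subgroup S := Subgroup.centralizer (N : Set S)
      have : Y ≤ K := by
        refine h.gen.ge.trans ?_
        rw [Subgroup.commutator_le]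
        intro y hy x hx
        rw [Subgroup.mem_centralizer_iff]
        intro n hn
        have hm : y⁻¹ * n * y ∈ N := by
          have := hnorm y⁻¹ (Y.inv_mem hy) n hn
          rwa [inv_inv] at this
        have e1 := hNb x hx _ hm
        have e2 := hNb x hx n hn
        calc n * ⁅y, x⁆ = y * ((y⁻¹ * n * y) * x) * y⁻¹ * x⁻¹ := by
              simp only [commutatorElement_def]; group
          _ = y * (x * (y⁻¹ * n * y)) * y⁻¹ * x⁻¹ := by rw [← e1]
          _ = y * x * y⁻¹ * (n * x⁻¹) := by group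
          _ = y * x * y⁻¹ * (x⁻¹ * n) := by
              rw [((show Commute x n from e2).inv_left).symm.eq]
          _ = ⁅y, x⁆ * n := by simp only [commutatorElement_def]; group
      exact (Subgroup.mem_centralizer_iff.mp (this hy₁) n₀ hn₀).symm
    obtain ⟨a, haN, h2, hne, hconj⟩ := exists_moved_involution hb3 hN (h.isTwo.to_le hNY) hbN hmv
    have ha'N := conj_mem_norm hbN haN
    obtain ⟨z, hz, hzz, hzY, huv⟩ := commutator_in_center h hZb
      (fourPair_of_moved hN haN hbN h2 hne hconj) (hNY haN) (hNY ha'N)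
      (by rintro g (rfl | rfl); exacts [hc _ haN, hc _ ha'N])
    refine core_of_class_two h hZb (fun x hx y hy w hw => ?_) (fun x hx y hy => ?_)
    · rcases huv x hx y hy with e | e <;> rw [e]
      · simp
      · exact hzY w hw
    · rcases huv x hx y hy with e | e <;> rw [e]
      · simp
      · exact hzz
  have central : ∀ N : Subgroup S, N ≤ Y → IsMulCommutative N → b ∈ Subgroup.normalizer (N : Set S) →
      (∀ y ∈ Y, ∀ n ∈ N, y * n * y⁻¹ ∈ N) →
      (∀ n ∈ N, ∀ x ∈ Y, ∀ y ∈ Y, y * ⁅n, x⁆ = ⁅n, x⁆ * y) → ∀ n ∈ N, ∀ y ∈ Y, y * n = n * y := by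
    intro N h1 h2 h3 h4 h5 n hn y hy
    by_contra h6
    exact hNC ⟨N, h1, h2, h3, h4, h5, n, hn, y, hy, h6⟩
  -- class at most two
  have hcl : ∀ x ∈ Y, ∀ y ∈ Y, ∀ w ∈ Y, w * ⁅x, y⁆ = ⁅x, y⁆ * w := by
    have : Group.IsNilpotent Y := h.isTwo.isNilpotent
    by_contra hno
    push Not at hno
    obtain ⟨x, hx, y, hy, w, hw, hne⟩ := hno
    -- the second centre inside the derived subgroup
    let K : Subgroup Y := commutator Y
    have hK : ¬ K ≤ Subgroup.center Y := by
      intro hle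
      apply hne
      have hm : ⁅(⟨x, hx⟩ : Y), ⟨y, hy⟩⁆ ∈ Subgroup.center Y :=
        hle (Subgroup.commutator_mem_commutator (Subgroup.mem_top _) (Subgroup.mem_top _))
      simpa [commutatorElement_def] using congrArg Subtype.val (Subgroup.mem_center_iff.mp hm ⟨w, hw⟩)
    let q := QuotientGroup.mk' (Subgroup.center Y)
    have hKq : K.map q ≠ ⊥ := by
      rw [Ne, Subgroup.map_eq_bot_iff, QuotientGroup.ker_mk']
      exact hK
    have hKn : (K.map q).Normal := (Subgroup.commutator_normal ⊤ ⊤).map q (QuotientGroup.mk'_surjective _)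
    have hmeet := H19.inf_center_ne_bot (K.map q) hKq
    obtain ⟨c, hc, hc1⟩ : ∃ c, c ∈ K.map q ⊓ Subgroup.center (Y ⧸ Subgroup.center Y) ∧ c ≠ 1 := by
      by_contra hnone
      push Not at hnone
      exact hmeet ((Subgroup.eq_bot_iff_forall _).mpr hnone)
    obtain ⟨⟨k, hkK, rfl⟩, hcZ⟩ := Subgroup.mem_inf.mp hc
    -- `N` = derived subgroup meet second centre
    let Z2 : Subgroup Y := (Subgroup.center (Y ⧸ Subgroup.center Y)).comap q
    have hZ2 : ∀ n ∈ Z2, ∀ g : Y, ⁅n, g⁆ ∈ Subgroup.center Y := by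
      intro n hn g
      rw [← QuotientGroup.eq_one_iff (N := Subgroup.center Y)]
      show q ⁅n, g⁆ = 1
      rw [map_commutatorElement, commutatorElement_eq_one_iff_mul_comm]
      exact (Subgroup.mem_center_iff.mp hn (q g)).symm
    have hcent : ∀ n ∈ Z2, ∀ k ∈ K, n * k = k * n := by
      intro n hn k hk
      let f : Y →* Subgroup.center Y :=
        { toFun := fun g => ⟨⁅n, g⁆, hZ2 n hn g⟩
          map_one' := by apply Subtype.ext; simp
          map_mul' := fun g g' => by
            apply Subtype.ext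
            show ⁅n, g * g'⁆ = ⁅n, g⁆ * ⁅n, g'⁆
            rw [show ⁅n, g * g'⁆ = ⁅n, g⁆ * (g * ⁅n, g'⁆ * g⁻¹) by simp only [commutatorElement_def]; group,
              Subgroup.mem_center_iff.mp (hZ2 n hn g') g, mul_inv_cancel_right] }
      have hker : K ≤ f.ker := by
        refine Subgroup.commutator_le.mpr fun g _ g' _ => ?_
        rw [MonoidHom.mem_ker, map_commutatorElement, commutatorElement_eq_one_iff_mul_comm]
        exact Subtype.ext (Subgroup.mem_center_iff.mp (f g').2 (f g : Y))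
      have := congrArg Subtype.val (MonoidHom.mem_ker.mp (hker hk))
      exact commutatorElement_eq_one_iff_mul_comm.mp this
    let N : Subgroup S := (K ⊓ Z2).map Y.subtype
    have hNY : N ≤ Y := Subgroup.map_subtype_le _
    have hNab : IsMulCommutative N := by
      refine ⟨⟨?_⟩⟩
      rintro ⟨_, u, hu, rfl⟩ ⟨_, v, hv, rfl⟩
      apply Subtype.ext
      exact congrArg Y.subtype (hcent u (Subgroup.mem_inf.mp hu).2 v (Subgroup.mem_inf.mp hv).1)
    let σ : Y ≃* Y :=
      { toFun := fun g => ⟨b * g * b⁻¹, conj_mem_norm h.norm g.2⟩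
        invFun := fun g => ⟨b⁻¹ * g * b, (Subgroup.mem_normalizer_iff''.mp h.norm g).mp g.2⟩
        left_inv := fun g => by apply Subtype.ext; simp [mul_assoc]
        right_inv := fun g => by apply Subtype.ext; simp [mul_assoc]
        map_mul' := fun g g' => by apply Subtype.ext; simp [mul_assoc] }
    have hZ2c : Z2.Characteristic := by
      refine Subgroup.characteristic_iff_le_comap.mpr fun φ g hg => ?_
      show q (φ g) ∈ Subgroup.center _
      rw [Subgroup.mem_center_iff]
      intro g'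
      obtain ⟨t, rfl⟩ := QuotientGroup.mk'_surjective _ g'
      obtain ⟨t, rfl⟩ := φ.surjective t
      symm
      rw [← commutatorElement_eq_one_iff_mul_comm, ← map_commutatorElement]
      show q _ = 1
      rw [show q ⁅φ g, φ t⁆ = ((⁅φ g, φ t⁆ : Y) : Y ⧸ Subgroup.center Y) from rfl, QuotientGroup.eq_one_iff]
      rw [show ⁅φ g, φ t⁆ = φ ⁅g, t⁆ from (map_commutatorElement φ g t).symm]
      rw [Subgroup.mem_center_iff]
      intro u
      obtain ⟨u, rfl⟩ := φ.surjective u
      rw [← map_mul, ← map_mul, Subgroup.mem_center_iff.mp (hZ2 g hg t) u]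
    have hKc : (K ⊓ Z2).Characteristic := by
      have : K.Characteristic := inferInstanceAs (commutator Y).Characteristic
      infer_instance
    have hbN : b ∈ Subgroup.normalizer (N : Set S) := by
      rw [Subgroup.mem_normalizer_iff_map_conj_eq]
      show ((K ⊓ Z2).map Y.subtype).map _ = _
      conv_rhs => rw [show N = ((K ⊓ Z2).map σ.toMonoidHom).map Y.subtype by
        rw [Subgroup.characteristic_iff_map_eq.mp hKc σ]]
      rw [Subgroup.map_map, Subgroup.map_map]
      congr 1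
    have := central N hNY hNab hbN
      (by
        rintro g hg _ ⟨u, hu, rfl⟩
        exact ⟨⟨g, hg⟩ * u * ⟨g, hg⟩⁻¹, (inferInstance : (K ⊓ Z2).Normal).conj_mem u hu ⟨g, hg⟩, rfl⟩)
      (by
        rintro _ ⟨u, hu, rfl⟩ g hg g' hg'
        exact congrArg Y.subtype (Subgroup.mem_center_iff.mp (hZ2 u (Subgroup.mem_inf.mp hu).2 ⟨g, hg⟩) ⟨g', hg'⟩))
    apply hc1
    apply (QuotientGroup.eq_one_iff k).mpr
    rw [Subgroup.mem_center_iff]
    intro g
    apply Subtype.ext
    exact this _ ⟨k, Subgroup.mem_inf.mpr ⟨hkK, show q k ∈ _ from hcZ⟩, rfl⟩ g g.2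
  -- commutators square to one
  have cpow : ∀ x ∈ Y, ∀ y ∈ Y, ∀ n : ℕ, ⁅x ^ n, y⁆ = ⁅x, y⁆ ^ n := by
    intro x hx y hy n
    induction n with
    | zero => simp
    | succ n ih =>
      rw [show ⁅x ^ (n + 1), y⁆ = x * ⁅x ^ n, y⁆ * x⁻¹ * ⁅x, y⁆ by
        rw [pow_succ']; simp only [commutatorElement_def]; group,
        hcl _ (Y.pow_mem hx n) _ hy x hx, mul_inv_cancel_right, ih, pow_succ]
  have hexp : ∀ x ∈ Y, ∀ y ∈ Y, ⁅x, y⁆ * ⁅x, y⁆ = 1 := by
    classical
    have hex : ∃ e, ∀ x ∈ Y, ∀ y ∈ Y, ⁅x, y⁆ ^ 2 ^ e = 1 := by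
      obtain ⟨e, he⟩ := h.isTwo.exists_card_eq
      refine ⟨e, fun x hx y hy => ?_⟩
      rw [← he]
      exact congrArg Subtype.val (pow_card_eq_one' (x := (⟨_, cm x hx y hy⟩ : Y)))
    set e := Nat.find hex with hedef
    have he := Nat.find_spec hex
    rw [← hedef] at he
    have he1 : e ≤ 1 := by
      by_contra hlt
      obtain ⟨j, hj⟩ : ∃ j, e = j + 1 + 1 := ⟨e - 2, by omega⟩
      set K := 2 ^ (j + 1) with hK
      apply Nat.find_min hex (show j + 1 < e by omega)
      intro x hx y hy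
      let N := Subgroup.closure {g : S | ∃ u ∈ Y, g = u ^ K}
      have hNY : N ≤ Y := (Subgroup.closure_le _).mpr (by rintro _ ⟨u, hu, rfl⟩; exact Y.pow_mem hu _)
      have hNab : IsMulCommutative N := by
        apply Subgroup.isMulCommutative_closure
        rintro _ ⟨u, hu, rfl⟩ _ ⟨v, hv, rfl⟩
        rw [← commutatorElement_eq_one_iff_mul_comm, cpow u hu _ (Y.pow_mem hv K),
          ← commutatorElement_inv, inv_pow, inv_eq_one, cpow v hv u hu, ← pow_mul]
        have hd : 2 ^ e ∣ K * K := by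
          rw [hK, hj, ← pow_add]; exact pow_dvd_pow 2 (by omega)
        obtain ⟨t, ht⟩ := hd
        rw [ht, pow_mul, he v hv u hu, one_pow]
      have hconj : ∀ g : S, g ∈ Subgroup.normalizer (Y : Set S) → ∀ n ∈ N, g * n * g⁻¹ ∈ N := by
        intro g hg n hn
        induction hn using Subgroup.closure_induction with
        | mem u hu =>
          obtain ⟨v, hv, rfl⟩ := hu
          exact Subgroup.subset_closure ⟨g * v * g⁻¹, conj_mem_norm hg hv, conj_pow.symm⟩
        | one => simp [N.one_mem]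
        | mul u v _ _ hu hv => rw [show g * (u * v) * g⁻¹ = (g * u * g⁻¹) * (g * v * g⁻¹) by group]; exact N.mul_mem hu hv
        | inv u _ hu => rw [show g * u⁻¹ * g⁻¹ = (g * u * g⁻¹)⁻¹ by group]; exact N.inv_mem hu
      have hbN : b ∈ Subgroup.normalizer (N : Set S) := by
        rw [Subgroup.mem_normalizer_iff]
        refine fun n => ⟨hconj b h.norm n, fun hn => ?_⟩
        have := hconj b⁻¹ (Subgroup.inv_mem _ h.norm) _ hn
        rwa [show b⁻¹ * (b * n * b⁻¹) * b⁻¹⁻¹ = n by group] at this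
      have := central N hNY hNab hbN (fun g hg n hn => hconj g (Subgroup.le_normalizer hg) n hn)
        (fun n hn u hu v hv => hcl n (hNY hn) u hu v hv)
      rw [← cpow x hx y hy, commutatorElement_eq_one_iff_mul_comm]
      exact (this _ (Subgroup.subset_closure ⟨x, hx, rfl⟩) y hy).symm
    intro x hx y hy
    have h2 := he x hx y hy
    rcases (show e = 0 ∨ e = 1 by omega) with e0 | e0
    · rw [e0, pow_zero, pow_one] at h2; rw [h2, one_mul]
    · rw [e0, pow_one, pow_two] at h2; exact h2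
  exact core_of_class_two h hZb hcl hexp

end Cfsg.Agent.H84.CubicBlock
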