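import Mathlib
import Cfsg.Prelude.Def_Solvable
import Cfsg.Agent.H19.Cores
import Cfsg.Agent.H19.Fitting
import Cfsg.Agent.H20.Sylow
import Cfsg.Agent.H51.PrimitivePair
import Cfsg.Agent.H84.CubicBlock.TwoClassify

set_option autoImplicit false

/-! Solvable groups with a cubic element `b` and a four group normalized but not centralized by it. -/

open Module
open scoped commutatorElement

namespace Cfsg.Agent.H84.CubicBlock

variable {S : Type*} [Group S] [Finite S] {E : Type*} [AddCommGroup E] [Module (ZMod 3) E] [Finite E]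
  {ρ : Representation (ZMod 3) S E} {b : S}

theorem le_normalizer_commutator' {K : Subgroup S} {x : S} (hx : x ∈ Subgroup.normalizer (K : Set S)) :
    K ≤ Subgroup.normalizer ((⁅K, Subgroup.zpowers x⁆ : Subgroup S) : Set S) := by
  intro k hk
  have key : ∀ k ∈ K, ∀ n ∈ ⁅K, Subgroup.zpowers x⁆, k * n * k⁻¹ ∈ ⁅K, Subgroup.zpowers x⁆ := by
    intro k hk n hn
    rw [Subgroup.commutator_def] at hn
    induction hn using Subgroup.closure_induction with
    | mem g hg =>
      obtain ⟨a, ha, y, hy, rfl⟩ := hg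
      rw [show k * ⁅a, y⁆ * k⁻¹ = ⁅k * a, y⁆ * ⁅k, y⁆⁻¹ by simp only [commutatorElement_def]; group]
      exact Subgroup.mul_mem _ (Subgroup.commutator_mem_commutator (K.mul_mem hk ha) hy)
        (Subgroup.inv_mem _ (Subgroup.commutator_mem_commutator hk hy))
    | one => simp [Subgroup.one_mem]
    | mul u v _ _ hu hv =>
      rw [show k * (u * v) * k⁻¹ = (k * u * k⁻¹) * (k * v * k⁻¹) by group]
      exact Subgroup.mul_mem _ hu hv
    | inv u _ hu =>
      rw [show k * u⁻¹ * k⁻¹ = (k * u * k⁻¹)⁻¹ by group]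
      exact Subgroup.inv_mem _ hu
  rw [Subgroup.mem_normalizer_iff]
  refine fun n => ⟨key k hk n, fun hn => ?_⟩
  have := key k⁻¹ (K.inv_mem hk) _ hn
  rwa [show k⁻¹ * (k * n * k⁻¹) * k⁻¹⁻¹ = n by group] at this

theorem coprime_zpowers {b : S} (hb3 : b ^ 3 = 1) {H : Subgroup S} (h3 : ¬ 3 ∣ Nat.card H) :
    (Nat.card (Subgroup.zpowers b)).Coprime (Nat.card H) := by
  refine Nat.Coprime.coprime_dvd_left ?_ ((Nat.Prime.coprime_iff_not_dvd Nat.prime_three).mpr h3)
  rw [Nat.card_zpowers]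
  exact orderOf_dvd_of_pow_eq_one hb3

theorem not_three_dvd_of_pGroup {r : ℕ} [hr : Fact r.Prime] (hr3 : r ≠ 3) {H : Subgroup S}
    (hH : IsPGroup r H) : ¬ 3 ∣ Nat.card H := by
  obtain ⟨k, hk⟩ := hH.exists_card_eq
  rw [hk]
  intro h
  exact hr3 ((Nat.prime_dvd_prime_iff_eq Nat.prime_three hr.out).mp (Nat.prime_three.dvd_of_dvd_pow h)).symm

theorem solvable_zpowers (b : S) : Group.IsSolvable (Subgroup.zpowers b) :=
  H20.isSolvable_of_isMulCommutative _

theorem commutator_twice {b : S} (hb3 : b ^ 3 = 1) {H : Subgroup S}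
    (hbH : b ∈ Subgroup.normalizer (H : Set S)) (h3 : ¬ 3 ∣ Nat.card H) :
    ⁅⁅H, Subgroup.zpowers b⁆, Subgroup.zpowers b⁆ = ⁅H, Subgroup.zpowers b⁆ :=
  H20.commutator_commutator_eq (Subgroup.zpowers_le.mpr hbH) (coprime_zpowers hb3 h3)
    (Or.inl (solvable_zpowers b))

theorem commutator_bot_iff {b : S} {H : Subgroup S} :
    ⁅H, Subgroup.zpowers b⁆ = ⊥ ↔ ∀ h ∈ H, b * h = h * b := by
  rw [Subgroup.commutator_eq_bot_iff_le_centralizer]
  constructor
  · intro h x hx
    exact Subgroup.mem_centralizer_iff.mp (h hx) b (Subgroup.mem_zpowers b)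
  · intro h x hx
    rw [Subgroup.mem_centralizer_iff]
    intro y hy
    rw [SetLike.mem_coe, ← mem_powers_iff_mem_zpowers] at hy
    obtain ⟨k, rfl⟩ := hy
    exact ((show Commute b x from h x hx).pow_left k).eq

/-- A four group normalized and not centralized by `b`. -/
theorem four_group_pair {Q : Subgroup S} (hb3 : b ^ 3 = 1) (hQ : Cfsg.IsElementaryAbelian 2 Q)
    (hQ4 : Nat.card Q = 4) (hbQ : b ∈ Subgroup.normalizer (Q : Set S))
    (hbQ' : ∃ q ∈ Q, b * q ≠ q * b) :
    ∃ a ∈ Q, FourPair b a (b * a * b⁻¹) ∧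
      (∀ g ∈ Q, g = 1 ∨ g = a ∨ g = b * a * b⁻¹ ∨ g = a * (b * a * b⁻¹)) ∧
      ∀ g ∈ Q, ∃ h ∈ Q, g = ⁅h, b⁆ := by
  classical
  have hQ2 : IsPGroup 2 Q := fun g => ⟨1, Subtype.ext (by simpa using hQ.2 g g.2)⟩
  obtain ⟨a, ha, h2, hne, hconj⟩ := exists_moved_involution hb3 hQ.1 hQ2 hbQ hbQ'
  have hp : FourPair b a (b * a * b⁻¹) := fourPair_of_moved hQ.1 ha hbQ h2 hne hconj
  set a' := b * a * b⁻¹ with ha'
  have ha'Q : a' ∈ Q := conj_mem_norm hbQ ha
  have a1 : a ≠ 1 := fun e => hne (by simp [ha', e])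
  have a'1 : a' ≠ 1 := fun e => a1 (by
    have : a = b⁻¹ * a' * b := by rw [ha']; group
    rw [this, e]; group)
  have aa1 : a * a' ≠ 1 := fun e => hne ((eq_inv_of_mul_eq_one_right e).trans (inv_eq_of_mul_eq_one_right h2))
  have hall : ∀ g ∈ Q, g = 1 ∨ g = a ∨ g = a' ∨ g = a * a' := by
    have hcard : ({1, a, a', a * a'} : Finset S).card = 4 := by
      rw [Finset.card_insert_of_notMem, Finset.card_insert_of_notMem, Finset.card_insert_of_notMem,
        Finset.card_singleton]
      · simp only [Finset.mem_singleton]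
        intro e; exact a1 (mul_right_cancel (b := a') (by rw [← e, one_mul]))
      · simp only [Finset.mem_insert, Finset.mem_singleton, not_or]
        exact ⟨Ne.symm hne, fun e => a'1 (mul_left_cancel (a := a) (by rw [← e, mul_one]))⟩
      · simp only [Finset.mem_insert, Finset.mem_singleton, not_or]
        exact ⟨Ne.symm a1, Ne.symm a'1, Ne.symm aa1⟩
    have hsub : (({1, a, a', a * a'} : Finset S) : Set S) ⊆ (Q : Set S) := by
      intro g hg
      simp only [Finset.coe_insert, Finset.coe_singleton, Set.mem_insert_iff, Set.mem_singleton_iff] at hg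
      rcases hg with rfl | rfl | rfl | rfl
      exacts [Q.one_mem, ha, ha'Q, Q.mul_mem ha ha'Q]
    have heq := Set.eq_of_subset_of_ncard_le hsub (by
      rw [Set.ncard_coe_finset, hcard, ← Nat.card_coe_set_eq, SetLike.coe_sort_coe, hQ4]) (Set.toFinite _)
    intro g hg
    have : g ∈ (({1, a, a', a * a'} : Finset S) : Set S) := heq.symm ▸ hg
    simpa using this
  refine ⟨a, ha, hp, hall, fun g hg => ?_⟩
  have e1 : b * (a * a') * b⁻¹ = a := by
    rw [show b * (a * a') * b⁻¹ = (b * a * b⁻¹) * (b * a' * b⁻¹) by group, ← ha', hp.conj',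
      ← mul_assoc, ← hp.comm, mul_assoc, hp.sq', mul_one]
  have hc : ∀ h : S, h * h = 1 → ⁅h, b⁆ = h * (b * h * b⁻¹) := by
    intro h hh
    rw [commutatorElement_def, inv_eq_of_mul_eq_one_right hh]; group
  have haa2 : (a * a') * (a * a') = 1 := by
    rw [mul_assoc, ← mul_assoc a' a a', ← hp.comm, mul_assoc a a' a', hp.sq', mul_one, hp.sq]
  rcases hall g hg with rfl | rfl | rfl | rfl
  · exact ⟨1, Q.one_mem, by simp⟩
  · refine ⟨a', ha'Q, ?_⟩
    rw [hc a' hp.sq', hp.conj', ← mul_assoc, ← hp.comm, mul_assoc, hp.sq', mul_one]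
  · refine ⟨a * a', Q.mul_mem ha ha'Q, ?_⟩
    rw [hc _ haa2, e1, hp.comm, mul_assoc, hp.sq, mul_one]
  · exact ⟨a, ha, by rw [hc a h2]⟩

theorem four_centralizes {Q N : Subgroup S} [N.Normal] (hgen : ∀ g ∈ Q, ∃ h ∈ Q, g = ⁅h, b⁆)
    (hb : ∀ n ∈ N, b * n = n * b) {q : S} (hq : q ∈ Q) {n : S} (hn : n ∈ N) : q * n = n * q := by
  obtain ⟨h, hh, rfl⟩ := hgen q hq
  exact (Subgroup.mem_centralizer_iff.mp
    (comm_commute_of_centralizes hb Q (Subgroup.commutator_mem_commutator hh (Subgroup.mem_zpowers b))) n hn).symm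

/-- If `b` moves an odd core then it centralizes the 2-core. -/
theorem two_core_centralized (hc : IsCubic ρ b) {r : ℕ} [hr : Fact r.Prime] (hr2 : r ≠ 2)
    (hr3 : r ≠ 3) (hne : ⁅Cfsg.pCore r S, Subgroup.zpowers b⁆ ≠ ⊥) :
    ∀ h ∈ Cfsg.pCore 2 S, b * h = h * b := by
  classical
  have hb3 := hc.pow_three
  set W := Cfsg.pCore r S with hWdef
  have hWn : W.Normal := H19.pCore_normal r S
  have hbW : b ∈ Subgroup.normalizer (W : Set S) := by rw [Subgroup.normalizer_eq_top]; trivial
  obtain ⟨rfl, hY, hYfix⟩ := card_commutator_odd hc hr2 hr3 (H19.pCore_isPGroup r) hbW hne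
  set Y := ⁅W, Subgroup.zpowers b⁆ with hYdef
  have hYW : Y ≤ W := H20.commutator_le_of_le_normalizer (Subgroup.zpowers_le.mpr hbW)
  have hbY : b ∈ Subgroup.normalizer (Y : Set S) := mem_normalizer_commutator hbW
  obtain ⟨y, hy, hy1, hyrk⟩ : ∃ y ∈ Y, y ≠ 1 ∧ rk ρ y ≤ 4 := by
    obtain ⟨w, hw, hwb⟩ : ∃ w ∈ W, b * w ≠ w * b := by
      by_contra h
      push Not at h
      exact hne (commutator_bot_iff.mpr h)
    refine ⟨⁅w, b⁆, Subgroup.commutator_mem_commutator hw (Subgroup.mem_zpowers b),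
      fun e => hwb (commutatorElement_eq_one_iff_mul_comm.mp e).symm, ?_⟩
    have := hc.rank_le
    exact (rk_comm_le ρ w b).trans (by omega)
  have hy13 : y ^ 13 = 1 := by
    have := pow_card_eq_one' (x := (⟨y, hy⟩ : Y))
    rw [hY] at this
    exact congrArg Subtype.val this
  have hoy : orderOf y = 13 := orderOf_eq_prime hy13 hy1
  have hzY : Subgroup.zpowers y = Y := Subgroup.eq_of_le_of_card_ge (Subgroup.zpowers_le.mpr hy)
    (by rw [Nat.card_zpowers, hoy, hY])
  have h3y : ¬ 3 ∣ Nat.card (Subgroup.zpowers y) := by rw [Nat.card_zpowers, hoy]; norm_num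
  have hcompl := isCompl_fix_move (ρ := ρ) h3y
  set C := fixSub ρ (Subgroup.zpowers y) with hC
  set M := moveSub ρ (Subgroup.zpowers y) with hM
  have hMle : finrank (ZMod 3) M ≤ 4 := by
    refine le_trans (Submodule.finrank_mono ?_) hyrk
    refine iSup_le fun g => ?_
    rintro _ ⟨v, rfl⟩
    exact zpowers_moves (ρ := ρ) _ g.2 v
  have hyM : ∀ v ∈ M, ρ y v ∈ M := fun v hv => mem_moveSub_apply ρ (Subgroup.mem_zpowers y) hv
  have fix0 : ∀ v ∈ M, ρ y v = v → v = 0 := by
    intro v hv hfix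
    refine Submodule.disjoint_def.mp hcompl.disjoint v ?_ hv
    rw [hC, mem_fixSub]
    intro g hg
    rw [← mem_powers_iff_mem_zpowers] at hg
    obtain ⟨k, rfl⟩ := hg
    show ρ (y ^ k) v = v
    induction k with
    | zero => simp
    | succ k ih => rw [pow_succ, mul_apply, hfix, ih]
  have hd3 : finrank (ZMod 3) M = 3 := by
    have hMne : finrank (ZMod 3) M ≠ 0 := by
      intro h0
      rw [Submodule.finrank_eq_zero] at h0
      apply hy1
      apply hc.inj
      ext v
      have := disp_mem_moveSub ρ (Subgroup.mem_zpowers y) v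
      rw [← hM, h0, Submodule.mem_bot, sub_eq_zero] at this
      rw [this, map_one]; rfl
    let f : Function.End M := fun v => ⟨ρ y v, hyM v v.2⟩
    have hf : f ^ 13 ^ 1 = 1 := by
      have hpow : ∀ n : ℕ, ∀ v : M, ((f ^ n) v : E) = ρ (y ^ n) v := by
        intro n
        induction n with
        | zero => intro v; rw [pow_zero, pow_zero, map_one]; rfl
        | succ n ih => intro v; rw [pow_succ, pow_succ, mul_apply]; exact ih (f v)
      funext v
      apply Subtype.ext
      rw [hpow, pow_one, hy13, map_one]; rfl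
    have : Fintype M := Fintype.ofFinite M
    haveI : Fact (Nat.Prime 13) := ⟨by norm_num⟩
    have hmod := Equiv.Perm.card_fixedPoints_modEq (p := 13) (n := 1) hf
    have hone : Fintype.card f.fixedPoints = 1 := by
      rw [Fintype.card_eq_one_iff]
      refine ⟨⟨0, Subtype.ext (map_zero (ρ y))⟩, ?_⟩
      rintro ⟨v, hv⟩
      exact Subtype.ext (Subtype.ext (fix0 v v.2 (congrArg Subtype.val hv)))
    replace hmod : Nat.card M ≡ 1 [MOD 13] := by
      rw [Nat.card_eq_fintype_card]
      convert hmod using 1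
      convert hone.symm using 2
    rw [Module.natCard_eq_pow_finrank (K := ZMod 3), Nat.card_zmod, Nat.ModEq] at hmod
    generalize finrank (ZMod 3) M = d at hMle hMne hmod
    interval_cases d <;> omega
  -- `b` is trivial on the fixed space of `y`
  have hby : b ∈ Subgroup.normalizer (Subgroup.zpowers y : Set S) := by rw [hzY]; exact hbY
  have bC : ∀ v ∈ C, ρ b v = v := by
    rcases hc.split hcompl (fun v hv => fixSub_conj ρ hby hv) (fun v hv => moveSub_conj ρ hby hv) with h | h
    · exact h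
    · exfalso
      apply hy1
      apply hYfix y hy
      apply hc.inj
      ext v
      obtain ⟨u, hu, m, hm, rfl⟩ := Submodule.mem_sup.mp
        (hcompl.sup_eq_top ▸ (Submodule.mem_top : v ∈ (⊤ : Submodule (ZMod 3) E)))
      have yu : ρ y u = u := (mem_fixSub ρ).mp hu y (Subgroup.mem_zpowers y)
      have ybu : ρ y (ρ b u) = ρ b u := (mem_fixSub ρ).mp (fixSub_conj ρ hby hu) y (Subgroup.mem_zpowers y)
      simp only [mul_apply, map_add, h m hm, h _ (hyM m hm), yu, ybu]
  intro t₀ ht₀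
  by_contra hne2
  set W2 := Cfsg.pCore 2 S with hW2def
  have hW2n : W2.Normal := H19.pCore_normal 2 S
  have hbW2 : b ∈ Subgroup.normalizer (W2 : Set S) := by rw [Subgroup.normalizer_eq_top]; trivial
  haveI : Fact (Nat.Prime 2) := ⟨Nat.prime_two⟩
  have h32 : ¬ 3 ∣ Nat.card W2 := not_three_dvd_of_pGroup (by norm_num) (H19.pCore_isPGroup 2)
  set Y2 := ⁅W2, Subgroup.zpowers b⁆ with hY2def
  have hY2W : Y2 ≤ W2 := H20.commutator_le_of_le_normalizer (Subgroup.zpowers_le.mpr hbW2)
  have hcomm : ∀ t ∈ Y2, t * y = y * t := by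
    intro t ht
    have hdis : W2 ⊓ W = ⊥ := H19.inf_eq_bot_of_isPGroup_coprime (p := 2) (H19.pCore_isPGroup 2) (by
      obtain ⟨k, hk⟩ := (H19.pCore_isPGroup (G := S) 13).exists_card_eq
      rw [hWdef, hk]
      exact Nat.Coprime.pow_left k (by norm_num))
    exact (Subgroup.commute_of_normal_of_disjoint W2 W hW2n hWn (disjoint_iff.mpr hdis) t y (hY2W ht) (hYW hy)).eq
  have hnorm : ∀ t ∈ Y2, t ∈ Subgroup.normalizer (Subgroup.zpowers y : Set S) := by
    intro t ht
    rw [Subgroup.mem_normalizer_iff_map_conj_eq, MonoidHom.map_zpowers]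
    congr 1
    show t * y * t⁻¹ = y
    rw [hcomm t ht, mul_inv_cancel_right]
  have tC1 : ∀ t ∈ Y2, ∀ v ∈ C, ρ t v = v := fun t ht v hv =>
    fixed_of_commutator_eq (commutator_twice hb3 hbW2 h32)
      (fun t ht v hv => fixSub_conj ρ (hnorm t ht) hv) bC ht hv
  have tM : ∀ t ∈ Y2, ∀ v ∈ M, ρ t v ∈ M := fun t ht v hv => moveSub_conj ρ (hnorm t ht) hv
  have hy14 : ∀ v : E, ρ ((y * y) ^ 7) v = ρ y v := by
    intro v
    rw [← pow_two, ← pow_mul, show 2 * 7 = 13 + 1 from rfl, pow_succ, hy13, one_mul]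
  have small : ∀ L : Submodule (ZMod 3) E, L ≤ M → (∀ v ∈ L, ρ y v ∈ L) →
      finrank (ZMod 3) L ≤ 1 → L = ⊥ := by
    intro L hL hyL hd
    rcases Nat.eq_zero_or_pos (finrank (ZMod 3) L) with h0 | hp
    · exact Submodule.finrank_eq_zero.mp h0
    rw [eq_bot_iff]
    intro v hv
    rw [Submodule.mem_bot]
    apply fix0 v (hL hv)
    rcases line_sign (ρ := ρ) (g := y) (L := L) (by omega) hyL with h | h
    · exact h v hv
    · rw [← hy14]
      have h2 : ρ (y * y) v = v := by rw [mul_apply, h v hv, map_neg, h v hv, neg_neg]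
      generalize 7 = k
      induction k with
      | zero => simp
      | succ k ih => rw [pow_succ, mul_apply, h2, ih]
  have sign : ∀ k : ℕ, ∀ t ∈ Y2, t ^ 2 ^ k = 1 →
      (∀ v ∈ M, ρ t v = v) ∨ ∀ v ∈ M, ρ t v = -v := by
    intro k
    induction k with
    | zero =>
      intro t _ h
      rw [pow_zero, pow_one] at h
      left; intro v _; rw [h, map_one]; rfl
    | succ k ih =>
      intro t ht h
      rw [pow_succ', pow_mul, pow_two] at h
      rcases ih (t * t) (Y2.mul_mem ht ht) h with hp | hm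
      · -- both eigenspaces are invariant under `y`
        let Mp : Submodule (ZMod 3) E := LinearMap.ker (disp ρ t) ⊓ M
        let Mm : Submodule (ZMod 3) E := LinearMap.ker (ρ t + LinearMap.id) ⊓ M
        have tt : ∀ v ∈ M, ρ t (ρ t v) = v := fun v hv => by rw [← mul_apply]; exact hp v hv
        have hsup : Mp ⊔ Mm = M := by
          refine le_antisymm (sup_le inf_le_right inf_le_right) fun v hv => ?_
          have hv3 : (3 : ℕ) • v = 0 := ZModModule.char_nsmul_eq_zero 3 _
          refine Submodule.mem_sup.mpr ⟨-(v + ρ t v), ⟨?_, ?_⟩, -(v - ρ t v), ⟨?_, ?_⟩, ?_⟩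
          · rw [SetLike.mem_coe, mem_ker_disp, map_neg, map_add, tt v hv]; abel
          · exact M.neg_mem (M.add_mem hv (tM t ht v hv))
          · rw [SetLike.mem_coe, mem_ker_add, map_neg, map_sub, tt v hv]; abel
          · exact M.neg_mem (M.sub_mem hv (tM t ht v hv))
          · calc -(v + ρ t v) + -(v - ρ t v) = v - (3 : ℕ) • v := by abel
              _ = v := by rw [hv3, sub_zero]
        have hinf : Mp ⊓ Mm = ⊥ := by
          rw [eq_bot_iff]
          rintro v ⟨⟨h1, -⟩, ⟨h2, -⟩⟩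
          exact eq_zero_of_neg_eq ((mem_ker_add.mp h2).symm.trans (mem_ker_disp.mp h1))
        have hsum := Submodule.finrank_sup_add_finrank_inf_eq Mp Mm
        rw [hsup, hinf, finrank_bot, hd3] at hsum
        have hyt : y * t = t * y := (hcomm t ht).symm
        rcases (show finrank (ZMod 3) Mp ≤ 1 ∨ finrank (ZMod 3) Mm ≤ 1 by omega) with hl | hl
        · right
          have := small Mp inf_le_right (fun v hv =>
            ⟨mem_ker_disp.mpr ((eigen_invariant hyt).1 v (mem_ker_disp.mp hv.1)), hyM v hv.2⟩) hl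
          intro v hv
          rw [← hsup, this, bot_sup_eq] at hv
          exact mem_ker_add.mp hv.1
        · left
          have := small Mm inf_le_right (fun v hv =>
            ⟨mem_ker_add.mpr ((eigen_invariant hyt).2 v (mem_ker_add.mp hv.1)), hyM v hv.2⟩) hl
          intro v hv
          rw [← hsup, this, sup_bot_eq] at hv
          exact mem_ker_disp.mp hv.1
      · exfalso
        let T : M →ₗ[ZMod 3] M := (ρ t).restrict (tM t ht)
        have hT : T * T = (-1 : ZMod 3) • (1 : M →ₗ[ZMod 3] M) := by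
          ext v
          show ρ t (ρ t (v : E)) = (((-1 : ZMod 3) • v : M) : E)
          rw [← mul_apply, hm v v.2]
          simp
        have := congrArg LinearMap.det hT
        rw [map_mul, LinearMap.det_smul, map_one, mul_one, hd3] at this
        revert this
        generalize LinearMap.det T = c
        revert c
        decide
  have hY20 : Y2 = ⊥ := by
    refine (commutator_twice hb3 hbW2 h32).symm.trans (commutator_bot_iff.mpr ?_)
    intro t ht
    obtain ⟨k, hk⟩ := (H19.pCore_isPGroup (G := S) 2) ⟨t, hY2W ht⟩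
    have hk' : t ^ 2 ^ k = 1 := congrArg Subtype.val hk
    apply hc.inj
    ext v
    obtain ⟨u, hu, m, hm, rfl⟩ := Submodule.mem_sup.mp
      (hcompl.sup_eq_top ▸ (Submodule.mem_top : v ∈ (⊤ : Submodule (ZMod 3) E)))
    have hbm : ρ b m ∈ M := moveSub_conj ρ hby hm
    simp only [mul_apply, map_add, bC u hu, tC1 t ht u hu]
    rcases sign k t ht hk' with h | h
    · rw [h m hm, h _ hbm]
    · rw [h m hm, h _ hbm, map_neg]
  exact hne2 (commutator_bot_iff.mp hY20 t₀ ht₀)

end Cfsg.Agent.H84.CubicBlock
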