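import Mathlib
import Cfsg.Agent.H84.CubicBlock.Solvable

set_option autoImplicit false

/-! The odd cores are centralized by the cubic element. -/

open Module
open scoped commutatorElement

namespace Cfsg.Agent.H84.CubicBlock

variable {S : Type*} [Group S] [Finite S] {E : Type*} [AddCommGroup E] [Module (ZMod 3) E] [Finite E]
  {ρ : Representation (ZMod 3) S E} {b : S}

theorem mem_pPrimeCore_centralizing_cores [Group.IsSolvable S] (hO3 : Cfsg.pCore 3 S = ⊥) {x : S}
    (hx : ∀ r : ℕ, r.Prime → r ≠ 3 → ∀ n ∈ Cfsg.pCore r S, n * x = x * n) :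
    x ∈ Cfsg.fittingSubgroup S := by
  apply H19.centralizer_fitting_le
  have h1 : Cfsg.fittingSubgroup S ≤ Subgroup.centralizer ({x} : Set S) := by
    rw [H19.fitting_eq_iSup_pCore]
    refine iSup_le fun p => ?_
    intro n hn
    rw [Subgroup.mem_centralizer_singleton_iff]
    by_cases h3 : (p : ℕ) = 3
    · rw [h3, hO3, Subgroup.mem_bot] at hn
      simp [hn]
    · exact hx p p.2 h3 n hn
  rw [Subgroup.mem_centralizer_iff]
  exact fun n hn => Subgroup.mem_centralizer_singleton_iff.mp (h1 hn)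

theorem fitting_le_pPrimeCore (hO3 : Cfsg.pCore 3 S = ⊥) :
    Cfsg.fittingSubgroup S ≤ Cfsg.pPrimeCore 3 S := by
  rw [H19.fitting_eq_iSup_pCore]
  refine iSup_le fun p => ?_
  by_cases h3 : (p : ℕ) = 3
  · rw [h3, hO3]; exact bot_le
  · haveI : Fact (p : ℕ).Prime := ⟨p.2⟩
    refine H19.le_pPrimeCore (H19.pCore_normal _ S) ?_
    obtain ⟨k, hk⟩ := (H19.pCore_isPGroup (G := S) (p : ℕ)).exists_card_eq
    rw [hk]
    exact Nat.Coprime.pow_left k ((Nat.coprime_primes p.2 Nat.prime_three).mpr h3)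

theorem mem_pCore_two_of_fitting {x : S} (hx : x ∈ Cfsg.fittingSubgroup S) {k : ℕ} (hk : x ^ 2 ^ k = 1) :
    x ∈ Cfsg.pCore 2 S := by
  haveI : Fact (Nat.Prime 2) := ⟨Nat.prime_two⟩
  have hP : IsPGroup 2 (Subgroup.zpowers x) := by
    obtain ⟨j, hj⟩ : ∃ j, Nat.card (Subgroup.zpowers x) = 2 ^ j := by
      obtain ⟨j, -, hj⟩ := (Nat.dvd_prime_pow Nat.prime_two).mp (orderOf_dvd_of_pow_eq_one hk)
      exact ⟨j, by rw [Nat.card_zpowers, hj]⟩
    exact IsPGroup.of_card hj
  exact H51.pgroup_le_pCore_of_le_fitting hP (Subgroup.zpowers_le.mpr hx) (Subgroup.mem_zpowers x)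

/-- An `r`-core (`r ≥ 5`) moved by `b` is centralized by the four group, which is impossible. -/
theorem four_centralizes_moved_core (hc : IsCubic ρ b) {r : ℕ} [hr : Fact r.Prime] (hr2 : r ≠ 2)
    (hr3 : r ≠ 3) (hne : ⁅Cfsg.pCore r S, Subgroup.zpowers b⁆ ≠ ⊥) {Q : Subgroup S} {a : S}
    (hQ : Cfsg.IsElementaryAbelian 2 Q) (hp : FourPair b a (b * a * b⁻¹)) (ha : a ∈ Q)
    (hbQ : b ∈ Subgroup.normalizer (Q : Set S))
    (hgen : ∀ g ∈ Q, ∃ h ∈ Q, g = ⁅h, b⁆)
    (hall : ∀ g ∈ Q, g = 1 ∨ g = a ∨ g = b * a * b⁻¹ ∨ g = a * (b * a * b⁻¹)) :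
    ∀ q ∈ Q, ∀ w ∈ Cfsg.pCore r S, q * w = w * q := by
  set W := Cfsg.pCore r S with hW
  have hWn : W.Normal := H19.pCore_normal r S
  have hWp : IsPGroup r W := H19.pCore_isPGroup r
  have hnormW : ∀ g : S, g ∈ Subgroup.normalizer (W : Set S) := fun g => by
    rw [Subgroup.normalizer_eq_top]; trivial
  obtain ⟨hr13, hY, -⟩ := card_commutator_odd hc hr2 hr3 hWp (hnormW b) hne
  set Y := ⁅W, Subgroup.zpowers b⁆ with hYdef
  have hYW : Y ≤ W := H20.commutator_le_of_le_normalizer (Subgroup.zpowers_le.mpr (hnormW b))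
  set a' := b * a * b⁻¹ with ha'
  have ha'Q : a' ∈ Q := conj_mem_norm hbQ ha
  obtain ⟨h, hh, hah⟩ := hgen a ha
  set x := h * b * h⁻¹ with hx
  set Yx := ⁅W, Subgroup.zpowers x⁆ with hYxdef
  have hYxW : Yx ≤ W := H20.commutator_le_of_le_normalizer (Subgroup.zpowers_le.mpr (hnormW x))
  have hYx : Nat.card Yx = 13 := by
    have : Yx = Y.map (MulAut.conj h).toMonoidHom := by
      rw [hYdef, Subgroup.map_commutator, MonoidHom.map_zpowers,
        show W.map (MulAut.conj h).toMonoidHom = W from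
          Subgroup.mem_normalizer_iff_map_conj_eq.mp (hnormW h)]
      rfl
    rw [this, Subgroup.card_map_of_injective (MulEquiv.injective (MulAut.conj h)), hY]
  set M := Y ⊔ Yx with hM
  have hMW : M ≤ W := sup_le hYW hYxW
  have hYn : W ≤ Subgroup.normalizer (Y : Set S) := le_normalizer_commutator' (hnormW b)
  have hYxn : W ≤ Subgroup.normalizer (Yx : Set S) := le_normalizer_commutator' (hnormW x)
  have hcYYx : ∀ u ∈ Y, ∀ v ∈ Yx, u * v = v * u := by
    intro u hu v hv
    have hd : ⁅u, v⁆ ∈ Y ⊓ Yx := by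
      refine ⟨?_, ?_⟩
      · rw [show ⁅u, v⁆ = u * (v * u⁻¹ * v⁻¹) by simp only [commutatorElement_def]; group]
        exact Y.mul_mem hu (conj_mem_norm (hYn (hYxW hv)) (Y.inv_mem hu))
      · rw [show ⁅u, v⁆ = (u * v * u⁻¹) * v⁻¹ by simp only [commutatorElement_def]]
        exact Yx.mul_mem (conj_mem_norm (hYxn (hYW hu)) hv) (Yx.inv_mem hv)
    by_cases heq : Y ⊓ Yx = ⊥
    · rw [heq, Subgroup.mem_bot] at hd
      exact commutatorElement_eq_one_iff_mul_comm.mp hd
    · have hle : Yx ≤ Y := by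
        have hcard : Nat.card (Y ⊓ Yx : Subgroup S) = 13 := by
          rcases (Nat.dvd_prime (by norm_num)).mp (hYx ▸ Subgroup.card_dvd_of_le inf_le_right :
            Nat.card (Y ⊓ Yx : Subgroup S) ∣ 13) with h1 | h1
          · exact absurd (Subgroup.card_eq_one.mp h1) heq
          · exact h1
        exact (Subgroup.eq_of_le_of_card_ge (inf_le_right : Y ⊓ Yx ≤ Yx) (by rw [hcard, hYx])).ge.trans inf_le_left
      haveI : Fact (Nat.Prime 13) := ⟨by norm_num⟩
      have : IsCyclic Y := isCyclic_of_prime_card (p := 13) hY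
      exact congrArg Subtype.val (IsMulCommutative.is_comm.comm (⟨u, hu⟩ : Y) ⟨v, hle hv⟩)
  haveI : Fact (Nat.Prime 13) := ⟨by norm_num⟩
  have cY : ∀ (H : Subgroup S), Nat.card H = 13 → ∀ u ∈ H, ∀ v ∈ H, u * v = v * u := by
    intro H hH u hu v hv
    have : IsCyclic H := isCyclic_of_prime_card (p := 13) hH
    exact congrArg Subtype.val (IsMulCommutative.is_comm.comm (⟨u, hu⟩ : H) ⟨v, hv⟩)
  have hMab : IsMulCommutative M := by
    have : M = Subgroup.closure ((Y : Set S) ∪ (Yx : Set S)) := by rw [hM, Subgroup.sup_eq_closure]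
    rw [this]
    apply Subgroup.isMulCommutative_closure
    rintro u (hu | hu) v (hv | hv)
    exacts [cY Y hY u hu v hv, hcYYx u hu v hv, (hcYYx v hv u hu).symm, cY Yx hYx u hu v hv]
  have cM : ∀ u ∈ M, ∀ v ∈ M, u * v = v * u := fun u hu v hv =>
    congrArg Subtype.val (hMab.is_comm.comm ⟨u, hu⟩ ⟨v, hv⟩)
  -- `M` is invariant
  have hconj : ∀ g : S, (∀ w ∈ W, ⁅w, g⁆ ∈ M) → g ∈ Subgroup.normalizer (M : Set S) := by
    intro g hg
    have key : ∀ m ∈ M, g * m * g⁻¹ ∈ M := by
      intro m hm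
      rw [show g * m * g⁻¹ = (⁅m, g⁆)⁻¹ * m by simp only [commutatorElement_def]; group]
      exact M.mul_mem (M.inv_mem (hg m (hMW hm))) hm
    rw [Subgroup.mem_normalizer_iff_map_conj_eq]
    refine Subgroup.eq_of_le_of_card_ge (by rintro _ ⟨m, hm, rfl⟩; exact key m hm) ?_
    rw [Subgroup.card_map_of_injective (MulEquiv.injective (MulAut.conj g))]
  have hb : ∀ w ∈ W, ⁅w, b⁆ ∈ M := fun w hw => Subgroup.mem_sup_left
    (Subgroup.commutator_mem_commutator hw (Subgroup.mem_zpowers b))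
  have hxM : ∀ w ∈ W, ⁅w, x⁆ ∈ M := fun w hw => Subgroup.mem_sup_right
    (Subgroup.commutator_mem_commutator hw (Subgroup.mem_zpowers x))
  have hbN := hconj b hb
  have hxN := hconj x hxM
  have haxb : a = x * b⁻¹ := by rw [hah, hx, commutatorElement_def]
  have haW : ∀ w ∈ W, ⁅w, a⁆ ∈ M := by
    intro w hw
    rw [haxb, show ⁅w, x * b⁻¹⁆ = ⁅w, x⁆ * (x * ⁅w, b⁻¹⁆ * x⁻¹) by simp only [commutatorElement_def]; group]
    exact M.mul_mem (hxM w hw) (conj_mem_norm hxN (Subgroup.mem_sup_left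
      (Subgroup.commutator_mem_commutator hw (Subgroup.inv_mem _ (Subgroup.mem_zpowers b)))))
  have haN := hconj a haW
  have ha'N : a' ∈ Subgroup.normalizer (M : Set S) := by
    rw [ha']; exact Subgroup.mul_mem _ (Subgroup.mul_mem _ hbN haN) (Subgroup.inv_mem _ hbN)
  have haaN := Subgroup.mul_mem _ haN ha'N
  have hcop2 : ∀ m ∈ M, m * m = 1 → m = 1 := by
    intro m hm h2
    obtain ⟨k, hk⟩ := (hWp ⟨m, hMW hm⟩)
    have hk' : m ^ r ^ k = 1 := congrArg Subtype.val hk
    have hd := Nat.dvd_gcd (orderOf_dvd_of_pow_eq_one (show m ^ 2 = 1 by rw [pow_two]; exact h2))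
      (orderOf_dvd_of_pow_eq_one hk')
    rw [hr13, Nat.Coprime.gcd_eq_one (Nat.Coprime.pow_right k (by norm_num)), Nat.dvd_one,
      orderOf_eq_one_iff] at hd
    exact hd
  let I : S → Subgroup S := fun g =>
    { carrier := {m | m ∈ M ∧ g * m * g⁻¹ = m⁻¹}
      one_mem' := ⟨M.one_mem, by simp⟩
      mul_mem' := by
        rintro u v ⟨hu, hu'⟩ ⟨hv, hv'⟩
        refine ⟨M.mul_mem hu hv, ?_⟩
        rw [show g * (u * v) * g⁻¹ = (g * u * g⁻¹) * (g * v * g⁻¹) by group, hu', hv', mul_inv_rev,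
          cM _ (M.inv_mem hu) _ (M.inv_mem hv)]
      inv_mem' := by
        rintro u ⟨hu, hu'⟩
        exact ⟨M.inv_mem hu, by rw [show g * u⁻¹ * g⁻¹ = (g * u * g⁻¹)⁻¹ by group, hu', inv_inv]⟩ }
  have hImem : ∀ g m, m ∈ I g ↔ m ∈ M ∧ g * m * g⁻¹ = m⁻¹ := fun g m => Iff.rfl
  have htrip : b * (a * a') * b⁻¹ = a := by
    rw [show b * (a * a') * b⁻¹ = (b * a * b⁻¹) * (b * a' * b⁻¹) by group, ← ha', hp.conj',
      ← mul_assoc, ← hp.comm, mul_assoc, hp.sq', mul_one]
  have hIconj : ∀ g, (I g).map (MulAut.conj b).toMonoidHom = I (b * g * b⁻¹) := by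
    intro g
    ext m
    constructor
    · rintro ⟨u, ⟨hu, hu'⟩, rfl⟩
      refine ⟨conj_mem_norm hbN hu, ?_⟩
      show b * g * b⁻¹ * (b * u * b⁻¹) * (b * g * b⁻¹)⁻¹ = (b * u * b⁻¹)⁻¹
      rw [show b * g * b⁻¹ * (b * u * b⁻¹) * (b * g * b⁻¹)⁻¹ = b * (g * u * g⁻¹) * b⁻¹ by group, hu']
      group
    · rintro ⟨hm, hm'⟩
      refine ⟨b⁻¹ * m * b, ⟨(Subgroup.mem_normalizer_iff''.mp hbN m).mp hm, ?_⟩, by
        show b * (b⁻¹ * m * b) * b⁻¹ = m; group⟩
      rw [show g * (b⁻¹ * m * b) * g⁻¹ = b⁻¹ * (b * g * b⁻¹ * m * (b * g * b⁻¹)⁻¹) * b by group, hm']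
      group
  have hIa' : (I a).map (MulAut.conj b).toMonoidHom = I a' := hIconj a
  have hIaa : (I a').map (MulAut.conj b).toMonoidHom = I (a * a') := by
    rw [hIconj a', hp.conj']
  have hIcyc : (I (a * a')).map (MulAut.conj b).toMonoidHom = I a := by rw [hIconj, htrip]
  -- no element of `M` is inverted by `a`
  have hIbot : I a = ⊥ := by
    by_contra hI
    have hc' : Nat.card (I a') = Nat.card (I a) := by
      rw [← hIa', Subgroup.card_map_of_injective (MulEquiv.injective (MulAut.conj b))]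
    have hall_eq : (I a = I a' ∨ I a = I (a * a')) → False := by
      intro he
      have e : I a = I a' ∧ I a = I (a * a') := by
        rcases he with he | he
        · refine ⟨he, ?_⟩
          rw [← hIaa, ← he, hIa', ← he]
        · refine ⟨?_, he⟩
          rw [← hIa']
          nth_rewrite 2 [he]
          rw [hIcyc]
      obtain ⟨m, hm, hm1⟩ : ∃ m ∈ I a, m ≠ 1 := by
        by_contra hno
        push Not at hno
        exact hI ((Subgroup.eq_bot_iff_forall _).mpr hno)
      have i1 := ((hImem a m).mp hm).2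
      have i2 := ((hImem a' m).mp (e.1 ▸ hm)).2
      have i3 := ((hImem (a * a') m).mp (e.2 ▸ hm)).2
      rw [show a * a' * m * (a * a')⁻¹ = a * (a' * m * a'⁻¹) * a⁻¹ by group, i2,
        show a * m⁻¹ * a⁻¹ = (a * m * a⁻¹)⁻¹ by group, i1, inv_inv] at i3
      exact hm1 (hcop2 m ((hImem a m).mp hm).1 (by nth_rewrite 1 [i3]; rw [inv_mul_cancel]))
    by_cases hful : I a = M
    · have hM' : I a' = M := by
        rw [← hIa', hful]; exact Subgroup.mem_normalizer_iff_map_conj_eq.mp hbN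
      exact hall_eq (Or.inl (hful.trans hM'.symm))
    have hcard : Nat.card (I a) = 13 := by
      have hle : I a ≤ M := fun m hm => ((hImem a m).mp hm).1
      have hMd : Nat.card M ∣ 13 * 13 := by
        have hnorm : Yx ≤ Subgroup.normalizer (Y : Set S) := hYxW.trans hYn
        have := Subgroup.card_dvd_of_le (le_refl M)
        have hs : Nat.card (Y ⊔ Yx : Subgroup S) ∣ Nat.card Y * Nat.card Yx := by
          let f : Y × Yx →* S :=
            { toFun := fun p => p.1 * p.2
              map_one' := by simp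
              map_mul' := fun p q => by
                show (p.1 : S) * q.1 * (p.2 * q.2) = p.1 * p.2 * (q.1 * q.2)
                rw [mul_assoc, ← mul_assoc (q.1 : S), hcYYx q.1 q.1.2 p.2 p.2.2]
                group }
          have hr' : (Y ⊔ Yx) = f.range := by
            apply le_antisymm
            · refine sup_le (fun u hu => ⟨(⟨u, hu⟩, 1), by simp [f]⟩) (fun v hv => ⟨(1, ⟨v, hv⟩), by simp [f]⟩)
            · rintro _ ⟨p, rfl⟩
              exact Subgroup.mul_mem _ (Subgroup.mem_sup_left p.1.2) (Subgroup.mem_sup_right p.2.2)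
          rw [hr', ← Nat.card_prod]
          exact Subgroup.card_range_dvd f
        rwa [hY, hYx] at hs
      obtain ⟨k, hk, hk'⟩ := (Nat.dvd_prime_pow (p := 13) (m := 2) (by norm_num)).mp
        ((Subgroup.card_dvd_of_le hle).trans (by simpa [pow_two] using hMd))
      interval_cases k
      · exact absurd (Subgroup.card_eq_one.mp (by simpa using hk')) hI
      · simpa using hk'
      · exfalso
        apply hful
        apply Subgroup.eq_of_le_of_card_ge hle
        rw [hk']
        exact (Nat.le_of_dvd (by norm_num) hMd).trans (by norm_num)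
    obtain ⟨m, hm, hm1⟩ : ∃ m ∈ I a, m ≠ 1 := by
      by_contra hno
      push Not at hno
      exact hI ((Subgroup.eq_bot_iff_forall _).mpr hno)
    obtain ⟨hmM, hma⟩ := (hImem a m).mp hm
    set n := a' * m * a'⁻¹ with hn
    have hnI : n ∈ I a := by
      refine (hImem a n).mpr ⟨conj_mem_norm ha'N hmM, ?_⟩
      rw [hn, show a * (a' * m * a'⁻¹) * a⁻¹ = (a * a') * m * (a * a')⁻¹ by group, hp.comm,
        show a' * a * m * (a' * a)⁻¹ = a' * (a * m * a⁻¹) * a'⁻¹ by group, hma]
      group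
    by_cases hmn : m * n = 1
    · have hma' : a' * m * a'⁻¹ = m⁻¹ := eq_inv_of_mul_eq_one_right hmn
      apply hall_eq (Or.inl ?_)
      have gen : ∀ H : Subgroup S, Nat.card H = 13 → m ∈ H → Subgroup.zpowers m = H := fun H hH hmH =>
        Subgroup.eq_of_le_of_card_ge (Subgroup.zpowers_le.mpr hmH) (by
          rw [Nat.card_zpowers, hH]
          have hd : orderOf m ∣ 13 := by
            have := orderOf_dvd_natCard (⟨m, hmH⟩ : H)
            rwa [hH, Subgroup.orderOf_mk] at this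
          rcases (Nat.dvd_prime (by norm_num)).mp hd with h1 | h1
          · exact absurd (orderOf_eq_one_iff.mp h1) hm1
          · omega)
      rw [← gen (I a) hcard hm, gen (I a') (hc'.trans hcard) ((hImem a' m).mpr ⟨hmM, hma'⟩)]
    · have hfix : a' * (m * n) * a'⁻¹ = m * n := by
        rw [show a' * (m * n) * a'⁻¹ = (a' * m * a'⁻¹) * (a' * n * a'⁻¹) by group, ← hn]
        have : a' * n * a'⁻¹ = m := by
          rw [hn, show a' * (a' * m * a'⁻¹) * a'⁻¹ = (a' * a') * m * (a' * a')⁻¹ by group, hp.sq']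
          group
        rw [this, cM n (conj_mem_norm ha'N hmM) m hmM]
      have hmnI : m * n ∈ I a := (I a).mul_mem hm hnI
      have hz : Subgroup.zpowers (m * n) = I a := Subgroup.eq_of_le_of_card_ge
        (Subgroup.zpowers_le.mpr hmnI) (by
          rw [Nat.card_zpowers, hcard]
          have hd : orderOf (m * n) ∣ 13 := by
            have := orderOf_dvd_natCard (⟨m * n, hmnI⟩ : I a)
            rwa [hcard, Subgroup.orderOf_mk] at this
          rcases (Nat.dvd_prime (by norm_num)).mp hd with h1 | h1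
          · exact absurd (orderOf_eq_one_iff.mp h1) hmn
          · omega)
      apply hall_eq (Or.inr ?_)
      apply Subgroup.eq_of_le_of_card_ge
      · intro u hu
        obtain ⟨hu1, hu2⟩ := (hImem a u).mp hu
        refine (hImem _ u).mpr ⟨hu1, ?_⟩
        have hu' : a' * u * a'⁻¹ = u := by
          rw [← hz, ← mem_powers_iff_mem_zpowers] at hu
          obtain ⟨k, rfl⟩ := hu
          show a' * (m * n) ^ k * a'⁻¹ = (m * n) ^ k
          rw [← conj_pow, hfix]
        rw [show a * a' * u * (a * a')⁻¹ = a * (a' * u * a'⁻¹) * a⁻¹ by group, hu', hu2]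
      · rw [← hIaa, Subgroup.card_map_of_injective (MulEquiv.injective (MulAut.conj b)), hc']
  -- so `a` centralizes `M`, hence `W`
  have hcentM : ∀ g : S, g ∈ Subgroup.normalizer (M : Set S) → g * g = 1 → I g = ⊥ →
      ∀ m ∈ M, g * m * g⁻¹ = m := by
    intro g hg hg2 hbot m hm
    have hgm : g * m * g⁻¹ ∈ M := conj_mem_norm hg hm
    have : m * (g * m * g⁻¹)⁻¹ ∈ I g := by
      refine (hImem g _).mpr ⟨M.mul_mem hm (M.inv_mem hgm), ?_⟩
      calc g * (m * (g * m * g⁻¹)⁻¹) * g⁻¹ = g * m * g⁻¹ * ((g * g) * m⁻¹ * (g * g)⁻¹) := by group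
        _ = _ := by rw [hg2]; group
    rw [hbot, Subgroup.mem_bot] at this
    exact (mul_inv_eq_one.mp this).symm
  have hcW : ∀ w ∈ W, a * w = w * a := by
    have hA : Subgroup.zpowers a ≤ Subgroup.centralizer (W : Set S) := by
      refine H20.le_centralizer_of_stabilizes_series (N := M) (Subgroup.zpowers_le.mpr (hnormW a)) ?_
        (Or.inl (solvable_zpowers a)) ?_ ?_
      · obtain ⟨k, hk⟩ := hWp.exists_card_eq
        rw [hk, Nat.card_zpowers, hr13]
        refine Nat.Coprime.pow_right k (Nat.Coprime.coprime_dvd_left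
          (orderOf_dvd_of_pow_eq_one (show a ^ 2 = 1 by rw [pow_two]; exact hp.sq)) (by norm_num))
      · rw [Subgroup.commutator_le]
        intro w hw g hg
        rw [← mem_powers_iff_mem_zpowers] at hg
        obtain ⟨k, rfl⟩ := hg
        show ⁅w, a ^ k⁆ ∈ M
        induction k with
        | zero => simp [M.one_mem]
        | succ k ih =>
          rw [show ⁅w, a ^ (k + 1)⁆ = ⁅w, a⁆ * (a * ⁅w, a ^ k⁆ * a⁻¹) by
            rw [pow_succ']; simp only [commutatorElement_def]; group]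
          exact M.mul_mem (haW w hw) (conj_mem_norm haN ih)
      · rw [Subgroup.zpowers_le, Subgroup.mem_centralizer_iff]
        intro m hm
        exact (mul_inv_eq_iff_eq_mul.mp (hcentM a haN hp.sq hIbot m hm)).symm
    intro w hw
    exact (Subgroup.mem_centralizer_iff.mp (hA (Subgroup.mem_zpowers a)) w hw).symm
  have hca' : ∀ w ∈ W, a' * w = w * a' := by
    intro w hw
    have hw' : b⁻¹ * w * b ∈ W := (Subgroup.mem_normalizer_iff''.mp (hnormW b) w).mp hw
    calc a' * w = b * (a * (b⁻¹ * w * b)) * b⁻¹ := by rw [ha']; group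
      _ = b * ((b⁻¹ * w * b) * a) * b⁻¹ := by rw [hcW _ hw']
      _ = w * a' := by rw [ha']; group
  intro q hq w hw
  rcases hall q hq with rfl | rfl | rfl | rfl
  · simp
  · exact hcW w hw
  · exact hca' w hw
  · rw [mul_assoc, hca' w hw, ← mul_assoc, hcW w hw, mul_assoc]

/-- Every odd core is centralized by `b`. -/
theorem odd_core_centralized [Group.IsSolvable S] (hc : IsCubic ρ b) (hO3 : Cfsg.pCore 3 S = ⊥)
    {Q : Subgroup S} (hQ : Cfsg.IsElementaryAbelian 2 Q) (hQ4 : Nat.card Q = 4)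
    (hbQ : b ∈ Subgroup.normalizer (Q : Set S)) (hbQ' : ∃ q ∈ Q, b * q ≠ q * b)
    {r : ℕ} [hr : Fact r.Prime] (hr2 : r ≠ 2) : ∀ n ∈ Cfsg.pCore r S, b * n = n * b := by
  by_cases hr3 : r = 3
  · subst hr3
    intro n hn
    rw [hO3, Subgroup.mem_bot] at hn
    simp [hn]
  rw [← commutator_bot_iff]
  by_contra hne
  obtain ⟨a, ha, hp, hall, hgen⟩ := four_group_pair hc.pow_three hQ hQ4 hbQ hbQ'
  have h2 := two_core_centralized hc hr2 hr3 hne
  have haF : a ∈ Cfsg.fittingSubgroup S := by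
    refine mem_pPrimeCore_centralizing_cores hO3 fun s hs hs3 n hn => ?_
    haveI : Fact s.Prime := ⟨hs⟩
    haveI := H19.pCore_normal s S
    by_cases hb : ⁅Cfsg.pCore s S, Subgroup.zpowers b⁆ = ⊥
    · exact (four_centralizes hgen (commutator_bot_iff.mp hb) ha hn).symm
    · by_cases hs2 : s = 2
      · subst hs2; exact absurd (commutator_bot_iff.mpr h2) hb
      · exact (four_centralizes_moved_core hc hs2 hs3 hb hQ hp ha hbQ hgen hall a ha n hn).symm
  have ha2 : a ∈ Cfsg.pCore 2 S :=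
    mem_pCore_two_of_fitting haF (k := 1) (by rw [pow_one, pow_two]; exact hp.sq)
  apply hp.ne
  rw [h2 a ha2, mul_inv_cancel_right]

end Cfsg.Agent.H84.CubicBlock
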