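import Mathlib
import Cfsg.Agent.H84.CubicBlock.Cores

set_option autoImplicit false

/-! The quaternion case is impossible in the presence of the four group. -/

open Module
open scoped commutatorElement

namespace Cfsg.Agent.H84.CubicBlock

variable {S : Type*} [Group S] [Finite S] {E : Type*} [AddCommGroup E] [Module (ZMod 3) E] [Finite E]
  {ρ : Representation (ZMod 3) S E} {b : S}

/-- congruence modulo `z` -/
def zCong (z u v : S) : Prop := u = v ∨ u = v * z

variable {Y : Subgroup S} {z : S}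

omit [Finite S] in
theorem zCong.symm (hzz : z * z = 1) {u v : S} (h : zCong z u v) : zCong z v u := by
  rcases h with e | e
  · exact Or.inl e.symm
  · exact Or.inr (by rw [e, mul_assoc, hzz, mul_one])

omit [Finite S] in
theorem zCong.trans (hzz : z * z = 1) {u v w : S} (h : zCong z u v) (h' : zCong z v w) : zCong z u w := by
  rcases h with e | e <;> rcases h' with e' | e' <;> subst e e'
  · exact Or.inl rfl
  · exact Or.inr rfl
  · exact Or.inr rfl
  · exact Or.inl (by rw [mul_assoc, hzz, mul_one])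

omit [Finite S] in
theorem zCong.conj {g u v : S} (hg : g * z = z * g) (h : zCong z u v) :
    zCong z (g * u * g⁻¹) (g * v * g⁻¹) := by
  rcases h with e | e <;> subst e
  · exact Or.inl rfl
  · refine Or.inr ?_
    calc g * (v * z) * g⁻¹ = g * v * g⁻¹ * (g * z * g⁻¹) := by group
      _ = _ := by rw [hg, mul_inv_cancel_right]

/-- The three nontrivial cosets modulo `z` in the order 8 case. -/
theorem Core.three_cosets (h : Core ρ b Y z) (h8 : Nat.card Y = 8) {y : S} (hy : y ∈ Y)
    (hy1 : ¬ zCong z y 1) :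
    (∀ u ∈ Y, zCong z u 1 ∨ zCong z u y ∨ zCong z u (b * y * b⁻¹) ∨
      zCong z u (b * (b * y * b⁻¹) * b⁻¹)) ∧
    ¬ zCong z (b * y * b⁻¹) y ∧ ¬ zCong z (b * (b * y * b⁻¹) * b⁻¹) (b * y * b⁻¹) ∧
      ¬ zCong z (b * (b * y * b⁻¹) * b⁻¹) y := by
  classical
  have hzz := h.sq_one
  set y' := b * y * b⁻¹ with hy'
  set y'' := b * y' * b⁻¹ with hy''
  have hy'Y : y' ∈ Y := conj_mem_norm h.setting.norm hy
  have hy''Y : y'' ∈ Y := conj_mem_norm h.setting.norm hy'Y
  have h3 : b * y'' * b⁻¹ = y := by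
    calc b * (b * (b * y * b⁻¹) * b⁻¹) * b⁻¹ = b ^ 3 * y * (b ^ 3)⁻¹ := by
          simp only [pow_three]; group
      _ = y := by rw [h.setting.cubic.pow_three]; group
  have d1 : ¬ zCong z y' y := fun e => hy1 <| by
    rcases h.fpf hy e with r | r
    · exact Or.inl r
    · exact Or.inr (r.trans (one_mul z).symm)
  have d2 : ¬ zCong z y'' y' := fun e => d1 <| by
    have hbi : b⁻¹ * z = z * b⁻¹ := ((show Commute b z from h.fixed).inv_left).eq
    have := zCong.conj hbi e
    rwa [hy'', show b⁻¹ * (b * y' * b⁻¹) * b⁻¹⁻¹ = y' by group, hy',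
      show b⁻¹ * (b * y * b⁻¹) * b⁻¹⁻¹ = y by group] at this
  have d3 : ¬ zCong z y'' y := fun e => d1 <| by
    have := zCong.conj h.fixed e
    rw [h3, ← hy'] at this
    exact zCong.symm hzz this
  have hb1 : ∀ u : S, zCong z (b * u * b⁻¹) 1 → zCong z u 1 := by
    intro u e
    have hbi : b⁻¹ * z = z * b⁻¹ := ((show Commute b z from h.fixed).inv_left).eq
    have := zCong.conj hbi e
    rwa [show b⁻¹ * (b * u * b⁻¹) * b⁻¹⁻¹ = u by group, show b⁻¹ * 1 * b⁻¹⁻¹ = (1 : S) by group] at this
  have hy'1 : ¬ zCong z y' 1 := fun e => hy1 (hb1 y e)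
  have hy''1 : ¬ zCong z y'' 1 := fun e => hy'1 (hb1 y' e)
  refine ⟨?_, d1, d2, d3⟩
  let f : Fin 4 × Bool → S := fun p =>
    (![1, y, y', y''] p.1) * (if p.2 then z else 1)
  have hrep : ∀ i : Fin 4, ![1, y, y', y''] i ∈ Y := by
    intro i; fin_cases i
    exacts [Y.one_mem, hy, hy'Y, hy''Y]
  have hinj : Function.Injective f := by
    rintro ⟨i, s⟩ ⟨j, t⟩ e
    have hc : zCong z (![1, y, y', y''] i) (![1, y, y', y''] j) := by
      revert e
      cases s <;> cases t <;> simp [f] <;> intro e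
      · exact Or.inl e
      · exact Or.inr e
      · exact zCong.symm hzz (Or.inr e.symm)
      · exact Or.inl e
    have hij : i = j := by
      by_contra hne
      fin_cases i <;> fin_cases j <;> simp at hc hne <;>
        first
        | exact hy1 hc
        | exact hy1 (zCong.symm hzz hc)
        | exact hy'1 hc
        | exact hy'1 (zCong.symm hzz hc)
        | exact hy''1 hc
        | exact hy''1 (zCong.symm hzz hc)
        | exact d1 hc
        | exact d1 (zCong.symm hzz hc)
        | exact d2 hc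
        | exact d2 (zCong.symm hzz hc)
        | exact d3 hc
        | exact d3 (zCong.symm hzz hc)
    subst hij
    refine Prod.ext rfl ?_
    cases s <;> cases t <;> simp [f] at e ⊢
    · exact h.ne_one e
    · exact h.ne_one e
  have hsub : Set.range f ⊆ (Y : Set S) := by
    rintro _ ⟨⟨i, s⟩, rfl⟩
    refine Y.mul_mem (hrep i) ?_
    cases s <;> simp [h.mem, Y.one_mem]
  have heq := Set.eq_of_subset_of_ncard_le hsub (by
    rw [← Nat.card_coe_set_eq, SetLike.coe_sort_coe, h8, ← Nat.card_coe_set_eq,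
      Nat.card_range_of_injective hinj]
    simp) (Set.toFinite _)
  intro u hu
  obtain ⟨⟨i, s⟩, rfl⟩ := heq.symm ▸ (show u ∈ (Y : Set S) from hu)
  have hc : zCong z (f (i, s)) (![1, y, y', y''] i) := by
    cases s
    · exact Or.inl (by simp [f])
    · exact Or.inr (by simp [f])
  fin_cases i
  exacts [Or.inl hc, Or.inr (Or.inl hc), Or.inr (Or.inr (Or.inl hc)), Or.inr (Or.inr (Or.inr hc))]

/-- In the order 8 case two `b`-conjugate noncentral elements do not commute. -/
theorem Core.comm_conj (h : Core ρ b Y z) (h8 : Nat.card Y = 8) {y : S} (hy : y ∈ Y)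
    (hy1 : ¬ zCong z y 1) : ⁅y, b * y * b⁻¹⁆ = z := by
  rcases h.comm y hy _ (conj_mem_norm h.setting.norm hy) with e | e
  swap
  · exact e
  exfalso
  set y' := b * y * b⁻¹ with hy'
  set y'' := b * y' * b⁻¹ with hy''
  obtain ⟨hall, -, -, -⟩ := h.three_cosets h8 hy hy1
  have c01 : Commute y y' := commutatorElement_eq_one_iff_mul_comm.mp e
  have c12 : Commute y' y'' := c01.map (MulAut.conj b).toMonoidHom
  have c20 : Commute y'' y := by
    have := c12.map (MulAut.conj b).toMonoidHom
    simp only [MulEquiv.coe_toMonoidHom, MulAut.conj_apply] at this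
    rwa [← hy'', show b * y'' * b⁻¹ = y by
      calc b * (b * (b * y * b⁻¹) * b⁻¹) * b⁻¹ = b ^ 3 * y * (b ^ 3)⁻¹ := by
            simp only [pow_three]; group
        _ = y := by rw [h.setting.cubic.pow_three]; group] at this
  have hz : ∀ u ∈ Y, Commute u z := h.central
  have main : ∀ p q : S, p ∈ ({1, y, y', y''} : Set S) → q ∈ ({1, y, y', y''} : Set S) → Commute p q := by
    intro p q hp hq
    simp only [Set.mem_insert_iff, Set.mem_singleton_iff] at hp hq
    rcases hp with rfl | rfl | rfl | rfl <;> rcases hq with rfl | rfl | rfl | rfl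
    all_goals
      first
      | exact Commute.one_left _
      | exact Commute.one_right _
      | exact Commute.refl _
      | exact c01
      | exact c01.symm
      | exact c12
      | exact c12.symm
      | exact c20
      | exact c20.symm
  have hrep : ∀ u ∈ Y, ∃ p ∈ ({1, y, y', y''} : Set S), zCong z u p := by
    intro u hu
    rcases hall u hu with c | c | c | c
    · exact ⟨1, by simp, c⟩
    · exact ⟨y, by simp, c⟩
    · exact ⟨y', by simp, c⟩
    · exact ⟨y'', by simp, c⟩
  obtain ⟨u, hu, v, hv, huv⟩ := h.nonab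
  obtain ⟨p, hp, cu⟩ := hrep u hu
  obtain ⟨q, hq, cv⟩ := hrep v hv
  have hpY : ∀ p ∈ ({1, y, y', y''} : Set S), p ∈ Y := by
    intro p hp
    simp only [Set.mem_insert_iff, Set.mem_singleton_iff] at hp
    rcases hp with rfl | rfl | rfl | rfl
    exacts [Y.one_mem, hy, conj_mem_norm h.setting.norm hy,
      conj_mem_norm h.setting.norm (conj_mem_norm h.setting.norm hy)]
  apply h.ne_one
  rw [← huv, commutatorElement_eq_one_iff_mul_comm]
  have cpq := main p q hp hq
  have hzp := hz p (hpY p hp)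
  have hzq := hz q (hpY q hq)
  rcases cu with rfl | rfl <;> rcases cv with rfl | rfl
  · exact cpq
  · exact (cpq.mul_right hzp)
  · exact (cpq.mul_left hzq.symm)
  · exact ((cpq.mul_left hzq.symm).mul_right (hzp.mul_left (Commute.refl z)))

/-- An element fixing the cosets of `Y` modulo `z` differs from an element of `Y` by a centralizing one. -/
theorem Core.inner (h : Core ρ b Y z) (h8 : Nat.card Y = 8) {g : S} (hgz : g * z = z * g)
    (hg : ∀ u ∈ Y, zCong z (g * u * g⁻¹) u) :
    ∃ r ∈ Y, ∀ u ∈ Y, (r⁻¹ * g) * u = u * (r⁻¹ * g) := by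
  classical
  obtain ⟨x, hx, y, hy, hxy⟩ := h.nonab
  have hy1 : ¬ zCong z y 1 := by
    intro e
    apply h.ne_one
    rw [← hxy, commutatorElement_eq_one_iff_mul_comm]
    rcases e with e | e
    · rw [e, mul_one, one_mul]
    · rw [e, one_mul]; exact h.central x hx
  clear x hx hxy
  set y' := b * y * b⁻¹ with hy'
  set y'' := b * y' * b⁻¹ with hy''
  have hy'Y : y' ∈ Y := conj_mem_norm h.setting.norm hy
  have hy''Y : y'' ∈ Y := conj_mem_norm h.setting.norm hy'Y
  obtain ⟨hall, d1, d2, d3⟩ := h.three_cosets h8 hy hy1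
  have hy'1 : ¬ zCong z y' 1 := fun e => hy1 (by
    have hbi : b⁻¹ * z = z * b⁻¹ := ((show Commute b z from h.fixed).inv_left).eq
    have := zCong.conj hbi e
    rwa [hy', show b⁻¹ * (b * y * b⁻¹) * b⁻¹⁻¹ = y by group, show b⁻¹ * 1 * b⁻¹⁻¹ = (1 : S) by group] at this)
  have c01 : ⁅y, y'⁆ = z := h.comm_conj h8 hy hy1
  have c12 : ⁅y', y''⁆ = z := h.comm_conj h8 hy'Y hy'1
  have hy''1 : ¬ zCong z y'' 1 := fun e => hy'1 (by
    have hbi : b⁻¹ * z = z * b⁻¹ := ((show Commute b z from h.fixed).inv_left).eq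
    have := zCong.conj hbi e
    rwa [hy'', show b⁻¹ * (b * y' * b⁻¹) * b⁻¹⁻¹ = y' by group, show b⁻¹ * 1 * b⁻¹⁻¹ = (1 : S) by group] at this)
  have c20 : ⁅y'', y⁆ = z := by
    have := h.comm_conj h8 hy''Y hy''1
    rwa [show b * y'' * b⁻¹ = y by
      calc b * (b * (b * y * b⁻¹) * b⁻¹) * b⁻¹ = b ^ 3 * y * (b ^ 3)⁻¹ := by
            simp only [pow_three]; group
        _ = y := by rw [h.setting.cubic.pow_three]; group] at this
  have iz : z⁻¹ = z := inv_eq_of_mul_eq_one_right h.sq_one
  have conjc : ∀ r ∈ Y, ∀ u ∈ Y, ⁅r, u⁆ = z → r * u * r⁻¹ = u * z := by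
    intro r _ u hu e
    calc r * u * r⁻¹ = ⁅r, u⁆ * u := by simp only [commutatorElement_def]; group
      _ = u * z := by rw [e, h.central u hu]
  have sym : ∀ r u : S, ⁅r, u⁆ = z → ⁅u, r⁆ = z := fun r u e => by rw [← commutatorElement_inv, e, iz]
  obtain ⟨r, hr, r1, r2⟩ : ∃ r ∈ Y, r * y * r⁻¹ = g * y * g⁻¹ ∧ r * y' * r⁻¹ = g * y' * g⁻¹ := by
    rcases hg y hy with e | e <;> rcases hg y' hy'Y with e' | e'
    · exact ⟨1, Y.one_mem, by rw [e]; group, by rw [e']; group⟩
    · exact ⟨y, hy, by rw [e]; group, by rw [e', conjc y hy y' hy'Y c01]⟩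
    · exact ⟨y', hy'Y, by rw [e, conjc y' hy'Y y hy (sym _ _ c01)], by rw [e']; group⟩
    · exact ⟨y'', hy''Y, by rw [e, conjc y'' hy''Y y hy c20],
        by rw [e', conjc y'' hy''Y y' hy'Y (sym _ _ c12)]⟩
  refine ⟨r, hr, ?_⟩
  set x := r⁻¹ * g
  have fx : ∀ u : S, r * u * r⁻¹ = g * u * g⁻¹ → x * u = u * x := by
    intro u e
    calc x * u = r⁻¹ * (g * u * g⁻¹) * g := by simp only [x]; group
      _ = r⁻¹ * (r * u * r⁻¹) * g := by rw [e]
      _ = u * x := by simp only [x]; group
  have hxz : x * z = z * x := by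
    simp only [x]
    exact ((Commute.inv_left (h.central r hr)).mul_left hgz : Commute (r⁻¹ * g) z).eq
  set T := Y ⊓ Subgroup.centralizer ({x} : Set S) with hT
  have hTY : T = Y := by
    apply Subgroup.eq_of_le_of_card_ge inf_le_left
    have hmem : ∀ u ∈ Y, x * u = u * x → u ∈ T := fun u hu e =>
      Subgroup.mem_inf.mpr ⟨hu, Subgroup.mem_centralizer_singleton_iff.mpr e.symm⟩
    have hy0 := hmem y hy (fx y r1)
    have hy0' := hmem y' hy'Y (fx y' r2)
    have hz0 := hmem z h.mem hxz
    have hsub : (({1, z, y, y * z, y'} : Finset S) : Set S) ⊆ (T : Set S) := by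
      intro u hu
      simp only [Finset.coe_insert, Finset.coe_singleton, Set.mem_insert_iff, Set.mem_singleton_iff] at hu
      rcases hu with rfl | rfl | rfl | rfl | rfl
      exacts [T.one_mem, hz0, hy0, T.mul_mem hy0 hz0, hy0']
    have h5 : ({1, z, y, y * z, y'} : Finset S).card = 5 := by
      rw [Finset.card_insert_of_notMem, Finset.card_insert_of_notMem, Finset.card_insert_of_notMem,
        Finset.card_insert_of_notMem, Finset.card_singleton]
      · simp only [Finset.mem_singleton]
        exact fun e => d1 (Or.inr e.symm)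
      · simp only [Finset.mem_insert, Finset.mem_singleton, not_or]
        exact ⟨fun e => h.ne_one (mul_left_cancel (a := y) (by rw [← e, mul_one])), fun e => d1 (Or.inl e.symm)⟩
      · simp only [Finset.mem_insert, Finset.mem_singleton, not_or]
        exact ⟨fun e => hy1 (Or.inr (by rw [one_mul]; exact e.symm)),
          fun e => hy1 (Or.inl (mul_right_cancel (b := z) (by rw [← e, one_mul]))),
          fun e => hy'1 (Or.inr (by rw [one_mul]; exact e.symm))⟩
      · simp only [Finset.mem_insert, Finset.mem_singleton, not_or]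
        exact ⟨Ne.symm h.ne_one, fun e => hy1 (Or.inl e.symm),
          fun e => hy1 (Or.inr (by rw [one_mul]; exact (eq_inv_of_mul_eq_one_left e.symm).trans iz)),
          fun e => hy'1 (Or.inl e.symm)⟩
    have hle := Set.ncard_le_ncard hsub (Set.toFinite _)
    rw [Set.ncard_coe_finset, h5, ← Nat.card_coe_set_eq, SetLike.coe_sort_coe] at hle
    have hd : Nat.card T ∣ 2 ^ 3 := by
      have := Subgroup.card_dvd_of_le (inf_le_left : T ≤ Y)
      rwa [h8] at this
    obtain ⟨k, hk, hk'⟩ := (Nat.dvd_prime_pow Nat.prime_two).mp hd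
    rw [h8, hk']
    rw [hk'] at hle
    interval_cases k <;> omega
  intro u hu
  have : u ∈ T := hTY.symm ▸ hu
  exact (Subgroup.mem_centralizer_singleton_iff.mp (Subgroup.mem_inf.mp this).2).symm

omit [Finite S] in
theorem zCong_apply {u v : S} {w : E} (h : zCong z u v) (hz : ρ z w = w) : ρ u w = ρ v w := by
  rcases h with rfl | rfl
  · rfl
  · rw [mul_apply, hz]

/-- The order 8 case cannot occur for `Y = [O_2(S), b]`. -/
theorem small_excluded [Group.IsSolvable S] (hO3 : Cfsg.pCore 3 S = ⊥)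
    (hodd : ∀ r : ℕ, r.Prime → r ≠ 2 → ∀ n ∈ Cfsg.pCore r S, b * n = n * b)
    {Q : Subgroup S} (hQ : Cfsg.IsElementaryAbelian 2 Q) (hQ4 : Nat.card Q = 4)
    (hbQ : b ∈ Subgroup.normalizer (Q : Set S)) (hbQ' : ∃ q ∈ Q, b * q ≠ q * b)
    (h : Core ρ b ⁅Cfsg.pCore 2 S, Subgroup.zpowers b⁆ z)
    (h8 : Nat.card ↥⁅Cfsg.pCore 2 S, Subgroup.zpowers b⁆ = 8) : False := by
  classical
  have hc := h.setting.cubic
  have hb3 := hc.pow_three
  obtain ⟨a, ha, hp, hallQ, hgen⟩ := four_group_pair hb3 hQ hQ4 hbQ hbQ'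
  set W := Cfsg.pCore 2 S with hWdef
  set Y := ⁅W, Subgroup.zpowers b⁆ with hYdef
  haveI : Fact (Nat.Prime 2) := ⟨Nat.prime_two⟩
  haveI hWn : W.Normal := H19.pCore_normal 2 S
  have hW2 : IsPGroup 2 W := H19.pCore_isPGroup 2
  have hnW : ∀ g : S, g ∈ Subgroup.normalizer (W : Set S) := fun g => by
    rw [Subgroup.normalizer_eq_top]; trivial
  have hW3 : ¬ 3 ∣ Nat.card W := not_three_dvd_of_pGroup (by norm_num) hW2
  have hYW : Y ≤ W := H20.commutator_le_of_le_normalizer (Subgroup.zpowers_le.mpr (hnW b))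
  have hWY : W ≤ Subgroup.normalizer (Y : Set S) := le_normalizer_commutator' (hnW b)
  have hzz := h.sq_one
  have hzW : ∀ w ∈ W, w * z = z * w := by
    intro w hw
    have hm : w * z * w⁻¹ ∈ Y := conj_mem_norm (hWY hw) h.mem
    rcases h.center hm (fun y hy => by
      have hy' : w⁻¹ * y * w ∈ Y := (Subgroup.mem_normalizer_iff''.mp (hWY hw) y).mp hy
      calc y * (w * z * w⁻¹) = w * ((w⁻¹ * y * w) * z) * w⁻¹ := by group
        _ = w * (z * (w⁻¹ * y * w)) * w⁻¹ := by rw [h.central _ hy']
        _ = _ := by group) with e | e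
    · exact absurd (conj_eq_one_iff.mp e) h.ne_one
    · exact mul_inv_eq_iff_eq_mul.mp e
  -- `b` centralizes every subgroup of `W` centralizing `Y`
  have centralized : ∀ N : Subgroup S, N ≤ W → (∀ n ∈ N, ∀ y ∈ Y, y * n = n * y) →
      b ∈ Subgroup.normalizer (N : Set S) → ∀ n ∈ N, b * n = n * b := by
    intro N hNW hNY hbN
    rw [← commutator_bot_iff]
    have h3 : ¬ 3 ∣ Nat.card N := fun hd => hW3 (hd.trans (Subgroup.card_dvd_of_le hNW))
    refine (commutator_twice hb3 hbN h3).symm.trans (commutator_bot_iff.mpr ?_)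
    intro c hc'
    have hcN : c ∈ N := H20.commutator_le_of_le_normalizer (Subgroup.zpowers_le.mpr hbN) hc'
    exact h.center_fixed c (Subgroup.commutator_mono hNW le_rfl hc') (hNY c hcN)
  set Zw := W ⊓ Subgroup.centralizer (W : Set S) with hZw
  haveI hZn : Zw.Normal := by
    haveI : (Subgroup.centralizer (W : Set S)).Normal := Subgroup.normal_centralizer
    infer_instance
  have hbZ : ∀ n ∈ Zw, b * n = n * b := centralized Zw inf_le_left
    (fun n hn y hy => (Subgroup.mem_centralizer_iff.mp (Subgroup.mem_inf.mp hn).2 y (hYW hy)))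
    (by rw [Subgroup.normalizer_eq_top]; trivial)
  have hQz : ∀ q ∈ Q, q * z = z * q := fun q hq => four_centralizes hgen hbZ hq
    (Subgroup.mem_inf.mpr ⟨hYW h.mem, Subgroup.mem_centralizer_iff.mpr fun w hw => hzW w hw⟩)
  set CW := W ⊓ Subgroup.centralizer (Y : Set S) with hCW
  have hbCW : ∀ n ∈ CW, b * n = n * b := centralized CW inf_le_left
    (fun n hn y hy => Subgroup.mem_centralizer_iff.mp (Subgroup.mem_inf.mp hn).2 y hy)
    (H20.le_normalizer_inf (A := Subgroup.zpowers b) (Subgroup.zpowers_le.mpr (hnW b))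
      (H20.le_normalizer_centralizer (Subgroup.zpowers_le.mpr h.setting.norm)) (Subgroup.mem_zpowers b))
  obtain ⟨hfixC, hmoveU⟩ := h.move_eq
  set C := fixSub ρ Y with hCdef
  set U := moveSub ρ Y with hUdef
  have hcompl := isCompl_fix_move (ρ := ρ) h.setting.three_not_dvd
  have presC : ∀ g, g * z = z * g → ∀ v ∈ C, ρ g v ∈ C := fun g hg v hv => by
    rw [hfixC, mem_ker_disp] at hv ⊢; exact (eigen_invariant hg).1 v hv
  have presU : ∀ g, g * z = z * g → ∀ v ∈ U, ρ g v ∈ U := fun g hg v hv => by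
    rw [hmoveU, mem_ker_add] at hv ⊢; exact (eigen_invariant hg).2 v hv
  have bC : ∀ v ∈ C, ρ b v = v := fun v hv => h.setting.fix_b hv
  have ext : ∀ g k : S, (∀ v ∈ C, ρ g v = ρ k v) → (∀ v ∈ U, ρ g v = ρ k v) → g = k := by
    intro g k e1 e2
    apply hc.inj
    ext v
    obtain ⟨u, hu, m, hm, rfl⟩ := Submodule.mem_sup.mp
      (hcompl.sup_eq_top ▸ (Submodule.mem_top : v ∈ (⊤ : Submodule (ZMod 3) E)))
    rw [map_add, map_add, e1 u hu, e2 m hm]
  have sign : ∀ k : ℕ, ∀ c ∈ CW, c ^ 2 ^ k = 1 → (∀ v ∈ U, ρ c v = v) ∨ ∀ v ∈ U, ρ c v = -v := by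
    intro k
    induction k with
    | zero => intro c _ e; rw [pow_zero, pow_one] at e; left; intro v _; rw [e, map_one]; rfl
    | succ k ih =>
      intro c hc' e
      rw [pow_succ', pow_mul, pow_two] at e
      have hcz : c * z = z * c := hzW c (Subgroup.mem_inf.mp hc').1
      have hcb : b * c = c * b := hbCW c hc'
      have hcy : ∀ y ∈ Y, y * c = c * y := fun y hy =>
        Subgroup.mem_centralizer_iff.mp (Subgroup.mem_inf.mp hc').2 y hy
      rcases ih (c * c) (CW.mul_mem hc' hc') e with hp | hm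
      · have tt : ∀ v ∈ U, ρ c (ρ c v) = v := fun v hv => by rw [← mul_apply]; exact hp v hv
        let Up : Submodule (ZMod 3) E := LinearMap.ker (disp ρ c) ⊓ U
        let Um : Submodule (ZMod 3) E := LinearMap.ker (ρ c + LinearMap.id) ⊓ U
        have hsup : Up ⊔ Um = U := by
          refine le_antisymm (sup_le inf_le_right inf_le_right) fun v hv => ?_
          have hv3 : (3 : ℕ) • v = 0 := ZModModule.char_nsmul_eq_zero 3 _
          refine Submodule.mem_sup.mpr ⟨-(v + ρ c v), ⟨?_, ?_⟩, -(v - ρ c v), ⟨?_, ?_⟩, ?_⟩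
          · rw [SetLike.mem_coe, mem_ker_disp, map_neg, map_add, tt v hv]; abel
          · exact U.neg_mem (U.add_mem hv (presU c hcz v hv))
          · rw [SetLike.mem_coe, mem_ker_add, map_neg, map_sub, tt v hv]; abel
          · exact U.neg_mem (U.sub_mem hv (presU c hcz v hv))
          · calc -(v + ρ c v) + -(v - ρ c v) = v - (3 : ℕ) • v := by abel
              _ = v := by rw [hv3, sub_zero]
        have hcompl' : IsCompl Up (C ⊔ Um) := by
          refine ⟨?_, ?_⟩
          · rw [disjoint_iff, eq_bot_iff]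
            rintro v ⟨hv, hv'⟩
            obtain ⟨c0, hc0, m, hm, rfl⟩ := Submodule.mem_sup.mp hv'
            have h0 : c0 = 0 := Submodule.disjoint_def.mp hcompl.disjoint c0 hc0 (by
              rw [show c0 = (c0 + m) - m by abel]; exact U.sub_mem hv.2 hm.2)
            subst h0
            rw [Submodule.mem_bot, zero_add]
            rw [zero_add] at hv
            exact eq_zero_of_neg_eq ((mem_ker_add.mp hm.1).symm.trans (mem_ker_disp.mp hv.1))
          · rw [codisjoint_iff, ← sup_assoc, sup_comm Up C, sup_assoc, hsup]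
            exact hcompl.sup_eq_top
        have inv1 : ∀ g : S, g * c = c * g → g * z = z * g → ∀ v ∈ Up, ρ g v ∈ Up := fun g hg hgz v hv =>
          ⟨mem_ker_disp.mpr ((eigen_invariant hg).1 v (mem_ker_disp.mp hv.1)), presU g hgz v hv.2⟩
        have inv2 : ∀ g : S, g * c = c * g → g * z = z * g → ∀ v ∈ Um, ρ g v ∈ Um := fun g hg hgz v hv =>
          ⟨mem_ker_add.mpr ((eigen_invariant hg).2 v (mem_ker_add.mp hv.1)), presU g hgz v hv.2⟩
        have kill : ∀ L : Submodule (ZMod 3) E, L ≤ U → (∀ y ∈ Y, ∀ v ∈ L, ρ y v ∈ L) →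
            (∀ v ∈ L, ρ b v = v) → L = ⊥ := by
          intro L hL hLY hLb
          rw [eq_bot_iff]
          intro v hv
          exact Submodule.disjoint_def.mp hcompl.disjoint v
            ((mem_fixSub ρ).mpr fun y hy => fixed_of_commutator_eq h.setting.gen hLY hLb hy hv) (hL hv)
        rcases hc.split hcompl' (inv1 b hcb h.fixed) (by
          intro v hv
          obtain ⟨c0, hc0, m, hm, rfl⟩ := Submodule.mem_sup.mp hv
          rw [map_add]
          exact Submodule.add_mem_sup (presC b h.fixed c0 hc0) (inv2 b hcb h.fixed m hm)) with h1 | h1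
        · have := kill Up inf_le_right (fun y hy => inv1 y (hcy y hy) (h.central y hy)) h1
          right; intro v hv
          rw [← hsup, this, bot_sup_eq] at hv
          exact mem_ker_add.mp hv.1
        · have := kill Um inf_le_right (fun y hy => inv2 y (hcy y hy) (h.central y hy))
            (fun v hv => h1 v (Submodule.mem_sup_right hv))
          left; intro v hv
          rw [← hsup, this, sup_bot_eq] at hv
          exact mem_ker_disp.mp hv.1
      · exfalso
        set R := LinearMap.range (disp ρ b) with hR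
        have hRU : R ≤ U := by
          rintro _ ⟨v, rfl⟩
          obtain ⟨u, hu, m, hm', rfl⟩ := Submodule.mem_sup.mp
            (hcompl.sup_eq_top ▸ (Submodule.mem_top : v ∈ (⊤ : Submodule (ZMod 3) E)))
          rw [map_add, disp_apply ρ b u, bC u hu, sub_self, zero_add]
          exact U.sub_mem (presU b h.fixed m hm') hm'
        set L := R.map (disp ρ b) with hL
        have hLR : L ≤ R := LinearMap.map_le_range
        have hLne : L ≠ ⊥ := by
          intro e0
          obtain ⟨v, hv⟩ := hc.sq_ne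
          have hm : disp ρ b (disp ρ b v) ∈ L := Submodule.mem_map_of_mem ⟨v, rfl⟩
          rw [e0, Submodule.mem_bot] at hm
          exact hv hm
        have hlt : L ≠ R := by
          intro e0
          apply hLne
          rw [eq_bot_iff]
          intro v hv
          obtain ⟨v₁, hv₁, rfl⟩ := hv
          obtain ⟨v₂, hv₂, rfl⟩ := e0.ge hv₁
          obtain ⟨v₃, rfl⟩ := hv₂
          exact (Submodule.mem_bot _).mpr (disp_cube hb3 v₃)
        have hL1 : finrank (ZMod 3) L = 1 := by
          have h1 := Submodule.finrank_lt_finrank_of_lt (lt_of_le_of_ne hLR hlt)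
          have h2 : finrank (ZMod 3) R ≤ 2 := hc.rank_le
          have h3 : finrank (ZMod 3) L ≠ 0 := fun e0 => hLne (Submodule.finrank_eq_zero.mp e0)
          omega
        have hcomm : ∀ v, ρ c (disp ρ b v) = disp ρ b (ρ c v) := fun v => by
          simp only [disp_apply, map_sub, ← mul_apply, hcb]
        have hLc : ∀ v ∈ L, ρ c v ∈ L := by
          rintro _ ⟨v, ⟨u, rfl⟩, rfl⟩
          rw [hcomm, hcomm]
          exact Submodule.mem_map_of_mem ⟨_, rfl⟩
        apply hLne
        rw [eq_bot_iff]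
        intro v hv
        rw [Submodule.mem_bot]
        have h2 := hm v (hRU (hLR hv))
        rw [mul_apply] at h2
        rcases line_sign (ρ := ρ) (g := c) hL1 hLc with e1 | e1
        · rw [e1 v hv, e1 v hv] at h2; exact eq_zero_of_neg_eq h2.symm
        · rw [e1 v hv, map_neg, e1 v hv, neg_neg] at h2; exact eq_zero_of_neg_eq h2.symm
  have csign : ∀ c ∈ CW, (∀ v ∈ U, ρ c v = v) ∨ ∀ v ∈ U, ρ c v = -v := by
    intro c hc'
    obtain ⟨k, hk⟩ := hW2 ⟨c, (Subgroup.mem_inf.mp hc').1⟩
    exact sign k c hc' (congrArg Subtype.val hk)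
  -- elements of `W` fix the cosets
  obtain ⟨x₀, hx₀, y, hy, hxy⟩ := h.nonab
  have hy1 : ¬ zCong z y 1 := by
    intro e
    apply h.ne_one
    rw [← hxy, commutatorElement_eq_one_iff_mul_comm]
    rcases e with e | e
    · rw [e, mul_one, one_mul]
    · rw [e, one_mul]; exact h.central x₀ hx₀
  have fixW : ∀ w ∈ W, ∀ u ∈ Y, zCong z (w * u * w⁻¹) u := by
    have base : ∀ w ∈ W, w * b = b * w → ∀ u ∈ Y, zCong z (w * u * w⁻¹) u := by
      intro w hw hwb u hu
      by_cases hu1 : zCong z u 1
      · rcases hu1 with rfl | rfl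
        · left; group
        · left; rw [one_mul, hzW w hw, mul_inv_cancel_right]
      obtain ⟨hall, -, -, -⟩ := h.three_cosets h8 hu hu1
      have hwu : w * u * w⁻¹ ∈ Y := conj_mem_norm (hWY hw) hu
      rcases hall _ hwu with e | e | e | e
      · exfalso
        apply hu1
        have := zCong.conj (show w⁻¹ * z = z * w⁻¹ from hzW _ (W.inv_mem hw)) e
        rwa [show w⁻¹ * (w * u * w⁻¹) * w⁻¹⁻¹ = u by group, show w⁻¹ * 1 * w⁻¹⁻¹ = (1 : S) by group] at this
      · exact e
      all_goals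
        exfalso
        obtain ⟨k, hk⟩ := hW2 ⟨w, hw⟩
        have hk' : w ^ 2 ^ k = 1 := congrArg Subtype.val hk
      · have key : ∀ n : ℕ, zCong z (w ^ n * u * (w ^ n)⁻¹) (b ^ n * u * (b ^ n)⁻¹) := by
          intro n
          induction n with
          | zero => left; simp
          | succ n ih =>
            have hbz : b ^ n * z = z * b ^ n := ((show Commute b z from h.fixed).pow_left n).eq
            have e1 := zCong.conj (hzW w hw) ih
            have e2 := zCong.conj hbz e
            have hwn : w * b ^ n = b ^ n * w := ((show Commute w b from hwb).pow_right n).eq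
            rw [show w * (w ^ n * u * (w ^ n)⁻¹) * w⁻¹ = w ^ (n + 1) * u * (w ^ (n + 1))⁻¹ by
              rw [pow_succ']; group, show w * (b ^ n * u * (b ^ n)⁻¹) * w⁻¹ = (w * b ^ n) * u * (w * b ^ n)⁻¹ by
              group, hwn, show b ^ n * w * u * (b ^ n * w)⁻¹ = b ^ n * (w * u * w⁻¹) * (b ^ n)⁻¹ by group] at e1
            refine zCong.trans hzz e1 ?_
            rwa [show b ^ n * (b * u * b⁻¹) * (b ^ n)⁻¹ = b ^ (n + 1) * u * (b ^ (n + 1))⁻¹ by
              rw [pow_succ]; group] at e2
        have hkey := key (2 ^ k)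
        rw [hk', one_mul, inv_one, mul_one, ← Nat.mod_add_div (2 ^ k) 3, pow_add, pow_mul, hb3,
          one_pow, mul_one] at hkey
        have hmod : 2 ^ k % 3 ≠ 0 := fun h0 => by
          have := Nat.prime_three.dvd_of_dvd_pow (Nat.dvd_of_mod_eq_zero h0); omega
        obtain ⟨d, hd1, hd2, hd3⟩ := h.three_cosets h8 hu hu1
        have : 2 ^ k % 3 < 3 := Nat.mod_lt _ (by norm_num)
        interval_cases hm : 2 ^ k % 3
        · exact hmod rfl
        · rw [pow_one] at hkey; exact hd1 (zCong.symm hzz hkey)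
        · rw [pow_two, show b * b * u * (b * b)⁻¹ = b * (b * u * b⁻¹) * b⁻¹ by group] at hkey
          exact hd3 (zCong.symm hzz hkey)
      · have key : ∀ n : ℕ, zCong z (w ^ n * u * (w ^ n)⁻¹) (b ^ (2 * n) * u * (b ^ (2 * n))⁻¹) := by
          intro n
          induction n with
          | zero => left; simp
          | succ n ih =>
            have hbz : b ^ (2 * n) * z = z * b ^ (2 * n) := ((show Commute b z from h.fixed).pow_left _).eq
            have e1 := zCong.conj (hzW w hw) ih
            have e2 := zCong.conj hbz e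
            have hwn : w * b ^ (2 * n) = b ^ (2 * n) * w := ((show Commute w b from hwb).pow_right _).eq
            rw [show w * (w ^ n * u * (w ^ n)⁻¹) * w⁻¹ = w ^ (n + 1) * u * (w ^ (n + 1))⁻¹ by
              rw [pow_succ']; group,
              show w * (b ^ (2 * n) * u * (b ^ (2 * n))⁻¹) * w⁻¹ = (w * b ^ (2 * n)) * u * (w * b ^ (2 * n))⁻¹ by
              group, hwn,
              show b ^ (2 * n) * w * u * (b ^ (2 * n) * w)⁻¹ = b ^ (2 * n) * (w * u * w⁻¹) * (b ^ (2 * n))⁻¹ by
              group] at e1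
            refine zCong.trans hzz e1 ?_
            rwa [show b ^ (2 * n) * (b * (b * u * b⁻¹) * b⁻¹) * (b ^ (2 * n))⁻¹
              = b ^ (2 * (n + 1)) * u * (b ^ (2 * (n + 1)))⁻¹ by
              rw [show 2 * (n + 1) = 2 * n + 1 + 1 by ring, pow_succ, pow_succ]; group] at e2
        have hkey := key (2 ^ k)
        rw [hk', one_mul, inv_one, mul_one, ← Nat.mod_add_div (2 * 2 ^ k) 3, pow_add, pow_mul, hb3,
          one_pow, mul_one] at hkey
        have hmod : 2 * 2 ^ k % 3 ≠ 0 := fun h0 => by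
          have h3 := Nat.dvd_of_mod_eq_zero h0
          rw [← pow_succ'] at h3
          have := Nat.prime_three.dvd_of_dvd_pow h3; omega
        obtain ⟨d, hd1, hd2, hd3⟩ := h.three_cosets h8 hu hu1
        have : 2 * 2 ^ k % 3 < 3 := Nat.mod_lt _ (by norm_num)
        interval_cases hm : 2 * 2 ^ k % 3
        · exact hmod rfl
        · rw [pow_one] at hkey; exact hd1 (zCong.symm hzz hkey)
        · rw [pow_two, show b * b * u * (b * b)⁻¹ = b * (b * u * b⁻¹) * b⁻¹ by group] at hkey
          exact hd3 (zCong.symm hzz hkey)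
    let T : Subgroup S :=
      { carrier := {w | w ∈ W ∧ ∀ u ∈ Y, zCong z (w * u * w⁻¹) u}
        one_mem' := ⟨W.one_mem, fun u _ => Or.inl (by group)⟩
        mul_mem' := by
          rintro p q ⟨hp', hpu⟩ ⟨hq', hqu⟩
          refine ⟨W.mul_mem hp' hq', fun u hu => ?_⟩
          have e1 := zCong.conj (hzW p hp') (hqu u hu)
          rw [show p * (q * u * q⁻¹) * p⁻¹ = p * q * u * (p * q)⁻¹ by group] at e1
          exact zCong.trans hzz e1 (hpu u hu)
        inv_mem' := by
          rintro p ⟨hp', hpu⟩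
          refine ⟨W.inv_mem hp', fun u hu => ?_⟩
          have e1 := zCong.conj (hzW p⁻¹ (W.inv_mem hp')) (hpu u hu)
          rw [show p⁻¹ * (p * u * p⁻¹) * p⁻¹⁻¹ = u by group] at e1
          exact zCong.symm hzz e1 }
    have hT : W ≤ T := by
      have := H20.commutator_sup_centralizer (Subgroup.zpowers_le.mpr (hnW b)) (coprime_zpowers hb3 hW3)
        (Or.inl (solvable_zpowers b))
      refine this.ge.trans (sup_le ?_ ?_)
      · intro w hw
        refine ⟨hYW hw, fun u hu => ?_⟩
        rcases h.comm w hw u hu with e | e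
        · left; rw [commutatorElement_eq_one_iff_mul_comm.mp e, mul_inv_cancel_right]
        · right
          calc w * u * w⁻¹ = ⁅w, u⁆ * u := by simp only [commutatorElement_def]; group
            _ = u * z := by rw [e, h.central u hu]
      · intro w hw
        obtain ⟨hw1, hw2⟩ := Subgroup.mem_inf.mp hw
        exact ⟨hw1, base w hw1 (Subgroup.mem_centralizer_iff.mp hw2 b (Subgroup.mem_zpowers b)).symm⟩
    exact fun w hw => (hT hw).2
  have decompW : ∀ w ∈ W, ∃ r ∈ Y, r⁻¹ * w ∈ CW := by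
    intro w hw
    obtain ⟨r, hr, hr'⟩ := h.inner h8 (hzW w hw) (fixW w hw)
    exact ⟨r, hr, Subgroup.mem_inf.mpr ⟨W.mul_mem (W.inv_mem (hYW hr)) hw,
      Subgroup.mem_centralizer_iff.mpr fun u hu => (hr' u hu).symm⟩⟩
  -- `Q` is trivial on `C`
  have hQC : ∀ q ∈ Q, ∀ v ∈ C, ρ q v = v := by
    intro q hq v hv
    obtain ⟨g, hg, rfl⟩ := hgen q hq
    have hbi : ∀ u ∈ C, ρ b⁻¹ u = u := fun u hu => by
      conv_lhs => rw [← bC u hu]
      rw [inv_apply_self]
    rw [commutatorElement_def, mul_apply, mul_apply, mul_apply, hbi v hv,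
      bC _ (presC _ (hQz _ (Q.inv_mem hg)) v hv), self_inv_apply]
  have hQY : ∀ q ∈ Q, ∀ u ∈ Y, q * u * q⁻¹ ∈ Y := by
    intro q hq u hu
    have hw : q * u * q⁻¹ ∈ W := hWn.conj_mem u (hYW hu) q
    obtain ⟨r, hr, hr'⟩ := decompW _ hw
    set c := r⁻¹ * (q * u * q⁻¹) with hcdef
    have cC : ∀ v ∈ C, ρ c v = v := by
      intro v hv
      have hr1 : ρ r⁻¹ v = v := (mem_fixSub ρ).mp hv _ (Y.inv_mem hr)
      rw [hcdef, mul_apply, mul_apply, mul_apply, hQC _ (Q.inv_mem hq) v hv,
        (mem_fixSub ρ).mp hv u hu, hQC q hq v hv, hr1]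
    have : c ∈ Y := by
      rcases csign c hr' with e | e
      · rw [show c = 1 from ext _ _ (fun v hv => by rw [cC v hv, map_one]; rfl)
          (fun v hv => by rw [e v hv, map_one]; rfl)]
        exact Y.one_mem
      · rw [show c = z from ext _ _ (fun v hv => by rw [cC v hv, mem_ker_disp.mp (hfixC.le hv)])
          (fun v hv => by rw [e v hv, h.apply_z hv])]
        exact h.mem
    have := Y.mul_mem hr this
    rwa [hcdef, mul_inv_cancel_left] at this
  set a' := b * a * b⁻¹ with ha'
  have ha'Q : a' ∈ Q := conj_mem_norm hbQ ha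
  have haz := hQz a ha
  have ha'z := hQz a' ha'Q
  have swap : ∀ u v : S, zCong z (a * u * a⁻¹) v → zCong z (a * v * a⁻¹) u := by
    intro u v e
    have := zCong.conj haz e
    rw [show a * (a * u * a⁻¹) * a⁻¹ = (a * a) * u * (a * a)⁻¹ by group, hp.sq] at this
    rw [show (1 : S) * u * 1⁻¹ = u by group] at this
    exact zCong.symm hzz this
  have conjσ : ∀ u v : S, zCong z (a * u * a⁻¹) v → zCong z (a' * (b * u * b⁻¹) * a'⁻¹) (b * v * b⁻¹) := by
    intro u v e
    have := zCong.conj h.fixed e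
    rwa [ha', show b * a * b⁻¹ * (b * u * b⁻¹) * (b * a * b⁻¹)⁻¹ = b * (a * u * a⁻¹) * b⁻¹ by group]
  have hb3u : ∀ u : S, b * (b * (b * u * b⁻¹) * b⁻¹) * b⁻¹ = u := by
    intro u
    calc b * (b * (b * u * b⁻¹) * b⁻¹) * b⁻¹ = b ^ 3 * u * (b ^ 3)⁻¹ := by simp only [pow_three]; group
      _ = u := by rw [hb3]; group
  -- a coset fixed by `a`
  have not1 : ∀ u : S, ¬ zCong z u 1 → ¬ zCong z (b * u * b⁻¹) 1 := by
    intro u hu e
    apply hu
    have hbi : b⁻¹ * z = z * b⁻¹ := ((show Commute b z from h.fixed).inv_left).eq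
    have := zCong.conj hbi e
    rwa [show b⁻¹ * (b * u * b⁻¹) * b⁻¹⁻¹ = u by group, show b⁻¹ * 1 * b⁻¹⁻¹ = (1 : S) by group] at this
  have a1one : ∀ u : S, ¬ zCong z u 1 → ¬ zCong z (a * u * a⁻¹) 1 := by
    intro u hu e
    have := swap u 1 e
    rw [show a * 1 * a⁻¹ = (1 : S) by group] at this
    exact hu (zCong.symm hzz this)
  obtain ⟨u₀, hu₀, hu₀1, hau₀⟩ : ∃ u ∈ Y, ¬ zCong z u 1 ∧ zCong z (a * u * a⁻¹) u := by
    obtain ⟨hall, d1, d2, d3⟩ := h.three_cosets h8 hy hy1
    have hy'Y := conj_mem_norm h.setting.norm hy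
    have hy''Y := conj_mem_norm h.setting.norm hy'Y
    rcases hall _ (hQY a ha y hy) with e | e | e | e
    · exact absurd e (a1one y hy1)
    · exact ⟨y, hy, hy1, e⟩
    · refine ⟨_, hy''Y, not1 _ (not1 _ hy1), ?_⟩
      rcases hall _ (hQY a ha _ hy''Y) with e' | e' | e' | e'
      · exact absurd e' (a1one _ (not1 _ (not1 _ hy1)))
      · exact absurd (zCong.trans hzz (zCong.symm hzz (swap _ _ e')) e) d2
      · exact absurd (zCong.trans hzz (zCong.symm hzz (swap _ _ e')) (swap _ _ e)) d3
      · exact e'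
    · refine ⟨_, hy'Y, not1 _ hy1, ?_⟩
      rcases hall _ (hQY a ha _ hy'Y) with e' | e' | e' | e'
      · exact absurd e' (a1one _ (not1 _ hy1))
      · exact absurd (zCong.trans hzz (zCong.symm hzz e) (swap _ _ e')) d2
      · exact e'
      · exact absurd (zCong.trans hzz (zCong.symm hzz (swap _ _ e')) (swap _ _ e)) d1
  obtain ⟨hall, d1, d2, d3⟩ := h.three_cosets h8 hu₀ hu₀1
  set u₁ := b * u₀ * b⁻¹ with hu₁
  set u₂ := b * u₁ * b⁻¹ with hu₂
  have hu1Y : u₁ ∈ Y := conj_mem_norm h.setting.norm hu₀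
  have hu2Y : u₂ ∈ Y := conj_mem_norm h.setting.norm hu1Y
  have au1 : zCong z (a * u₁ * a⁻¹) u₁ := by
    rcases hall _ (hQY a ha u₁ hu1Y) with e | e | e | e
    · exact absurd e (a1one _ (not1 _ hu₀1))
    · exact absurd (zCong.trans hzz (zCong.symm hzz (swap _ _ e)) hau₀) d1
    · exact e
    · exfalso
      have f1 : zCong z (a' * u₁ * a'⁻¹) u₁ := conjσ u₀ u₀ hau₀
      have f2 : zCong z (a' * u₂ * a'⁻¹) u₂ := by
        have e1 := zCong.conj ha'z e
        have e2 := zCong.conj haz f1
        rw [show a' * (a * u₁ * a⁻¹) * a'⁻¹ = (a' * a) * u₁ * (a' * a)⁻¹ by group, ← hp.comm,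
          show a * a' * u₁ * (a * a')⁻¹ = a * (a' * u₁ * a'⁻¹) * a⁻¹ by group] at e1
        exact zCong.trans hzz (zCong.symm hzz e1) (zCong.trans hzz e2 e)
      -- pull back by `b`
      have hbi : b⁻¹ * z = z * b⁻¹ := ((show Commute b z from h.fixed).inv_left).eq
      have g1 := zCong.conj hbi f2
      rw [hu₂, ha', show b⁻¹ * (b * a * b⁻¹ * (b * u₁ * b⁻¹) * (b * a * b⁻¹)⁻¹) * b⁻¹⁻¹ = a * u₁ * a⁻¹ by group,
        show b⁻¹ * (b * u₁ * b⁻¹) * b⁻¹⁻¹ = u₁ by group] at g1
      exact d2 (zCong.trans hzz (zCong.symm hzz e) g1)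
  have au2 : zCong z (a * u₂ * a⁻¹) u₂ := by
    rcases hall _ (hQY a ha u₂ hu2Y) with e | e | e | e
    · exact absurd e (a1one _ (not1 _ (not1 _ hu₀1)))
    · exact absurd (zCong.trans hzz (zCong.symm hzz (swap _ _ e)) hau₀) d3
    · exact absurd (zCong.trans hzz (zCong.symm hzz (swap _ _ e)) au1) d2
    · exact e
  have hfixa : ∀ u ∈ Y, zCong z (a * u * a⁻¹) u := by
    intro u hu
    rcases hall u hu with e | e | e | e
    · have := zCong.conj haz e
      rw [show a * 1 * a⁻¹ = (1 : S) by group] at this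
      exact zCong.trans hzz this (zCong.symm hzz e)
    · exact zCong.trans hzz (zCong.conj haz e) (zCong.trans hzz hau₀ (zCong.symm hzz e))
    · exact zCong.trans hzz (zCong.conj haz e) (zCong.trans hzz au1 (zCong.symm hzz e))
    · exact zCong.trans hzz (zCong.conj haz e) (zCong.trans hzz au2 (zCong.symm hzz e))
  obtain ⟨r, hr, hrx⟩ := h.inner h8 haz hfixa
  set x := r⁻¹ * a with hxdef
  have xC : ∀ v ∈ C, ρ x v = v := fun v hv => by
    rw [hxdef, mul_apply, hQC a ha v hv, (mem_fixSub ρ).mp hv _ (Y.inv_mem hr)]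
  have xz : x * z = z * x := (((show Commute r z from h.central r hr).inv_left).mul_left haz : Commute (r⁻¹ * a) z).eq
  have xW : ∀ w ∈ W, w * x = x * w := by
    intro w hw
    obtain ⟨s, hs, hs'⟩ := decompW w hw
    set c := s⁻¹ * w with hcdef
    have hcz : c * z = z * c := hzW c (Subgroup.mem_inf.mp hs').1
    have hxc : c * x = x * c := by
      refine ext _ _ (fun v hv => ?_) (fun v hv => ?_)
      · rw [mul_apply ρ c x, mul_apply ρ x c, xC v hv, xC _ (presC c hcz v hv)]
      · rw [mul_apply ρ c x, mul_apply ρ x c]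
        rcases csign c hs' with e | e
        · rw [e v hv, e _ (presU x xz v hv)]
        · rw [e v hv, e _ (presU x xz v hv), map_neg]
    have : w = s * c := by rw [hcdef]; group
    rw [this, mul_assoc, hxc, ← mul_assoc, ← hrx s hs, mul_assoc]
  have hxF : x ∈ Cfsg.fittingSubgroup S := by
    refine mem_pPrimeCore_centralizing_cores hO3 fun p hp' hp3 n hn => ?_
    by_cases hp2 : p = 2
    · subst hp2; exact xW n hn
    haveI : Fact p.Prime := ⟨hp'⟩
    haveI := H19.pCore_normal p S
    have h1 : Commute a n := four_centralizes hgen (hodd p hp' hp2) ha hn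
    have h2 : Commute r n := by
      have hdis : W ⊓ Cfsg.pCore p S = ⊥ := H19.inf_eq_bot_of_isPGroup_coprime (p := 2) hW2 (by
        obtain ⟨k, hk⟩ := (H19.pCore_isPGroup (G := S) p).exists_card_eq
        rw [hk]
        exact Nat.Coprime.pow_left k ((Nat.coprime_primes hp' Nat.prime_two).mpr hp2))
      exact Subgroup.commute_of_normal_of_disjoint W (Cfsg.pCore p S) hWn inferInstance
        (disjoint_iff.mpr hdis) r n (hYW hr) hn
    exact ((h2.inv_left).mul_left h1).symm.eq
  have haF : a ∈ Cfsg.fittingSubgroup S := by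
    have hrF : r ∈ Cfsg.fittingSubgroup S := H19.pCore_le_fitting 2 (hYW hr)
    have := Subgroup.mul_mem _ hrF hxF
    rwa [hxdef, mul_inv_cancel_left] at this
  have haW : a ∈ W := mem_pCore_two_of_fitting haF (k := 1) (by rw [pow_one, pow_two]; exact hp.sq)
  obtain ⟨g, hg, hga⟩ := hgen a ha
  have hgW : g ∈ W := by
    have ha'W : a' ∈ W := hWn.conj_mem a haW b
    rcases hallQ g hg with rfl | rfl | rfl | rfl
    exacts [W.one_mem, haW, ha'W, W.mul_mem haW ha'W]
  have haY : a ∈ Y := hga ▸ Subgroup.commutator_mem_commutator hgW (Subgroup.mem_zpowers b)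
  have ha1 : ¬ zCong z a 1 := by
    rintro (e | e)
    · apply hp.ne
      rw [ha', e]; group
    · apply hp.ne
      rw [ha', e, one_mul, h.fixed, mul_inv_cancel_right]
  apply h.ne_one
  rw [← h.comm_conj h8 haY ha1, commutatorElement_eq_one_iff_mul_comm]
  exact hp.comm

end Cfsg.Agent.H84.CubicBlock
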