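import Mathlib
import Cfsg.Agent.H84.CubicBlock.Small

set_option autoImplicit false

/-! The commutator of the `3'`-core with a cubic element. -/

open Module
open scoped commutatorElement

namespace Cfsg.Agent.H84.CubicBlock

variable {S : Type*} [Group S] [Finite S] {E : Type*} [AddCommGroup E] [Module (ZMod 3) E] [Finite E]
  {ρ : Representation (ZMod 3) S E} {b : S}

theorem two_pow_mod_thirteen {a c : ℕ} (hca : c ≤ a) (ha : a ≤ 10) (h : 2 ^ a % 13 = 2 ^ c % 13) :
    a = c := by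
  interval_cases a <;> interval_cases c <;> simp_all

/-- Odd `3'`-subgroups normalized by `b` are centralized by it. -/
theorem odd_subgroup_centralized [Group.IsSolvable S] (hc : IsCubic ρ b)
    (hO3 : Cfsg.pCore 3 S = ⊥)
    (hodd : ∀ r : ℕ, r.Prime → r ≠ 2 → ∀ n ∈ Cfsg.pCore r S, b * n = n * b)
    (hY : Nat.card ↥⁅Cfsg.pCore 2 S, Subgroup.zpowers b⁆ ≤ 32)
    {r : ℕ} [hr : Fact r.Prime] (hr2 : r ≠ 2) (hr3 : r ≠ 3) {X : Subgroup S} (hX : IsPGroup r X)
    (hbX : b ∈ Subgroup.normalizer (X : Set S)) : ∀ n ∈ X, b * n = n * b := by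
  by_contra hcon
  push Not at hcon
  obtain ⟨w, hw, hwb⟩ := hcon
  have hne : ⁅X, Subgroup.zpowers b⁆ ≠ ⊥ := fun e => hwb (commutator_bot_iff.mp e w hw)
  obtain ⟨hr13, hcard, hfix⟩ := card_commutator_odd hc hr2 hr3 hX hbX hne
  subst hr13
  set x := ⁅w, b⁆ with hx
  have hxX : x ∈ ⁅X, Subgroup.zpowers b⁆ :=
    Subgroup.commutator_mem_commutator hw (Subgroup.mem_zpowers b)
  have hx1 : x ≠ 1 := fun e => hwb (commutatorElement_eq_one_iff_mul_comm.mp e).symm
  have hx13 : x ^ 13 = 1 := by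
    have := pow_card_eq_one' (x := (⟨x, hxX⟩ : ↥⁅X, Subgroup.zpowers b⁆))
    rw [hcard] at this
    exact congrArg Subtype.val this
  have : Fact (Nat.Prime 2) := ⟨Nat.prime_two⟩
  set W := Cfsg.pCore 2 S with hW
  have hWn : W.Normal := H19.pCore_normal 2 S
  have hW2 : IsPGroup 2 W := H19.pCore_isPGroup 2
  have hnW : ∀ g : S, g ∈ Subgroup.normalizer (W : Set S) := fun g => by
    rw [Subgroup.normalizer_eq_top]; trivial
  set c := w * b * w⁻¹ with hcdef
  set Y := ⁅W, Subgroup.zpowers b⁆ with hYdef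
  set Yc := ⁅W, Subgroup.zpowers c⁆ with hYcdef
  have hYW : Y ≤ W := H20.commutator_le_of_le_normalizer (Subgroup.zpowers_le.mpr (hnW b))
  have hYcW : Yc ≤ W := H20.commutator_le_of_le_normalizer (Subgroup.zpowers_le.mpr (hnW c))
  have hYn : W ≤ Subgroup.normalizer (Y : Set S) := le_normalizer_commutator' (hnW b)
  set M := Y ⊔ Yc with hM
  have hMW : M ≤ W := sup_le hYW hYcW
  have hYc32 : Nat.card Yc = Nat.card Y := by
    have : Yc = Y.map (MulAut.conj w).toMonoidHom := by
      rw [hYdef, Subgroup.map_commutator, MonoidHom.map_zpowers,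
        show W.map (MulAut.conj w).toMonoidHom = W from
          Subgroup.mem_normalizer_iff_map_conj_eq.mp (hnW w)]
      rfl
    rw [this, Subgroup.card_map_of_injective (MulEquiv.injective (MulAut.conj w))]
  have hMcard : Nat.card M ≤ 2 ^ 10 := by
    let f : Yc × Y → S := fun p => p.1 * p.2
    let P : Subgroup S :=
      { carrier := Set.range f
        one_mem' := ⟨(1, 1), by simp [f]⟩
        mul_mem' := by
          rintro _ _ ⟨⟨u, v⟩, rfl⟩ ⟨⟨u', v'⟩, rfl⟩
          refine ⟨(u * u', ⟨((u' : S)⁻¹ * v * u') * v', Y.mul_mem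
            ((Subgroup.mem_normalizer_iff''.mp (hYn (hYcW u'.2)) _).mp v.2) v'.2⟩), ?_⟩
          show (u : S) * u' * ((u' : S)⁻¹ * v * u' * v') = u * v * (u' * v')
          group
        inv_mem' := by
          rintro _ ⟨⟨u, v⟩, rfl⟩
          refine ⟨(u⁻¹, ⟨(u : S) * (v : S)⁻¹ * (u : S)⁻¹, conj_mem_norm (hYn (hYcW u.2)) (Y.inv_mem v.2)⟩), ?_⟩
          show (u : S)⁻¹ * ((u : S) * (v : S)⁻¹ * (u : S)⁻¹) = ((u : S) * v)⁻¹
          group }
    have hle : M ≤ P := sup_le (fun v hv => ⟨(1, ⟨v, hv⟩), by simp [f]⟩)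
      (fun u hu => ⟨(⟨u, hu⟩, 1), by simp [f]⟩)
    calc Nat.card M ≤ Nat.card P := Nat.le_of_dvd Nat.card_pos (Subgroup.card_dvd_of_le hle)
      _ ≤ Nat.card (Yc × Y) := Finite.card_range_le f
      _ ≤ 2 ^ 10 := by
        rw [Nat.card_prod, hYc32, show 2 ^ 10 = 32 * 32 from rfl]
        exact Nat.mul_le_mul hY hY
  have hxW : ∀ u ∈ W, ⁅u, x⁆ ∈ M := by
    intro u hu
    have hbM : ⁅u, b⁻¹⁆ ∈ Y := Subgroup.commutator_mem_commutator hu (Subgroup.inv_mem _ (Subgroup.mem_zpowers b))
    have hcM : ∀ v ∈ W, ⁅v, c⁆ ∈ Yc := fun v hv => Subgroup.commutator_mem_commutator hv (Subgroup.mem_zpowers c)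
    rw [hx, show ⁅u, ⁅w, b⁆⁆ = ⁅u, c⁆ * ((⁅⁅u, b⁻¹⁆, c⁆)⁻¹ * ⁅u, b⁻¹⁆) by
      rw [hcdef]; simp only [commutatorElement_def]; group]
    exact M.mul_mem (Subgroup.mem_sup_right (hcM u hu))
      (M.mul_mem (M.inv_mem (Subgroup.mem_sup_right (hcM _ (hYW hbM)))) (Subgroup.mem_sup_left hbM))
  have hxN : x ∈ Subgroup.normalizer (M : Set S) := by
    rw [Subgroup.mem_normalizer_iff_map_conj_eq]
    refine Subgroup.eq_of_le_of_card_ge ?_ (by
      rw [Subgroup.card_map_of_injective (MulEquiv.injective (MulAut.conj x))])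
    rintro _ ⟨m, hm, rfl⟩
    show x * m * x⁻¹ ∈ M
    rw [show x * m * x⁻¹ = ⁅m, x⁆⁻¹ * m by simp only [commutatorElement_def]; group]
    exact M.mul_mem (M.inv_mem (hxW m (hMW hm))) hm
  -- `x` centralizes `M`
  let g : Function.End M := fun m => ⟨x * m * x⁻¹, conj_mem_norm hxN m.2⟩
  have hg : g ^ 13 ^ 1 = 1 := by
    have hpow : ∀ n : ℕ, ∀ m : M, ((g ^ n) m : S) = x ^ n * m * (x ^ n)⁻¹ := by
      intro n
      induction n with
      | zero => intro m; simp; rfl
      | succ n ih =>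
        intro m
        rw [pow_succ g]
        show ((g ^ n) (g m) : S) = _
        rw [ih, show ((g m : M) : S) = x * (m : S) * x⁻¹ from rfl, pow_succ]
        group
    funext m
    apply Subtype.ext
    rw [hpow, pow_one, hx13]
    show (1 : S) * m * 1⁻¹ = m
    group
  have : Fintype M := Fintype.ofFinite M
  haveI : Fact (Nat.Prime 13) := ⟨by norm_num⟩
  classical
  have hmod := Equiv.Perm.card_fixedPoints_modEq (p := 13) (n := 1) hg
  rw [← Nat.card_eq_fintype_card, ← Nat.card_eq_fintype_card] at hmod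
  set F := M ⊓ Subgroup.centralizer ({x} : Set S) with hF
  have hfixcard : Nat.card (Function.fixedPoints g) = Nat.card F := by
    refine Nat.card_congr
      { toFun := fun m => ⟨m.1.1, Subgroup.mem_inf.mpr ⟨m.1.2,
          Subgroup.mem_centralizer_singleton_iff.mpr (mul_inv_eq_iff_eq_mul.mp (congrArg Subtype.val m.2)).symm⟩⟩
        invFun := fun m => ⟨⟨m.1, (Subgroup.mem_inf.mp m.2).1⟩, Subtype.ext (mul_inv_eq_iff_eq_mul.mpr
          (Subgroup.mem_centralizer_singleton_iff.mp (Subgroup.mem_inf.mp m.2).2).symm)⟩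
        left_inv := fun m => rfl
        right_inv := fun m => rfl }
  obtain ⟨a, ha⟩ := (hW2.to_le hMW).exists_card_eq
  obtain ⟨d, hd⟩ := (hW2.to_le ((inf_le_left : F ≤ M).trans hMW)).exists_card_eq
  have hFM : F = M := by
    apply Subgroup.eq_of_le_of_card_ge inf_le_left
    rw [ha, hd]
    have hda : d ≤ a := (Nat.pow_dvd_pow_iff_le_right (by norm_num)).mp
      (hd ▸ ha ▸ Subgroup.card_dvd_of_le (inf_le_left : F ≤ M))
    have ha10 : a ≤ 10 := (Nat.pow_le_pow_iff_right (by norm_num)).mp (ha ▸ hMcard)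
    have hm : Nat.card M ≡ Nat.card F [MOD 13] := hfixcard ▸ hmod
    rw [ha, hd] at hm
    rw [two_pow_mod_thirteen hda ha10 hm]
  have hxWc : ∀ u ∈ W, u * x = x * u := by
    have hA : Subgroup.zpowers x ≤ Subgroup.centralizer (W : Set S) := by
      refine H20.le_centralizer_of_stabilizes_series (N := M) (Subgroup.zpowers_le.mpr (hnW x)) ?_
        (Or.inl (solvable_zpowers x)) ?_ ?_
      · obtain ⟨k, hk⟩ := hW2.exists_card_eq
        rw [hk, Nat.card_zpowers]
        exact Nat.Coprime.pow_right k (Nat.Coprime.coprime_dvd_left (orderOf_dvd_of_pow_eq_one hx13) (by norm_num))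
      · rw [Subgroup.commutator_le]
        intro u hu g hg
        rw [← mem_powers_iff_mem_zpowers] at hg
        obtain ⟨k, rfl⟩ := hg
        show ⁅u, x ^ k⁆ ∈ M
        induction k with
        | zero => simp [M.one_mem]
        | succ k ih =>
          rw [show ⁅u, x ^ (k + 1)⁆ = ⁅u, x⁆ * (x * ⁅u, x ^ k⁆ * x⁻¹) by
            rw [pow_succ']; simp only [commutatorElement_def]; group]
          exact M.mul_mem (hxW u hu) (conj_mem_norm hxN ih)
      · rw [Subgroup.zpowers_le, Subgroup.mem_centralizer_iff]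
        intro m hm
        exact Subgroup.mem_centralizer_singleton_iff.mp (Subgroup.mem_inf.mp (hFM.ge hm)).2
    exact fun u hu => Subgroup.mem_centralizer_iff.mp (hA (Subgroup.mem_zpowers x)) u hu
  have hxF : x ∈ Cfsg.fittingSubgroup S := by
    refine mem_pPrimeCore_centralizing_cores hO3 fun p hp hp3 n hn => ?_
    by_cases hp2 : p = 2
    · subst hp2; exact hxWc n hn
    haveI := H19.pCore_normal p S
    exact Subgroup.mem_centralizer_iff.mp (comm_commute_of_centralizes (hodd p hp hp2) X hxX) n hn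
  have hx13' : x ∈ Cfsg.pCore 13 S := by
    have hP : IsPGroup 13 (Subgroup.zpowers x) := IsPGroup.of_card (n := 1) (by
      rw [Nat.card_zpowers, pow_one]; exact orderOf_eq_prime hx13 hx1)
    exact H51.pgroup_le_pCore_of_le_fitting hP (Subgroup.zpowers_le.mpr hxF) (Subgroup.mem_zpowers x)
  exact hx1 (hfix x hxX (hodd 13 (by norm_num) (by norm_num) x hx13'))

/-- `[O_{3'}(S), b] ≤ O_2(S)`. -/
theorem commutator_le_two_core [Group.IsSolvable S] (hb3 : b ^ 3 = 1)
    (hX : ∀ r : ℕ, r.Prime → r ≠ 2 → r ≠ 3 → ∀ X : Subgroup S, IsPGroup r X →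
      b ∈ Subgroup.normalizer (X : Set S) → ∀ n ∈ X, b * n = n * b) :
    ⁅Cfsg.pPrimeCore 3 S, Subgroup.zpowers b⁆ ≤ Cfsg.pCore 2 S := by
  have : Fact (Nat.Prime 2) := ⟨Nat.prime_two⟩
  set K := Cfsg.pPrimeCore 3 S with hK
  set W := Cfsg.pCore 2 S with hW
  have hWn : W.Normal := H19.pCore_normal 2 S
  have hKn : K.Normal := H19.pPrimeCore_normal 3 S
  have hK3 : ¬ 3 ∣ Nat.card K := fun h =>
    Nat.Prime.not_dvd_one Nat.prime_three
      ((H19.pPrimeCore_coprime (G := S) 3).gcd_eq_one ▸ Nat.dvd_gcd h dvd_rfl)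
  have hWK : W ≤ K := H19.le_pPrimeCore hWn (by
    obtain ⟨k, hk⟩ := (H19.pCore_isPGroup (G := S) 2).exists_card_eq
    rw [hW, hk]
    exact Nat.Coprime.pow_left k (by norm_num))
  let q := QuotientGroup.mk' W
  have hq : Function.Surjective q := QuotientGroup.mk'_surjective W
  set Kb := K.map q with hKb
  have hKbn : Kb.Normal := hKn.map q hq
  have hKb3 : ¬ 3 ∣ Nat.card Kb := fun h => hK3 (h.trans (Subgroup.card_map_dvd K q))
  set bb := q b with hbb
  have hbb3 : bb ^ 3 = 1 := by rw [hbb, ← map_pow, hb3, map_one]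
  set Fb := (Cfsg.fittingSubgroup Kb).map Kb.subtype with hFb
  haveI : (Cfsg.fittingSubgroup Kb).Characteristic := H19.fitting_characteristic _
  have hFbn : Fb.Normal := inferInstance
  -- `bb` centralizes each core of `Kb`
  have hcore : ∀ p : ℕ, p.Prime → ∀ n ∈ (Cfsg.pCore p Kb).map Kb.subtype, bb * n = n * bb := by
    intro p hp
    haveI : Fact p.Prime := ⟨hp⟩
    haveI : (Cfsg.pCore p Kb).Characteristic := H19.pCore_characteristic p _
    set Lb := (Cfsg.pCore p Kb).map Kb.subtype with hLb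
    have hLbn : Lb.Normal := inferInstance
    have hLp : IsPGroup p Lb := (H19.pCore_isPGroup p).map _
    set L := Lb.comap q with hL
    have hLn : L.Normal := hLbn.comap q
    have hLK : L ≤ K := by
      intro l hl
      obtain ⟨k, hk, he⟩ := (Subgroup.map_subtype_le (Cfsg.pCore p Kb) hl : q l ∈ Kb)
      have : k⁻¹ * l ∈ W := (QuotientGroup.eq (s := W)).mp he
      have := K.mul_mem hk (hWK this)
      rwa [mul_inv_cancel_left] at this
    by_cases hp2 : p = 2
    · subst hp2
      have hLW : L ≤ W := H19.le_pCore hLn (hLp.comap_of_ker_isPGroup q (by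
        rw [QuotientGroup.ker_mk']; exact H19.pCore_isPGroup 2))
      intro n hn
      obtain ⟨l, rfl⟩ := hq n
      have : q l = 1 := (QuotientGroup.eq_one_iff l).mpr (hLW hn)
      rw [this, mul_one, one_mul]
    by_cases hp3 : p = 3
    · subst hp3
      intro n hn
      have : Lb = ⊥ := by
        obtain ⟨k, hk⟩ := hLp.exists_card_eq
        apply Subgroup.card_eq_one.mp
        rw [hk]
        rcases Nat.eq_zero_or_pos k with rfl | hk0
        · rfl
        · exact absurd ((dvd_pow_self 3 hk0.ne').trans (hk ▸ Subgroup.card_dvd_of_le (Subgroup.map_subtype_le _))) hKb3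
      rw [this, Subgroup.mem_bot] at hn
      rw [hn, mul_one, one_mul]
    have hL3 : ¬ 3 ∣ Nat.card L := fun h => hK3 (h.trans (Subgroup.card_dvd_of_le hLK))
    have hnL : b ∈ Subgroup.normalizer (L : Set S) := by rw [Subgroup.normalizer_eq_top]; trivial
    obtain ⟨P, hPL, hPb, hPp, hPc⟩ := H20.exists_invariant_sylow_subgroup
      (Subgroup.zpowers_le.mpr hnL) (coprime_zpowers hb3 hL3) (Or.inl (solvable_zpowers b)) p
    have hPb' := hX p hp hp2 hp3 P hPp (hPb (Subgroup.mem_zpowers b))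
    have hinj : ∀ u ∈ P, q u = 1 → u = 1 := by
      intro u hu he
      have huW : u ∈ W := (QuotientGroup.eq_one_iff u).mp he
      have hdis : P ⊓ W = ⊥ := H19.inf_eq_bot_of_isPGroup_coprime hPp (by
        obtain ⟨k, hk⟩ := (H19.pCore_isPGroup (G := S) 2).exists_card_eq
        rw [hW, hk]
        exact Nat.Coprime.pow_left k ((Nat.coprime_primes Nat.prime_two hp).mpr (Ne.symm hp2)))
      exact (Subgroup.mem_bot.mp (hdis.le ⟨hu, huW⟩))
    have hPmap : P.map q = Lb := by
      apply Subgroup.eq_of_le_of_card_ge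
      · exact Subgroup.map_le_iff_le_comap.mpr hPL
      · have hc : Nat.card (P.map q) = Nat.card P := by
          refine (Nat.card_congr (Equiv.ofBijective (fun u : P => (⟨q u, Subgroup.mem_map_of_mem q u.2⟩ : P.map q)) ⟨?_, ?_⟩)).symm
          · intro u v e
            have e' : q u = q v := congrArg Subtype.val e
            refine Subtype.ext (inv_mul_eq_one.mp (hinj _ (P.mul_mem (P.inv_mem u.2) v.2) ?_))
            rw [map_mul, map_inv, e', inv_mul_cancel]
          · rintro ⟨_, u, hu, rfl⟩; exact ⟨⟨u, hu⟩, rfl⟩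
        rw [hc, hPc]
        obtain ⟨j, hj⟩ := hLp.exists_card_eq
        rw [hj]
        apply Nat.pow_le_pow_right hp.pos
        have hdvd : p ^ j ∣ Nat.card L := by
          rw [← hj]
          have : L.map q = Lb := Subgroup.map_comap_eq_self_of_surjective hq Lb
          rw [← this]
          exact Subgroup.card_map_dvd L q
        exact (hp.pow_dvd_iff_le_factorization Nat.card_pos.ne').mp hdvd
    intro n hn
    obtain ⟨u, hu, rfl⟩ := hPmap.ge hn
    rw [hbb, ← map_mul, ← map_mul, hPb' u hu]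
  have hbF : ∀ n ∈ Fb, bb * n = n * bb := by
    have : Fb ≤ Subgroup.centralizer ({bb} : Set (S ⧸ W)) := by
      rw [hFb, H19.fitting_eq_iSup_pCore, Subgroup.map_iSup]
      refine iSup_le fun p n hn => ?_
      rw [Subgroup.mem_centralizer_singleton_iff]
      exact (hcore p p.2 n hn).symm
    exact fun n hn => (Subgroup.mem_centralizer_singleton_iff.mp (this hn)).symm
  have hbKb : bb ∈ Subgroup.normalizer (Kb : Set (S ⧸ W)) := by rw [Subgroup.normalizer_eq_top]; trivial
  have h1 : ∀ k ∈ ⁅Kb, Subgroup.zpowers bb⁆, bb * k = k * bb := by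
    intro k hk
    apply hbF
    have hkK : k ∈ Kb := H20.commutator_le_of_le_normalizer (Subgroup.zpowers_le.mpr hbKb) hk
    have hkC := comm_commute_of_centralizes (N := Fb) hbF Kb hk
    refine ⟨⟨k, hkK⟩, H19.centralizer_fitting_le ?_, rfl⟩
    rw [Subgroup.mem_centralizer_iff]
    intro f hf
    exact Subtype.ext (Subgroup.mem_centralizer_iff.mp hkC f ⟨f, hf, rfl⟩)
  have h2 : ⁅Kb, Subgroup.zpowers bb⁆ = ⊥ :=
    (commutator_twice hbb3 hbKb hKb3).symm.trans (commutator_bot_iff.mpr h1)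
  rw [Subgroup.commutator_le]
  intro k hk g hg
  rw [← mem_powers_iff_mem_zpowers] at hg
  obtain ⟨n, rfl⟩ := hg
  rw [← QuotientGroup.eq_one_iff (N := W)]
  show q ⁅k, b ^ n⁆ = 1
  have : q ⁅k, b ^ n⁆ ∈ ⁅Kb, Subgroup.zpowers bb⁆ := by
    rw [map_commutatorElement, map_pow, ← hbb]
    exact Subgroup.commutator_mem_commutator (Subgroup.mem_map_of_mem q hk)
      (Subgroup.pow_mem _ (Subgroup.mem_zpowers bb) n)
  rwa [h2, Subgroup.mem_bot] at this

end Cfsg.Agent.H84.CubicBlock
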